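import Cfsg.Agent.H450.UF.Geo

/-!
# Isotropic vectors in additive subgroups (helper449, for S2196)

* `card_fix` : the fixed field of `σ` has at most `√|F|` elements; `card_skew` : the same for `{a | σ a = -a}`;
* `exists_iso_of_card` : an additive subgroup of a Hermitian space with more than `|F|` elements contains a non zero
  isotropic vector (Chevalley-Warning).
-/

set_option autoImplicit false
set_option linter.unusedSectionVars false

namespace Cfsg.Agent.H449.U

open Module Cfsg.Agent.H91.U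
open Cfsg.Agent.H450.UF (self_fix)

variable {F V : Type*} [Field F] [AddCommGroup V] [Module F V] {σ : F →+* F} {B : V →ₛₗ[σ] V →ₗ[F] F}

theorem exists_moved (hne : σ ≠ RingHom.id F) : ∃ a : F, σ a ≠ a := by
  by_contra hcon
  push Not at hcon
  exact hne (RingHom.ext hcon)

theorem card_fix [Finite F] (hne : σ ≠ RingHom.id F) : Nat.card {a : F // σ a = a} ^ 2 ≤ Nat.card F := by
  obtain ⟨a, ha⟩ := exists_moved hne
  rw [pow_two, ← Nat.card_prod]
  refine Nat.card_le_card_of_injective (fun x : {a : F // σ a = a} × {a : F // σ a = a} => x.1.1 + x.2.1 * a) ?_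
  rintro ⟨x, y⟩ ⟨x', y'⟩ h
  have h1 : x.1 + y.1 * a = x'.1 + y'.1 * a := h
  have h2 := congrArg σ h1
  rw [map_add, map_add, map_mul, map_mul, x.2, x'.2, y.2, y'.2] at h2
  have h3 : (y.1 - y'.1) * (σ a - a) = 0 := by linear_combination h2 - h1
  have h4 : y = y' := Subtype.ext (sub_eq_zero.1 ((mul_eq_zero.1 h3).resolve_right (sub_ne_zero.2 ha)))
  subst h4
  have h5 : x = x' := Subtype.ext (add_right_cancel h1)
  rw [h5]

theorem card_skew [Finite F] (hne : σ ≠ RingHom.id F) : Nat.card {a : F // a + σ a = 0} ^ 2 ≤ Nat.card F := by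
  refine le_trans (Nat.pow_le_pow_left ?_ 2) (card_fix hne)
  by_cases h : ∃ ε : F, ε + σ ε = 0 ∧ ε ≠ 0
  · obtain ⟨ε, h1, h2⟩ := h
    have h1' : σ ε = -ε := by linear_combination h1
    refine Nat.card_le_card_of_injective (fun a : {a : F // a + σ a = 0} => (⟨a.1 / ε, ?_⟩ : {a : F // σ a = a})) ?_
    · have h3 : σ a.1 = -a.1 := by linear_combination a.2
      rw [map_div₀, h1', h3, neg_div_neg_eq]
    · intro a b h
      have h3 : a.1 / ε = b.1 / ε := congrArg Subtype.val h
      exact Subtype.ext ((div_left_inj' h2).1 h3)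
  · push Not at h
    refine Nat.card_le_card_of_injective (fun a : {a : F // a + σ a = 0} => (⟨a.1, ?_⟩ : {a : F // σ a = a})) ?_
    · rw [h a.1 a.2, map_zero]
    · intro a b h
      exact Subtype.ext (congrArg (fun z : {a : F // σ a = a} => z.1) h)

theorem exists_iso_aux [Fintype F] [FiniteDimensional F V] (hB : HForm B) (ℓ : ℕ) [Fact ℓ.Prime] [Module (ZMod ℓ) F]
    [Module (ZMod ℓ) V] (W : AddSubgroup V) (h : Fintype.card F < Nat.card W) : ∃ w ∈ W, w ≠ 0 ∧ B w w = 0 := by
  classical
  have hp : ℓ.Prime := Fact.out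
  have hfin : Finite V := Module.finite_of_finite F
  let W' : Submodule (ZMod ℓ) V := AddSubgroup.toZModSubmodule ℓ W
  have hW' : ∀ v : V, v ∈ W' ↔ v ∈ W := fun v => AddSubgroup.mem_toZModSubmodule ℓ
  have : Module.Finite (ZMod ℓ) V := Module.Finite.of_finite
  have : Module.Finite (ZMod ℓ) F := Module.Finite.of_finite
  obtain ⟨e, he⟩ : ∃ e, finrank (ZMod ℓ) W' = e := ⟨_, rfl⟩
  let w := Module.finBasisOfFinrankEq (ZMod ℓ) W' he
  have hcW : Nat.card W = ℓ ^ e := by
    have h1 := Module.natCard_eq_pow_finrank (K := ZMod ℓ) (V := W')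
    rw [he, Nat.card_zmod] at h1
    exact h1
  -- the fixed field
  let K : Submodule (ZMod ℓ) F :=
    { carrier := {a | σ a = a}
      add_mem' := fun {a b} ha hb => by
        change σ (a + b) = a + b
        rw [map_add, show σ a = a from ha, show σ b = b from hb]
      zero_mem' := map_zero σ
      smul_mem' := fun c a ha => by
        change σ (c • a) = c • a
        rw [ZMod.map_smul σ, show σ a = a from ha] }
  obtain ⟨r, hr⟩ : ∃ r, finrank (ZMod ℓ) K = r := ⟨_, rfl⟩
  let bK := Module.finBasisOfFinrankEq (ZMod ℓ) K hr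
  obtain ⟨pr, hpr⟩ := K.subtype.exists_leftInverse_of_injective (Submodule.ker_subtype K)
  have h2r : 2 * r < e := by
    have h1 := Module.natCard_eq_pow_finrank (K := ZMod ℓ) (V := K)
    rw [hr, Nat.card_zmod] at h1
    have h2 : Nat.card K ^ 2 ≤ Nat.card F := card_fix hB.ne_id
    rw [h1, ← pow_mul] at h2
    rw [Nat.card_eq_fintype_card] at h2
    have h3 := h2.trans_lt h
    rw [hcW] at h3
    have := (Nat.pow_lt_pow_iff_right hp.one_lt).1 h3
    omega
  -- the polynomials
  let co : Fin r → F →ₗ[ZMod ℓ] ZMod ℓ := fun i => (bK.coord i).comp pr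
  let f : Fin r → MvPolynomial (Fin e) (ZMod ℓ) := fun i => ∑ j : Fin e, ∑ k : Fin e,
    MvPolynomial.C (co i (B (w j : V) (w k : V))) * (MvPolynomial.X j * MvPolynomial.X k)
  have hdeg : ∀ i, (f i).totalDegree ≤ 2 := by
    intro i
    refine MvPolynomial.totalDegree_finsetSum_le fun j _ => MvPolynomial.totalDegree_finsetSum_le fun k _ => ?_
    refine (MvPolynomial.totalDegree_mul _ _).trans ?_
    rw [MvPolynomial.totalDegree_C, zero_add]
    refine (MvPolynomial.totalDegree_mul _ _).trans ?_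
    rw [MvPolynomial.totalDegree_X, MvPolynomial.totalDegree_X]
  have hcw := char_dvd_card_solutions_of_fintype_sum_lt (K := ZMod ℓ) (σ := Fin e) (ι := Fin r) ℓ (f := f) (by
    refine (Finset.sum_le_sum fun i _ => hdeg i).trans_lt ?_
    rw [Finset.sum_const, Finset.card_univ, Fintype.card_fin, Fintype.card_fin, smul_eq_mul]
    omega)
  have hsum : ∀ x : Fin e → ZMod ℓ, B (∑ j, x j • (w j : V)) (∑ k, x k • (w k : V)) =
      ∑ j, ∑ k, (x j * x k) • B (w j : V) (w k : V) := by
    intro x
    rw [show B (∑ j, x j • (w j : V)) = ∑ j, B (x j • (w j : V)) from map_sum B _ _, LinearMap.sum_apply]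
    refine Finset.sum_congr rfl fun j _ => ?_
    rw [map_sum]
    refine Finset.sum_congr rfl fun k _ => ?_
    have h1 : B (x j • (w j : V)) (x k • (w k : V)) = x k • B (x j • (w j : V)) (w k : V) :=
      ZMod.map_smul (B (x j • (w j : V))) (x k) (w k : V)
    have h2 : B (x j • (w j : V)) (w k : V) = x j • B (w j : V) (w k : V) :=
      ZMod.map_smul (B.flip (w k : V)) (x j) (w j : V)
    rw [h1, h2, smul_smul, mul_comm]
  have heval : ∀ (x : Fin e → ZMod ℓ) i, MvPolynomial.eval x (f i) =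
      co i (B (∑ j, x j • (w j : V)) (∑ k, x k • (w k : V))) := by
    intro x i
    rw [hsum, map_sum, map_sum]
    refine Finset.sum_congr rfl fun j _ => ?_
    rw [map_sum, map_sum]
    refine Finset.sum_congr rfl fun k _ => ?_
    rw [map_mul, map_mul, MvPolynomial.eval_C, MvPolynomial.eval_X, MvPolynomial.eval_X, map_smul,
      smul_eq_mul, mul_comm]
  -- a non zero solution
  have h0 : ∀ i, MvPolynomial.eval (0 : Fin e → ZMod ℓ) (f i) = 0 := by
    intro i
    rw [heval]
    simp only [Pi.zero_apply, zero_smul, Finset.sum_const_zero, map_zero]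
  have hcard : 1 < Fintype.card {x : Fin e → ZMod ℓ // ∀ i, MvPolynomial.eval x (f i) = 0} := by
    have h1 : 0 < Fintype.card {x : Fin e → ZMod ℓ // ∀ i, MvPolynomial.eval x (f i) = 0} :=
      Fintype.card_pos_iff.2 ⟨⟨0, h0⟩⟩
    exact hp.one_lt.trans_le (Nat.le_of_dvd h1 (by convert hcw))
  obtain ⟨x, hx⟩ := Fintype.exists_ne_of_one_lt_card hcard ⟨0, h0⟩
  have hx0 : x.1 ≠ 0 := fun h => hx (Subtype.ext h)
  refine ⟨∑ j, x.1 j • (w j : V), ?_, ?_, ?_⟩
  · rw [← hW']
    exact Submodule.sum_mem _ fun j _ => Submodule.smul_mem _ _ (w j).2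
  · intro h1
    apply hx0
    have h2 : ∑ j, x.1 j • w j = 0 := by
      apply Subtype.ext
      rw [Submodule.coe_sum]
      exact h1
    exact funext fun j => Fintype.linearIndependent_iff.1 w.linearIndependent x.1 h2 j
  · set v := ∑ j, x.1 j • (w j : V) with hv
    have h1 : pr (B v v) = 0 := by
      rw [← bK.repr.map_eq_zero_iff]
      ext i
      have h3 := heval x.1 i
      rw [x.2 i, ← hv] at h3
      exact h3.symm
    have h2 : (⟨B v v, self_fix hB v⟩ : K) = pr (B v v) :=
      (congrArg (fun g : K →ₗ[ZMod ℓ] K => g ⟨B v v, self_fix hB v⟩) hpr).symm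
    rw [h1] at h2
    exact congrArg Subtype.val h2

/-- **Isotropic vectors in additive subgroups.** -/
theorem exists_iso_of_card [Fintype F] [FiniteDimensional F V] (hB : HForm B) (W : AddSubgroup V)
    (h : Fintype.card F < Nat.card W) : ∃ w ∈ W, w ≠ 0 ∧ B w w = 0 := by
  obtain ⟨ℓ, hℓ⟩ := CharP.exists F
  have hp : ℓ.Prime := CharP.char_is_prime F ℓ
  have hf : Fact ℓ.Prime := ⟨hp⟩
  have hF0 : ∀ a : F, ℓ • a = 0 := fun a => by rw [nsmul_eq_mul, CharP.cast_eq_zero, zero_mul]
  have hV0 : ∀ v : V, ℓ • v = 0 := fun v => by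
    rw [← one_smul F v, ← smul_assoc, hF0, zero_smul]
  exact @exists_iso_aux F V _ _ _ σ B _ _ hB ℓ hf (AddCommGroup.zmodModule hF0) (AddCommGroup.zmodModule hV0) W h

end Cfsg.Agent.H449.U
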