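import Mathlib

/-!
# Sets meeting every line in `0` or `b` points (helper449, for S2196)

`S` is a union of points (without `0`) of a finite vector space `M` over `F`, `q = |F|`, such that every line meets `S`
in `0` or `b` points.

* `count` : a subspace `P` meeting `S` has `(q - 1) + (q ^ (dim P - 1) - 1) (b - 1)` vectors in `S`;
* `Cone.dvd` : the number of vectors of a union of points is divisible by `q - 1`.
-/

set_option autoImplicit false
set_option linter.unusedSectionVars false

namespace Cfsg.Agent.H449.U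

open Module

/-- unions of points -/
structure Cone (F : Type*) {M : Type*} [Field F] [AddCommGroup M] [Module F M] (S : Set M) : Prop where
  zero : (0 : M) ∉ S
  smul : ∀ c : F, c ≠ 0 → ∀ v ∈ S, c • v ∈ S

section

variable {F M : Type*} [Field F] [Fintype F] [AddCommGroup M] [Module F M] [Finite M]

theorem Cone.smul_iff {S : Set M} (hS : Cone F S) {c : F} (hc : c ≠ 0) {v : M} : c • v ∈ S ↔ v ∈ S := by
  refine ⟨fun h => ?_, hS.smul c hc v⟩
  have := hS.smul c⁻¹ (inv_ne_zero hc) _ h
  rwa [smul_smul, inv_mul_cancel₀ hc, one_smul] at this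

theorem Cone.ne {S : Set M} (hS : Cone F S) {v : M} (hv : v ∈ S) : v ≠ 0 := fun h => hS.zero (h ▸ hv)

/-- a free action -/
theorem card_dvd_of_free {G X : Type*} [Group G] [Finite G] [Finite X] [MulAction G X]
    (h : ∀ (g : G) (x : X), g • x = x → g = 1) : Nat.card G ∣ Nat.card X := by
  classical
  have : Fintype G := Fintype.ofFinite G
  have : Fintype X := Fintype.ofFinite X
  have : Fintype (MulAction.orbitRel.Quotient G X) := Fintype.ofFinite _
  have h1 := MulAction.sum_card_fixedBy_eq_card_orbits_mul_card_group G X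
  have h2 : ∀ g : G, Fintype.card (MulAction.fixedBy X g) = if g = 1 then Fintype.card X else 0 := by
    intro g
    split_ifs with hg
    · subst hg
      refine Fintype.card_congr (Equiv.subtypeUnivEquiv fun v => ?_)
      exact one_smul G v
    · rw [Fintype.card_eq_zero_iff]
      exact ⟨fun v => hg (h g v.1 v.2)⟩
  simp only [h2, Finset.sum_ite_eq', Finset.mem_univ, if_true] at h1
  rw [Nat.card_eq_fintype_card, Nat.card_eq_fintype_card, h1]
  exact dvd_mul_left _ _

/-- the number of vectors of a union of points -/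
theorem Cone.dvd {S : Set M} (hS : Cone F S) : (Fintype.card F - 1) ∣ S.ncard := by
  classical
  let act : MulAction Fˣ S :=
    { smul := fun c v => ⟨(c : F) • v.1, hS.smul _ c.ne_zero _ v.2⟩
      one_smul := fun v => Subtype.ext (one_smul F v.1)
      mul_smul := fun a b v => Subtype.ext (by
        change ((a * b : Fˣ) : F) • v.1 = (a : F) • (b : F) • v.1
        rw [Units.val_mul, mul_smul]) }
  have h1 := card_dvd_of_free (G := Fˣ) (X := S) (by
    intro c v h
    have h2 : (c : F) • v.1 = v.1 := congrArg Subtype.val h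
    have h3 : ((c : F) - 1) • v.1 = 0 := by rw [sub_smul, one_smul, h2, sub_self]
    rcases smul_eq_zero.1 h3 with h4 | h4
    · exact Units.ext (sub_eq_zero.1 h4)
    · exact absurd h4 (hS.ne v.2))
  rwa [Nat.card_units, Nat.card_eq_fintype_card, Nat.card_coe_set_eq] at h1

/-- the preimage of the line spanned by `y` -/
def pre (E : Submodule F M) (y : M ⧸ E) : Submodule F M := (Submodule.span F {y}).comap E.mkQ

theorem le_pre (E : Submodule F M) (y : M ⧸ E) : E ≤ pre E y := by
  intro v hv
  change E.mkQ v ∈ Submodule.span F {y}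
  rw [(Submodule.Quotient.mk_eq_zero E (x := v)).2 hv |> (fun h => (h : E.mkQ v = 0))]
  exact zero_mem _

/-- fibres -/
def fib (S : Set M) (E : Submodule F M) (y : M ⧸ E) : Set M := {v | v ∈ S ∧ E.mkQ v = y}

theorem ncard_fib_smul {S : Set M} (hS : Cone F S) (E : Submodule F M) (y : M ⧸ E) {c : F} (hc : c ≠ 0) :
    (fib S E (c • y)).ncard = (fib S E y).ncard := by
  have h1 : fib S E (c • y) = (fun v => c • v) '' fib S E y := by
    ext v
    constructor
    · rintro ⟨h1, h2⟩
      refine ⟨c⁻¹ • v, ⟨hS.smul _ (inv_ne_zero hc) _ h1, ?_⟩, ?_⟩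
      · rw [map_smul, h2, smul_smul, inv_mul_cancel₀ hc, one_smul]
      · change c • c⁻¹ • v = v
        rw [smul_smul, mul_inv_cancel₀ hc, one_smul]
    · rintro ⟨w, ⟨h1, h2⟩, rfl⟩
      refine ⟨hS.smul _ hc _ h1, ?_⟩
      change E.mkQ (c • w) = _
      rw [map_smul, h2]
  rw [h1]
  refine Set.ncard_image_of_injective _ ?_
  intro v w h
  exact smul_right_injective M hc h

/-- the number of vectors of `S` in the preimage of a line -/
theorem ncard_pre {S : Set M} (hS : Cone F S) (E : Submodule F M) {y : M ⧸ E} (hy : y ≠ 0) :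
    ((pre E y : Set M) ∩ S).ncard = ((E : Set M) ∩ S).ncard + (Fintype.card F - 1) * (fib S E y).ncard := by
  classical
  have h1 : ((pre E y : Set M) ∩ S) = ((E : Set M) ∩ S) ∪ ⋃ c ∈ (Finset.univ : Finset Fˣ), fib S E ((c : F) • y) := by
    ext v
    constructor
    · rintro ⟨h1, h2⟩
      obtain ⟨c, hc⟩ := Submodule.mem_span_singleton.1 h1
      by_cases h0 : c = 0
      · left
        refine ⟨?_, h2⟩
        rw [h0, zero_smul] at hc
        exact (Submodule.Quotient.mk_eq_zero E).1 hc.symm
      · right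
        rw [Set.mem_iUnion₂]
        exact ⟨Units.mk0 c h0, Finset.mem_univ _, h2, hc.symm⟩
    · rintro (⟨h1, h2⟩ | h1)
      · exact ⟨le_pre E y h1, h2⟩
      · rw [Set.mem_iUnion₂] at h1
        obtain ⟨c, -, h2, h3⟩ := h1
        exact ⟨Submodule.mem_span_singleton.2 ⟨c, h3.symm⟩, h2⟩
  rw [h1, Set.ncard_union_eq]
  · congr 1
    have h2 : (⋃ c ∈ (Finset.univ : Finset Fˣ), fib S E ((c : F) • y)).ncard =
        ∑ c ∈ (Finset.univ : Finset Fˣ), (fib S E ((c : F) • y)).ncard := by
      rw [Set.ncard_eq_toFinset_card _ (Set.toFinite _)]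
      have h3 : (Set.toFinite (⋃ c ∈ (Finset.univ : Finset Fˣ), fib S E ((c : F) • y))).toFinset =
          (Finset.univ : Finset Fˣ).biUnion fun c => (Set.toFinite (fib S E ((c : F) • y))).toFinset := by
        ext v
        simp
      rw [h3, Finset.card_biUnion]
      · exact Finset.sum_congr rfl fun c _ => (Set.ncard_eq_toFinset_card _ _).symm
      · intro c _ c' _ hcc
        change Disjoint _ _
        rw [Finset.disjoint_left]
        intro v hv hv'
        rw [Set.Finite.mem_toFinset] at hv hv'
        apply hcc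
        have h4 : (c : F) • y = (c' : F) • y := hv.2.symm.trans hv'.2
        have h5 : ((c : F) - c') • y = 0 := by rw [sub_smul, h4, sub_self]
        rcases smul_eq_zero.1 h5 with h6 | h6
        · exact Units.ext (sub_eq_zero.1 h6)
        · exact absurd h6 hy
    rw [h2, Finset.sum_congr rfl fun c _ => ncard_fib_smul hS E y c.ne_zero, Finset.sum_const, smul_eq_mul]
    congr 1
    rw [Finset.card_univ, Fintype.card_units]
  · rw [Set.disjoint_left]
    rintro v ⟨h2, -⟩ h3
    rw [Set.mem_iUnion₂] at h3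
    obtain ⟨c, -, -, h4⟩ := h3
    have h5 : E.mkQ v = 0 := (Submodule.Quotient.mk_eq_zero E).2 h2
    rw [h5] at h4
    exact smul_ne_zero c.ne_zero hy h4.symm

theorem finrank_pre [FiniteDimensional F M] (E : Submodule F M) {y : M ⧸ E} (hy : y ≠ 0) :
    finrank F (pre E y) = finrank F E + 1 := by
  have h1 : (pre E y).map E.mkQ = Submodule.span F {y} :=
    Submodule.map_comap_eq_of_surjective (Submodule.mkQ_surjective E) _
  have h2 := LinearMap.finrank_range_add_finrank_ker (E.mkQ.domRestrict (pre E y))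
  have h3 : LinearMap.range (E.mkQ.domRestrict (pre E y)) = (pre E y).map E.mkQ := by
    rw [LinearMap.domRestrict, LinearMap.range_comp, Submodule.range_subtype]
  have h4 : LinearMap.ker (E.mkQ.domRestrict (pre E y)) = E.comap (pre E y).subtype := by
    rw [LinearMap.domRestrict, LinearMap.ker_comp, Submodule.ker_mkQ]
  rw [h3, h1, finrank_span_singleton hy, h4, (Submodule.comapSubtypeEquivOfLe (le_pre E y)).finrank_eq] at h2
  omega

/-- the total number -/
theorem ncard_eq_sum_fib (S : Set M) (E : Submodule F M) [Fintype (M ⧸ E)] :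
    S.ncard = ∑ y : M ⧸ E, (fib S E y).ncard := by
  classical
  have h3 : (Set.toFinite S).toFinset = (Finset.univ : Finset (M ⧸ E)).biUnion fun y => (Set.toFinite (fib S E y)).toFinset := by
    ext v
    simp [fib]
  rw [Set.ncard_eq_toFinset_card _ (Set.toFinite _), h3, Finset.card_biUnion]
  · exact Finset.sum_congr rfl fun c _ => (Set.ncard_eq_toFinset_card _ _).symm
  · intro c _ c' _ hcc
    change Disjoint _ _
    rw [Finset.disjoint_left]
    intro v hv hv'
    rw [Set.Finite.mem_toFinset] at hv hv'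
    exact hcc (hv.2.symm.trans hv'.2)

/-! ### the hypothesis on lines -/

/-- every line meets `S` in `0` or `b` points -/
def ZL (F : Type*) {M : Type*} [Field F] [Fintype F] [AddCommGroup M] [Module F M] (S : Set M) (b : ℕ) : Prop :=
  ∀ L : Submodule F M, finrank F L = 2 → ((L : Set M) ∩ S).ncard = 0 ∨ ((L : Set M) ∩ S).ncard = b * (Fintype.card F - 1)

theorem q_pos : 0 < Fintype.card F - 1 := by
  have : 1 < Fintype.card F := Fintype.one_lt_card
  omega

theorem card_submodule [FiniteDimensional F M] (L : Submodule F M) : (L : Set M).ncard = Fintype.card F ^ finrank F L := by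
  rw [← Nat.card_coe_set_eq]
  exact (Module.natCard_eq_pow_finrank (K := F) (V := L)).trans (by rw [Nat.card_eq_fintype_card])

theorem ncard_span_of_mem {S : Set M} (hS : Cone F S) {e : M} (he : e ∈ S) :
    (((Submodule.span F {e} : Submodule F M) : Set M) ∩ S).ncard = Fintype.card F - 1 := by
  have h1 : (((Submodule.span F {e} : Submodule F M) : Set M) ∩ S) = ((Submodule.span F {e} : Submodule F M) : Set M) \ {0} := by
    ext v
    constructor
    · exact fun h => ⟨h.1, fun h0 => hS.ne h.2 h0⟩
    · rintro ⟨h1, h2⟩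
      refine ⟨h1, ?_⟩
      obtain ⟨c, rfl⟩ := Submodule.mem_span_singleton.1 h1
      exact hS.smul c (fun h => h2 (by rw [h, zero_smul]; rfl)) _ he
  rw [h1, Set.ncard_sdiff_singleton_of_mem (Submodule.zero_mem _), card_submodule, finrank_span_singleton (hS.ne he),
    pow_one]

theorem ncard_span_of_notMem {S : Set M} (hS : Cone F S) {e : M} (he : e ∉ S) :
    (((Submodule.span F {e} : Submodule F M) : Set M) ∩ S).ncard = 0 := by
  rw [Set.ncard_eq_zero (Set.toFinite _)]
  ext v
  constructor
  · rintro ⟨h1, h2⟩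
    obtain ⟨c, rfl⟩ := Submodule.mem_span_singleton.1 h1
    have hc : c ≠ 0 := by rintro rfl; exact hS.zero (by rwa [zero_smul] at h2)
    exact he ((hS.smul_iff hc).1 h2)
  · exact fun h => h.elim

variable {S : Set M} {b : ℕ}

theorem fib_of_mem (hS : Cone F S) (hL : ZL F S b) {e : M} (he : e ∈ S) {y : M ⧸ Submodule.span F {e}} (hy : y ≠ 0) :
    (fib S (Submodule.span F {e}) y).ncard + 1 = b := by
  have h1 := ncard_pre hS (Submodule.span F {e}) hy
  rw [ncard_span_of_mem hS he] at h1
  have hq := q_pos (F := F)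
  have h2 := hL (pre (Submodule.span F {e}) y) (by rw [finrank_pre _ hy, finrank_span_singleton (hS.ne he)])
  rw [h1] at h2
  rcases h2 with h2 | h2
  · omega
  · have h3 : (Fintype.card F - 1) * ((fib S (Submodule.span F {e}) y).ncard + 1) = (Fintype.card F - 1) * b := by
      rw [mul_comm _ b, ← h2]; ring
    exact Nat.eq_of_mul_eq_mul_left hq h3

theorem fib_of_notMem (hS : Cone F S) (hL : ZL F S b) {e : M} (he0 : e ≠ 0) (he : e ∉ S)
    {y : M ⧸ Submodule.span F {e}} (hy : y ≠ 0) :
    (fib S (Submodule.span F {e}) y).ncard = 0 ∨ (fib S (Submodule.span F {e}) y).ncard = b := by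
  have h1 := ncard_pre hS (Submodule.span F {e}) hy
  rw [ncard_span_of_notMem hS he, zero_add] at h1
  have hq := q_pos (F := F)
  have h2 := hL (pre (Submodule.span F {e}) y) (by rw [finrank_pre _ hy, finrank_span_singleton he0])
  rw [h1] at h2
  rcases h2 with h2 | h2
  · left
    rcases Nat.mul_eq_zero.1 h2 with h3 | h3
    · omega
    · exact h3
  · right
    rw [mul_comm] at h2
    exact Nat.eq_of_mul_eq_mul_right hq h2

theorem fib_zero (E : Submodule F M) : fib S E 0 = (E : Set M) ∩ S := by
  ext v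
  exact ⟨fun h => ⟨(Submodule.Quotient.mk_eq_zero E).1 h.2, h.1⟩, fun h => ⟨h.2, (Submodule.Quotient.mk_eq_zero E).2 h.1⟩⟩

theorem card_quot (E : Submodule F M) [Fintype (M ⧸ E)] :
    Fintype.card (M ⧸ E) = Fintype.card F ^ (finrank F M - finrank F E) := by
  have h1 := Submodule.finrank_quotient_add_finrank E
  have h2 : finrank F (M ⧸ E) = finrank F M - finrank F E := by omega
  rw [← h2, ← Nat.card_eq_fintype_card, Module.natCard_eq_pow_finrank (K := F), Nat.card_eq_fintype_card]

/-- **The number of vectors of `S`.** -/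
theorem count (hS : Cone F S) (hL : ZL F S b) (hne : S.Nonempty) :
    S.ncard = (Fintype.card F - 1) + (Fintype.card F ^ (finrank F M - 1) - 1) * (b - 1) := by
  classical
  obtain ⟨e, he⟩ := hne
  have : Finite (M ⧸ Submodule.span F {e}) := Finite.of_surjective _ (Submodule.mkQ_surjective _)
  have : Fintype (M ⧸ Submodule.span F {e}) := Fintype.ofFinite _
  rw [ncard_eq_sum_fib S (Submodule.span F {e}), ← Finset.add_sum_erase _ _ (Finset.mem_univ 0), fib_zero,
    ncard_span_of_mem hS he]
  congr 1
  rw [Finset.sum_congr rfl fun y hy => Nat.eq_sub_of_add_eq (fib_of_mem hS hL he (Finset.ne_of_mem_erase hy)),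
    Finset.sum_const, Finset.card_erase_of_mem (Finset.mem_univ _), Finset.card_univ, card_quot,
    finrank_span_singleton (hS.ne he), smul_eq_mul]

/-- restriction to a subspace -/
theorem cone_sub (hS : Cone F S) (P : Submodule F M) : Cone F (P.subtype ⁻¹' S) :=
  ⟨fun h => hS.zero h, fun c hc _ hv => hS.smul c hc _ hv⟩

theorem ncard_sub (P L : Submodule F M) (h : L ≤ P) :
    ((L.comap P.subtype : Set P) ∩ P.subtype ⁻¹' S).ncard = ((L : Set M) ∩ S).ncard := by
  rw [← Set.ncard_image_of_injective _ (Submodule.subtype_injective P)]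
  congr 1
  ext v
  constructor
  · rintro ⟨w, hw, rfl⟩
    exact hw
  · intro hv
    exact ⟨⟨v, h hv.1⟩, hv, rfl⟩

theorem ncard_sub' (P : Submodule F M) (L : Submodule F P) :
    ((L : Set P) ∩ P.subtype ⁻¹' S).ncard = ((L.map P.subtype : Set M) ∩ S).ncard := by
  rw [← Set.ncard_image_of_injective _ (Submodule.subtype_injective P)]
  congr 1
  ext v
  constructor
  · rintro ⟨w, hw, rfl⟩
    exact ⟨⟨w, hw.1, rfl⟩, hw.2⟩
  · rintro ⟨⟨w, hw, rfl⟩, h⟩
    exact ⟨w, ⟨hw, h⟩, rfl⟩

theorem zl_sub (hL : ZL F S b) (P : Submodule F M) : ZL F (P.subtype ⁻¹' S) b := by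
  intro L h2
  rw [ncard_sub']
  refine hL _ ?_
  rw [← h2]
  exact (LinearEquiv.finrank_eq (Submodule.equivMapOfInjective P.subtype (Submodule.subtype_injective P) L)).symm

theorem count_sub (hS : Cone F S) (hL : ZL F S b) (P : Submodule F M) (hne : ((P : Set M) ∩ S).Nonempty) :
    ((P : Set M) ∩ S).ncard = (Fintype.card F - 1) + (Fintype.card F ^ (finrank F P - 1) - 1) * (b - 1) := by
  have h1 := count (cone_sub hS P) (zl_sub hL P) (by
    obtain ⟨v, hv, hv'⟩ := hne
    exact ⟨⟨v, hv⟩, hv'⟩)
  rw [← h1]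
  have h2 := ncard_sub' (S := S) P ⊤
  rw [Submodule.map_subtype_top, Submodule.top_coe, Set.univ_inter] at h2
  exact h2.symm

end

end Cfsg.Agent.H449.U
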