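import Cfsg.Agent.H449.U.SixBase

/-!
# Geometric hyperplanes of Hermitian polar spaces (helper449, for S2196)

`H` is a set of isotropic vectors closed under scalars and sums of orthogonal vectors and meeting every totally
isotropic line (`GH B H`), `n ≥ 6`. If `H` does not contain all isotropic vectors, then `H` is the set of the isotropic
vectors of `u^⊥` for some `u ≠ 0` (`GH.exists_perp`).
-/

set_option autoImplicit false
set_option linter.unusedSectionVars false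

namespace Cfsg.Agent.H449.U

open Module Cfsg.Agent.H91.U
open Cfsg.Agent.H450.UF (self_fix exists_dual exists_iso exists_trace)

variable {F V : Type*} [Field F] [Fintype F] [AddCommGroup V] [Module F V] [FiniteDimensional F V]
  {σ : F →+* F} {B : V →ₛₗ[σ] V →ₗ[F] F}

/-- geometric hyperplanes -/
structure GH (B : V →ₛₗ[σ] V →ₗ[F] F) (H : Set V) : Prop where
  iso : ∀ v ∈ H, B v v = 0
  zero : (0 : V) ∈ H
  smul : ∀ (c : F), ∀ v ∈ H, c • v ∈ H
  add : ∀ x ∈ H, ∀ y ∈ H, B x y = 0 → x + y ∈ H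
  meet : ∀ x y, LinearIndependent F ![x, y] → B x x = 0 → B y y = 0 → B x y = 0 →
    ∃ a b : F, (a ≠ 0 ∨ b ≠ 0) ∧ a • x + b • y ∈ H

variable {H : Set V}

theorem GH.smul_mem (G : GH B H) {c : F} (hc : c ≠ 0) {v : V} (h : c • v ∈ H) : v ∈ H := by
  have := G.smul c⁻¹ _ h
  rwa [smul_smul, inv_mul_cancel₀ hc, one_smul] at this

/-! ### finding hyperbolic pairs -/

/-- the first step -/
theorem GH.pair_aux (G : GH B H) (hB : HForm B) {e g a b : V} (he : e ∈ H) (hg : B g g = 0) (ha : B a a = 0)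
    (hb : B b b = 0) (heg : B e g ≠ 0) (hea : B e a = 0) (heb : B e b = 0) (hga : B g a = 0) (hgb : B g b = 0)
    (hab : B a b ≠ 0) (U : Submodule F V) (he' : e ∈ U) (hg' : g ∈ U) (ha' : a ∈ U) (hb' : b ∈ U) :
    ∃ x ∈ H, ∃ y ∈ H, x ∈ U ∧ y ∈ U ∧ B x y ≠ 0 := by
  have hg0 : g ≠ 0 := by rintro rfl; exact heg (map_zero _)
  have hli : ∀ c : V, B e c = 0 → c ≠ 0 → LinearIndependent F ![g, c] := by
    intro c hc hc0
    rw [LinearIndependent.pair_iff' hg0]
    rintro t rfl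
    rw [smul_right'] at hc
    rcases mul_eq_zero.1 hc with h | h
    · exact hc0 (by rw [h, zero_smul])
    · exact heg h
  have ha0 : a ≠ 0 := by rintro rfl; exact hab (by rw [map_zero, LinearMap.zero_apply])
  have hb0 : b ≠ 0 := by rintro rfl; exact hab (map_zero _)
  obtain ⟨s, t, hst, h1⟩ := G.meet g a (hli a hea ha0) hg ha hga
  by_cases hs : s = 0
  · have ht : t ≠ 0 := hst.resolve_left (not_not.2 hs)
    rw [hs, zero_smul, zero_add] at h1
    have haH := G.smul_mem ht h1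
    obtain ⟨s', t', hst', h2⟩ := G.meet g b (hli b heb hb0) hg hb hgb
    by_cases hs' : s' = 0
    · have ht' : t' ≠ 0 := hst'.resolve_left (not_not.2 hs')
      rw [hs', zero_smul, zero_add] at h2
      exact ⟨a, haH, b, G.smul_mem ht' h2, ha', hb', hab⟩
    · refine ⟨e, he, _, h2, he', U.add_mem (U.smul_mem _ hg') (U.smul_mem _ hb'), ?_⟩
      rw [map_add, smul_right', smul_right', heb, mul_zero, add_zero]
      exact mul_ne_zero hs' heg
  · refine ⟨e, he, _, h1, he', U.add_mem (U.smul_mem _ hg') (U.smul_mem _ ha'), ?_⟩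
    rw [map_add, smul_right', smul_right', hea, mul_zero, add_zero]
    exact mul_ne_zero hs heg

/-- hyperbolic quadruples -/
structure Quad (B : V →ₛₗ[σ] V →ₗ[F] F) (a₁ a₂ b₁ b₂ : V) : Prop where
  a11 : B a₁ a₁ = 0
  a22 : B a₂ a₂ = 0
  a12 : B a₁ a₂ = 0
  b11 : B b₁ b₁ = 0
  b22 : B b₂ b₂ = 0
  b12 : B b₁ b₂ = 0
  c11 : B a₁ b₁ = 1
  c22 : B a₂ b₂ = 1
  c12 : B a₁ b₂ = 0
  c21 : B a₂ b₁ = 0

theorem Quad.swap (hB : HForm B) {a₁ a₂ b₁ b₂ : V} (Q : Quad B a₁ a₂ b₁ b₂) : Quad B a₂ a₁ b₂ b₁ :=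
  ⟨Q.a22, Q.a11, hB.swap_zero Q.a12, Q.b22, Q.b11, hB.swap_zero Q.b12, Q.c22, Q.c11, Q.c21, Q.c12⟩

theorem Quad.ba11 (hB : HForm B) {a₁ a₂ b₁ b₂ : V} (Q : Quad B a₁ a₂ b₁ b₂) : B b₁ a₁ = 1 := by
  rw [hB.swap, Q.c11, map_one]

theorem Quad.ba22 (hB : HForm B) {a₁ a₂ b₁ b₂ : V} (Q : Quad B a₁ a₂ b₁ b₂) : B b₂ a₂ = 1 := by
  rw [hB.swap, Q.c22, map_one]

theorem GH.pair_aux2 (G : GH B H) (hB : HForm B) {a₁ a₂ b₁ b₂ : V} (Q : Quad B a₁ a₂ b₁ b₂) {α β : F} (hα : α ≠ 0)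
    (h : α • a₁ + β • a₂ ∈ H) (U : Submodule F V) (h1 : a₁ ∈ U) (h2 : a₂ ∈ U) (h3 : b₁ ∈ U) (h4 : b₂ ∈ U) :
    ∃ x ∈ H, ∃ y ∈ H, x ∈ U ∧ y ∈ U ∧ B x y ≠ 0 := by
  have hσ : σ α ≠ 0 := (map_ne_zero σ).2 hα
  have hBe : ∀ w, B (α • a₁ + β • a₂) w = σ α * B a₁ w + σ β * B a₂ w := by
    intro w
    rw [map_add, LinearMap.add_apply, smul_left', smul_left']
  refine G.pair_aux hB (e := α • a₁ + β • a₂) (g := b₁) (a := a₂) (b := b₂ + (-(σ β / σ α)) • b₁) h Q.b11 Q.a22 ?_ ?_ ?_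
    ?_ (hB.swap_zero Q.c21) ?_ ?_ U (U.add_mem (U.smul_mem _ h1) (U.smul_mem _ h2)) h3 h2
    (U.add_mem h4 (U.smul_mem _ h3))
  · simp only [map_add, LinearMap.add_apply, smul_left', smul_right', Q.b11, Q.b22, Q.b12, hB.swap_zero Q.b12]
    ring
  · rw [hBe, Q.c11, Q.c21, mul_one, mul_zero, add_zero]
    exact hσ
  · rw [hBe, Q.a12, Q.a22, mul_zero, mul_zero, add_zero]
  · rw [hBe]
    simp only [map_add, smul_right', Q.c12, Q.c11, Q.c22, Q.c21]
    field_simp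
    ring
  · rw [map_add, smul_right', Q.b12, Q.b11, mul_zero, add_zero]
  · rw [map_add, smul_right', Q.c22, Q.c21, mul_zero, add_zero]
    exact one_ne_zero

theorem li_of_quad (hB : HForm B) {a₁ a₂ b₁ b₂ : V} (Q : Quad B a₁ a₂ b₁ b₂) : LinearIndependent F ![a₁, a₂] := by
  rw [LinearIndependent.pair_iff]
  intro s t hst
  have h1 := congrArg (B b₁) hst
  have h2 := congrArg (B b₂) hst
  rw [map_add, smul_right', smul_right', Q.ba11 hB, hB.swap_zero Q.c21, map_zero, mul_one, mul_zero, add_zero] at h1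
  rw [map_add, smul_right', smul_right', Q.ba22 hB, hB.swap_zero Q.c12, map_zero, mul_one, mul_zero, zero_add] at h2
  exact ⟨h1, h2⟩

/-- **hyperbolic pairs of `H` inside a hyperbolic four-space** -/
theorem GH.exists_pair (G : GH B H) (hB : HForm B) {a₁ a₂ b₁ b₂ : V} (Q : Quad B a₁ a₂ b₁ b₂) (U : Submodule F V)
    (h1 : a₁ ∈ U) (h2 : a₂ ∈ U) (h3 : b₁ ∈ U) (h4 : b₂ ∈ U) :
    ∃ x ∈ H, ∃ y ∈ H, x ∈ U ∧ y ∈ U ∧ B x y = 1 := by
  have key : ∃ x ∈ H, ∃ y ∈ H, x ∈ U ∧ y ∈ U ∧ B x y ≠ 0 := by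
    obtain ⟨α, β, hαβ, h⟩ := G.meet a₁ a₂ (li_of_quad hB Q) Q.a11 Q.a22 Q.a12
    by_cases hα : α = 0
    · have hβ : β ≠ 0 := hαβ.resolve_left (not_not.2 hα)
      rw [add_comm] at h
      exact G.pair_aux2 hB (Q.swap hB) hβ h U h2 h1 h4 h3
    · exact G.pair_aux2 hB Q hα h U h1 h2 h3 h4
  obtain ⟨x, hx, y, hy, hxU, hyU, hxy⟩ := key
  exact ⟨x, hx, (B x y)⁻¹ • y, G.smul _ _ hy, hxU, U.smul_mem _ hyU, by rw [smul_right', inv_mul_cancel₀ hxy]⟩

/-- hyperbolic frames with given first pair -/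
theorem exists_hyp_through {q : ℕ} (hF : Fintype.card F = q ^ 2) (hB : HForm B) (hn : 6 ≤ finrank F V) {x y : V}
    (hx : B x x = 0) (hy : B y y = 0) (hxy : B x y = 1) : ∃ e f : Fin 3 → V, Hyp B e f ∧ e 0 = x ∧ f 0 = y := by
  obtain ⟨M, -, hTI, hM⟩ := Cfsg.Agent.H450.UF.exists_ti_le hB Cfsg.Agent.H450.UF.ti_bot (k := 3) (by
    rw [finrank_bot]; omega) (by omega)
  obtain ⟨u, hu, -⟩ := Cfsg.Agent.H450.UF.exists_frame_of_ti hTI hM
  obtain ⟨f, h1, h2⟩ := Cfsg.Agent.H450.UF.exists_dual_frame hF hB hu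
  have h : Hyp B u f := ⟨hu.ti, h2, h1⟩
  have hli : ∀ x y : V, B x x = 0 → B y y = 0 → B x y = 1 → LinearIndependent F ![x, y] := by
    intro x y hx hy hxy
    have hx0 : x ≠ 0 := by rintro rfl; rw [map_zero, LinearMap.zero_apply] at hxy; exact zero_ne_one hxy
    rw [LinearIndependent.pair_iff' hx0]
    rintro t rfl
    rw [smul_right', hx, mul_zero] at hxy
    exact zero_ne_one hxy
  have h00 : B (u 0) (f 0) = 1 := by rw [h.ef, if_pos rfl]
  obtain ⟨g, hg, hgw⟩ := witt_family hB (hli (u 0) (f 0) (h.ee 0 0) (h.ff 0 0) h00) (hli x y hx hy hxy) (by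
    intro i j
    have e1 : B (u 0) (f 0) = B x y := h00.trans hxy.symm
    fin_cases i <;> fin_cases j
    · exact (h.ee 0 0).trans hx.symm
    · exact e1
    · change B (f 0) (u 0) = B y x
      rw [hB.swap, e1, ← hB.swap]
    · exact (h.ff 0 0).trans hy.symm)
  refine ⟨fun i => g (u i), fun i => g (f i), ⟨fun i j => ?_, fun i j => ?_, fun i j => ?_⟩, hgw 0, hgw 1⟩
  · rw [hg, h.ee]
  · rw [hg, h.ff]
  · rw [hg, h.ef]

theorem Hyp.quad (hB : HForm B) {e f : Fin 3 → V} (h : Hyp B e f) : Quad B (e 1) (e 2) (f 1) (f 2) := by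
  refine ⟨h.ee _ _, h.ee _ _, h.ee _ _, h.ff _ _, h.ff _ _, h.ff _ _, ?_, ?_, ?_, ?_⟩ <;> rw [h.ef]
  · rw [if_pos rfl]
  · rw [if_pos rfl]
  · rw [if_neg (by decide)]
  · rw [if_neg (by decide)]

/-- an element of norm one -/
theorem exists_norm_one (hB : HForm B) : ∃ t : F, t * σ t = 1 ∧ t ≠ 1 := by
  obtain ⟨a, ha⟩ := exists_moved hB.ne_id
  have ha0 : a ≠ 0 := by rintro rfl; exact ha (map_zero σ)
  have hσ : σ a ≠ 0 := (map_ne_zero σ).2 ha0
  refine ⟨a / σ a, ?_, fun h => ha ?_⟩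
  · rw [map_div₀, hB.invol]
    field_simp
  · rw [div_eq_one_iff_eq hσ] at h
    exact h.symm

/-- **`H` is closed under isotropic sums.** -/
theorem GH.addI (G : GH B H) {q : ℕ} (hF : Fintype.card F = q ^ 2) (hB : HForm B) (hn : 6 ≤ finrank F V) {x y : V}
    (hx : x ∈ H) (hy : y ∈ H) (hxy : B (x + y) (x + y) = 0) : x + y ∈ H := by
  by_cases h0 : B x y = 0
  · exact G.add x hx y hy h0
  have hxx := G.iso x hx
  have hyy := G.iso y hy
  set κ := B x y with hκ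
  have hyx : B y x = σ κ := hB.swap y x
  have htr : κ + σ κ = 0 := by
    rw [map_add, map_add, LinearMap.add_apply, LinearMap.add_apply, hxx, hyy, hyx, zero_add, add_zero, ← hκ] at hxy
    rw [add_comm]; exact hxy
  obtain ⟨e, f, h, he0, hf0⟩ := exists_hyp_through hF hB hn (x := x) (y := κ⁻¹ • y) hxx (by
    rw [smul_left', smul_right', hyy, mul_zero, mul_zero]) (by rw [smul_right', inv_mul_cancel₀ h0])
  -- the subspace orthogonal to `x` and `y`
  let U : Submodule F V := LinearMap.ker (B x) ⊓ LinearMap.ker (B y)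
  have hU : ∀ v, B (e 0) v = 0 → B (f 0) v = 0 → v ∈ U := by
    intro v h1 h2
    rw [he0] at h1
    rw [hf0, smul_left'] at h2
    exact ⟨h1, (mul_eq_zero.1 h2).resolve_left ((map_ne_zero σ).2 (inv_ne_zero h0))⟩
  obtain ⟨a, ha, b, hb, haU, hbU, hab⟩ := G.exists_pair hB (h.quad hB) U
    (hU _ (h.ee _ _) (by rw [h.fe hB, if_neg (by decide)])) (hU _ (h.ee _ _) (by rw [h.fe hB, if_neg (by decide)]))
    (hU _ (by rw [h.ef, if_neg (by decide)]) (h.ff _ _)) (hU _ (by rw [h.ef, if_neg (by decide)]) (h.ff _ _))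
  have hxa : B x a = 0 := haU.1
  have hya : B y a = 0 := haU.2
  have hxb : B x b = 0 := hbU.1
  have hyb : B y b = 0 := hbU.2
  have hax := hB.swap_zero hxa
  have hay := hB.swap_zero hya
  have hbx := hB.swap_zero hxb
  have hby := hB.swap_zero hyb
  have haa := G.iso a ha
  have hbb := G.iso b hb
  have hba : B b a = 1 := by rw [hB.swap, hab, map_one]
  obtain ⟨t, ht, ht1⟩ := exists_norm_one hB
  have ht0 : t ≠ 0 := by rintro rfl; rw [zero_mul] at ht; exact zero_ne_one ht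
  -- the vectors `u t`
  have hu : ∀ s : F, s * σ s = 1 → x + y + s • a + (-(κ * s)) • b ∈ H := by
    intro s hs
    have h1 : x + s • a ∈ H := G.add x hx _ (G.smul s a ha) (by rw [smul_right', hxa, mul_zero])
    have h2 : y + (-(κ * s)) • b ∈ H := G.add y hy _ (G.smul _ b hb) (by rw [smul_right', hyb, mul_zero])
    have h3 := G.add _ h1 _ h2 (by
      simp only [map_add, LinearMap.add_apply, smul_left', smul_right', hxb, hay, hab, ← hκ]
      linear_combination -κ * hs)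
    have h4 : x + y + s • a + (-(κ * s)) • b = x + s • a + (y + (-(κ * s)) • b) := by abel
    rw [h4]; exact h3
  have h1 := hu 1 (by rw [map_one, mul_one])
  have h2 := hu t ht
  set c : F := (1 - t)⁻¹ with hc
  have ht2 : 1 - t ≠ 0 := sub_ne_zero.2 (Ne.symm ht1)
  have h3 := G.add _ (G.smul c _ h2) _ (G.smul (1 - c) _ h1) (by
    rw [smul_left', smul_right']
    have : B (x + y + t • a + (-(κ * t)) • b) (x + y + (1 : F) • a + (-(κ * 1)) • b) = 0 := by
      simp only [map_add, LinearMap.add_apply, smul_left', smul_right', hxx, hyy, hyx, hxa, hxb, hya, hyb, hax, hay,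
        hbx, hby, haa, hbb, hab, hba, ← hκ, map_neg, map_mul]
      linear_combination (1 - σ t) * htr
    rw [this, mul_zero, mul_zero])
  have h4 : x + y = c • (x + y + t • a + (-(κ * t)) • b) + (1 - c) • (x + y + (1 : F) • a + (-(κ * 1)) • b) := by
    have h5 : c * t + (1 - c) = 0 := by
      rw [hc]
      field_simp
      ring
    have h6 : c • (x + y + t • a + (-(κ * t)) • b) + (1 - c) • (x + y + (1 : F) • a + (-(κ * 1)) • b) =
        (x + y) + (c * t + (1 - c)) • a + (-κ * (c * t + (1 - c))) • b := by module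
    rw [h6, h5, mul_zero, zero_smul, zero_smul, add_zero, add_zero]
  rw [h4]
  exact h3

end Cfsg.Agent.H449.U
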