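import Cfsg.Agent.H449.U.Cone
import Cfsg.Agent.H91.U.FlagFun
import Cfsg.Agent.H450.UF.Geo

/-!
# Two orbits on isotropic points: `(0, b)`-sets (helper449, S2196; port of helper91's symplectic file)

* `exists_zero_b` : `O` or its complement meets every totally isotropic line in `0` or `b` points;
* `flag_trans` : `K` is transitive on the totally isotropic flags with given intersection numbers with `O`.
-/

set_option autoImplicit false
set_option linter.unusedSectionVars false

namespace Cfsg.Agent.H449.U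

open Module Cfsg.Agent.H91.U
open Cfsg.Agent.H450.UF (exists_iso_orth)

variable {F V : Type*} [Field F] [Fintype F] [AddCommGroup V] [Module F V] [FiniteDimensional F V] [Fintype V]
  {σ : F →+* F} {B : V →ₛₗ[σ] V →ₗ[F] F}

theorem Orb.cone {K : Subgroup (SIso B)} {O : Set V} (h : Orb K O) : Cone F O :=
  ⟨h.zero, fun c hc v hv => (h.smul c hc v).2 hv⟩

/-- the intersection number -/
noncomputable def nn (O : Set V) (L : Submodule F V) : ℕ := ((L : Set V) ∩ O).ncard

theorem span_pair_swap (x y : V) : Submodule.span F {x, y} = Submodule.span F {y, x} := by rw [Set.pair_comm]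

theorem li_swap {x y : V} (h : LinearIndependent F ![x, y]) : LinearIndependent F ![y, x] := by
  rw [LinearIndependent.pair_iff] at h ⊢
  intro s t e
  have := h t s (by rw [add_comm]; exact e)
  exact ⟨this.2, this.1⟩

theorem finrank_span_pair {x y : V} (h : LinearIndependent F ![x, y]) : finrank F (Submodule.span F {x, y}) = 2 := by
  have h1 := finrank_span_eq_card h
  rwa [Fintype.card_fin, Matrix.range_cons, Matrix.range_cons, Matrix.range_empty, Set.union_empty,
    Set.singleton_union] at h1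

theorem exists_span_pair {L : Submodule F V} (hL : finrank F L = 2) {x : V} (hx : x ∈ L) (hx0 : x ≠ 0) :
    ∃ y ∈ L, LinearIndependent F ![x, y] ∧ Submodule.span F {x, y} = L := by
  obtain ⟨y, hy, hyx⟩ : ∃ y ∈ L, y ∉ Submodule.span F {x} := by
    by_contra hcon
    push Not at hcon
    have h1 : L ≤ Submodule.span F {x} := hcon
    have h2 := Submodule.finrank_mono h1
    rw [hL, finrank_span_singleton hx0] at h2
    omega
  have hli : LinearIndependent F ![x, y] := by
    rw [LinearIndependent.pair_iff' hx0]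
    intro a e
    exact hyx (Submodule.mem_span_singleton.2 ⟨a, e⟩)
  refine ⟨y, hy, hli, ?_⟩
  refine Submodule.eq_of_le_of_finrank_eq (Submodule.span_le.2 ?_) ?_
  · rintro z (rfl | rfl)
    · exact hx
    · exact hy
  · rw [hL, finrank_span_pair hli]

theorem frame_pair (hB : HForm B) {x y : V} (h : LinearIndependent F ![x, y]) (hx : B x x = 0) (hy : B y y = 0)
    (hxy : B x y = 0) : Frame B ![x, y] := by
  refine ⟨h, ?_⟩
  intro i l
  fin_cases i <;> fin_cases l
  · exact hx
  · exact hxy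
  · exact hB.swap_zero hxy
  · exact hy

theorem W_pair_one (x y : V) : W F ![x, y] 1 = Submodule.span F {x} := by
  unfold W
  congr 1
  ext v
  constructor
  · rintro ⟨l, hl, rfl⟩
    have : l = 0 := Fin.ext (by have : (l : ℕ) < 1 := hl; change (l : ℕ) = 0; omega)
    rw [this]; rfl
  · intro hv
    rw [Set.mem_singleton_iff.1 hv]
    exact ⟨0, Nat.zero_lt_one, rfl⟩

theorem W_pair_two (x y : V) : W F ![x, y] 2 = Submodule.span F {x, y} := by
  rw [W_of_le _ le_rfl, Matrix.range_cons, Matrix.range_cons, Matrix.range_empty, Set.union_empty, Set.singleton_union]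

theorem ti_span_pair (hB : HForm B) {x y : V} (hx : B x x = 0) (hy : B y y = 0) (h : B x y = 0) :
    TI B (Submodule.span F {x, y}) := by
  refine ti_span ?_
  rintro a (rfl | rfl) b (rfl | rfl)
  · exact hx
  · exact h
  · exact hB.swap_zero h
  · exact hy

theorem li_of_mem_of_notMem {K : Subgroup (SIso B)} {O : Set V} (hO : Orb K O) {x y : V} (hx : x ∈ O) (hy0 : y ≠ 0)
    (hy : y ∉ O) : LinearIndependent F ![x, y] := by
  have hx0 : x ≠ 0 := fun e => hO.zero (e ▸ hx)
  rw [LinearIndependent.pair_iff' hx0]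
  rintro a rfl
  have ha : a ≠ 0 := by rintro rfl; exact hy0 (zero_smul F x)
  exact hy ((hO.smul a ha x).2 hx)

/-- intersection numbers with the members of a flag are invariant -/
theorem ncard_W_smul {K : Subgroup (SIso B)} {O : Set V} (hO : Orb K O) {j : ℕ} {g : SIso B} (hg : g ∈ K)
    (u : Fin j → V) (i : ℕ) : nn O (W F (g • u) i) = nn O (W F u i) := by
  unfold nn
  have h1 : ((W F (g • u) i : Set V) ∩ O) = g.1 '' ((W F u i : Set V) ∩ O) := by
    rw [W_smul]
    ext v
    constructor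
    · rintro ⟨⟨w, hw, rfl⟩, h2⟩
      exact ⟨w, ⟨hw, (hO.inv g hg w).1 h2⟩, rfl⟩
    · rintro ⟨w, ⟨hw, h2⟩, rfl⟩
      exact ⟨⟨w, hw, rfl⟩, (hO.inv g hg w).2 h2⟩
  rw [h1, Set.ncard_image_of_injective _ g.1.injective]

/-- the relation on pairs (point, line) -/
theorem star {K : Subgroup (SIso B)} {O : Set V} (hB : HForm B) (hO : Orb K O) (hA : AffP K O) :
    ∃ a a₁ a₂ : ℝ, ∀ x y, LinearIndependent F ![x, y] → B x x = 0 → B y y = 0 → B x y = 0 →
      (nn O (Submodule.span F {x}) : ℝ) * nn O (Submodule.span F {x, y}) =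
        a + a₁ * nn O (Submodule.span F {x}) + a₂ * nn O (Submodule.span F {x, y}) := by
  obtain ⟨a, α, h⟩ := hA 2 (fun u => (nn O (W F u 1) : ℝ) * nn O (W F u 2))
    (fun g hg u => by simp only [ncard_W_smul hO hg u]) (fun u u' _ _ hW => by simp only [hW])
  refine ⟨a, α 1, α 2, fun x y hxy hx hy hB0 => ?_⟩
  have h1 := h _ (frame_pair hB hxy hx hy hB0)
  rw [Finset.sum_range_succ, Finset.sum_range_succ, Finset.sum_range_one, W_pair_one, W_pair_two, W_zero] at h1
  have h2 : ((⊥ : Submodule F V) : Set V) ∩ O = ∅ := by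
    ext v
    constructor
    · rintro ⟨h3, h4⟩
      rw [(Submodule.mem_bot F).1 h3] at h4
      exact absurd h4 hO.zero
    · exact fun h => h.elim
  rw [h2, Set.ncard_empty, Nat.cast_zero, mul_zero, zero_add] at h1
  rw [h1]
  unfold nn
  ring

/-- there is a mixed line -/
theorem exists_mixed {K : Subgroup (SIso B)} {O : Set V} (hB : HForm B) (hO : Orb K O) (hV : 4 ≤ finrank F V) :
    ∃ x y, x ∈ O ∧ y ≠ 0 ∧ B y y = 0 ∧ y ∉ O ∧ B x y = 0 := by
  obtain ⟨v, hv⟩ := hO.ne
  obtain ⟨w, hw0, hww, hw⟩ := hO.ne'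
  obtain ⟨z, hz0, hzz, h1⟩ := exists_iso_orth hB ![v, w] (by rw [Fintype.card_fin]; exact hV)
  by_cases hz : z ∈ O
  · exact ⟨z, w, hz, hw0, hww, hw, hB.swap_zero (h1 1)⟩
  · exact ⟨v, z, hv, hz0, hzz, hz, h1 0⟩

theorem nn_eq_of_subset {O : Set V} {L : Submodule F V} (hL : finrank F L = 2) (h : ∀ v ∈ L, v ≠ 0 → v ∈ O)
    (h0 : (0 : V) ∉ O) : nn O L = Fintype.card F ^ 2 - 1 := by
  have h1 : ((L : Set V) ∩ O) = (L : Set V) \ {0} := by
    ext v
    constructor
    · exact fun hv => ⟨hv.1, fun e => h0 (Set.mem_singleton_iff.1 e ▸ hv.2)⟩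
    · exact fun hv => ⟨hv.1, h v hv.1 fun e => hv.2 (Set.mem_singleton_iff.2 e)⟩
  unfold nn
  rw [h1, Set.ncard_sdiff_singleton_of_mem (show (0 : V) ∈ (L : Set V) from L.zero_mem), card_submodule L, hL]

theorem nn_lt {O : Set V} {L : Submodule F V} (hL : finrank F L = 2) {y : V} (hy : y ∈ L) (hy0 : y ≠ 0) (hyO : y ∉ O)
    (h0 : (0 : V) ∉ O) : nn O L < Fintype.card F ^ 2 - 1 := by
  have h1 : ((L : Set V) ∩ O) ⊂ (L : Set V) \ {0} := by
    refine ⟨fun v hv => ⟨hv.1, fun e => h0 (Set.mem_singleton_iff.1 e ▸ hv.2)⟩, fun h => ?_⟩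
    exact hyO (h ⟨hy, fun e => hy0 (Set.mem_singleton_iff.1 e)⟩).2
  have h2 := Set.ncard_lt_ncard h1
  rw [Set.ncard_sdiff_singleton_of_mem (show (0 : V) ∈ (L : Set V) from L.zero_mem), card_submodule L, hL] at h2
  exact h2

theorem nn_pos {O : Set V} {L : Submodule F V} {x : V} (hx : x ∈ L) (hxO : x ∈ O) : 0 < nn O L :=
  (Set.ncard_pos (Set.toFinite _)).2 ⟨x, hx, hxO⟩

theorem nn_eq_zero {O : Set V} {L : Submodule F V} (h : ∀ x ∈ L, x ∉ O) : nn O L = 0 := by
  unfold nn
  rw [Set.ncard_eq_zero (Set.toFinite _)]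
  ext v
  constructor
  · rintro ⟨h4, h5⟩
    exact absurd h5 (h v h4)
  · exact fun h => h.elim

variable (B) in
/-- every totally isotropic line meets `O` in `0` or `b` vectors -/
structure ZV (O : Set V) (b : ℕ) : Prop where
  pos : 0 < b
  lt : b < Fintype.card F ^ 2 - 1
  line : ∀ L : Submodule F V, finrank F L = 2 → TI B L → nn O L = 0 ∨ nn O L = b

theorem exists_zv {K : Subgroup (SIso B)} {O : Set V} (hB : HForm B) (hO : Orb K O) (hA : AffP K O)
    (hV : 4 ≤ finrank F V) : ∃ b, ZV B O b ∨ ZV B (co B O) b := by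
  classical
  obtain ⟨a, a₁, a₂, hst⟩ := star hB hO hA
  have hq1 : 1 < Fintype.card F := Fintype.one_lt_card
  have hq : ((Fintype.card F - 1 : ℕ) : ℝ) ≠ 0 := by
    have : Fintype.card F - 1 ≠ 0 := by omega
    exact_mod_cast this
  have hnO : ∀ {x : V}, x ∈ O → nn O (Submodule.span F {x}) = Fintype.card F - 1 :=
    fun hx => ncard_span_of_mem (Orb.cone hO) hx
  have hnO' : ∀ {x : V}, x ∉ O → nn O (Submodule.span F {x}) = 0 := fun hx => ncard_span_of_notMem (Orb.cone hO) hx
  -- mixed lines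
  have hmix : ∀ x y, x ∈ O → y ≠ 0 → B y y = 0 → y ∉ O → B x y = 0 →
      (nn O (Submodule.span F {x, y}) : ℝ) = a₁ ∧ a + a₂ * a₁ = 0 := by
    intro x y hx hy0 hyy hy hxy
    have hli := li_of_mem_of_notMem hO hx hy0 hy
    have h1 := hst x y hli (hO.iso x hx) hyy hxy
    have h2 := hst y x (li_swap hli) hyy (hO.iso x hx) (hB.swap_zero hxy)
    rw [hnO hx] at h1
    rw [hnO' hy, span_pair_swap] at h2
    rw [Nat.cast_zero, zero_mul, mul_zero, add_zero] at h2
    have h3 : (nn O (Submodule.span F {x, y}) : ℝ) = a₁ := by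
      have h4 : ((Fintype.card F - 1 : ℕ) : ℝ) * (nn O (Submodule.span F {x, y}) - a₁) = 0 := by
        linear_combination h1 - h2
      have := (mul_eq_zero.1 h4).resolve_left hq
      linarith
    exact ⟨h3, by rw [h3] at h2; exact h2.symm⟩
  obtain ⟨x₁, y₁, hx₁, hy₁0, hyy₁, hy₁, hxy₁⟩ := exists_mixed hB hO hV
  obtain ⟨hm1, hm2⟩ := hmix x₁ y₁ hx₁ hy₁0 hyy₁ hy₁ hxy₁
  have hli₁ := li_of_mem_of_notMem hO hx₁ hy₁0 hy₁
  set b := nn O (Submodule.span F {x₁, y₁}) with hb
  have hx₁L : x₁ ∈ Submodule.span F {x₁, y₁} := Submodule.subset_span (Or.inl rfl)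
  have hy₁L : y₁ ∈ Submodule.span F {x₁, y₁} := Submodule.subset_span (Or.inr rfl)
  have hb0 : 0 < b := nn_pos hx₁L hx₁
  have hb1 : b < Fintype.card F ^ 2 - 1 := nn_lt (finrank_span_pair hli₁) hy₁L hy₁0 hy₁ hO.zero
  -- mixed lines have `b` vectors in `O`
  have hmixL : ∀ L : Submodule F V, TI B L → ∀ x ∈ L, ∀ y ∈ L, finrank F L = 2 → x ∈ O → y ≠ 0 → y ∉ O →
      nn O L = b := by
    intro L hTI x hx y hy hL hxO hy0 hyO
    have h1 := (hmix x y hxO hy0 (hTI y hy y hy) hyO (hTI x hx y hy)).1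
    have h2 : Submodule.span F {x, y} = L := by
      refine Submodule.eq_of_le_of_finrank_eq (Submodule.span_le.2 ?_) ?_
      · rintro z (rfl | rfl)
        · exact hx
        · exact hy
      · rw [finrank_span_pair (li_of_mem_of_notMem hO hxO hy0 hyO), hL]
    rw [h2, ← hm1] at h1
    exact_mod_cast h1
  by_cases hin : ∃ L : Submodule F V, finrank F L = 2 ∧ TI B L ∧ ∀ v ∈ L, v ≠ 0 → v ∈ O
  · -- lines in `O` : no lines in the complement
    obtain ⟨L', hL', hTI', hin⟩ := hin
    refine ⟨Fintype.card F ^ 2 - 1 - b, Or.inr ⟨by omega, by omega, fun L hL hTI => ?_⟩⟩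
    by_cases hLO : ∃ x ∈ L, x ∈ O
    · obtain ⟨x, hx, hxO⟩ := hLO
      by_cases hLH : ∃ y ∈ L, y ≠ 0 ∧ y ∉ O
      · obtain ⟨y, hy, hy0, hyO⟩ := hLH
        right
        have h1 := hmixL L hTI x hx y hy hL hxO hy0 hyO
        have h2 : nn O L + nn (co B O) L = Fintype.card F ^ 2 - 1 := by
          have h3 := nn_eq_of_subset (O := {v : V | v ≠ 0}) hL (fun v _ hv => hv) (fun h => h rfl)
          rw [← h3]
          unfold nn
          rw [← Set.ncard_union_eq]
          · congr 1
            ext v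
            constructor
            · rintro (⟨h4, h5⟩ | ⟨h4, h5⟩)
              · exact ⟨h4, fun e => hO.zero (e ▸ h5)⟩
              · exact ⟨h4, h5.1⟩
            · rintro ⟨h4, h5⟩
              by_cases h6 : v ∈ O
              · exact Or.inl ⟨h4, h6⟩
              · exact Or.inr ⟨h4, h5, hTI v h4 v h4, h6⟩
          · rw [Set.disjoint_left]
            rintro v ⟨_, h4⟩ ⟨_, h5⟩
            exact h5.2.2 h4
        omega
      · left
        push Not at hLH
        refine nn_eq_zero fun v hv h => ?_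
        exact h.2.2 (hLH v hv h.1)
    · -- a line in the complement: contradiction
      exfalso
      push Not at hLO
      obtain ⟨⟨y, hy⟩, hy0⟩ := (Module.finrank_pos_iff_exists_ne_zero (R := F)).1
        (show 0 < finrank F L by omega)
      have hy0' : y ≠ 0 := fun e => hy0 (Subtype.ext e)
      obtain ⟨z, hz, hli, hspan⟩ := exists_span_pair hL hy hy0'
      have h1 := hst y z hli (hTI y hy y hy) (hTI z hz z hz) (hTI y hy z hz)
      rw [hnO' (hLO y hy), hspan, nn_eq_zero hLO] at h1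
      have ha : a = 0 := by push_cast at h1; linarith
      have ha2 : a₂ = 0 := by
        rw [ha, zero_add] at hm2
        rcases mul_eq_zero.1 hm2 with h | h
        · exact h
        · exfalso
          rw [← hm1] at h
          have : (b : ℝ) ≠ 0 := by exact_mod_cast hb0.ne'
          exact this h
      obtain ⟨⟨x, hx⟩, hx0⟩ := (Module.finrank_pos_iff_exists_ne_zero (R := F)).1
        (show 0 < finrank F L' by omega)
      have hx0' : x ≠ 0 := fun e => hx0 (Subtype.ext e)
      obtain ⟨z, hz, hli, hspan⟩ := exists_span_pair hL' hx hx0'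
      have h3 := hst x z hli (hTI' x hx x hx) (hTI' z hz z hz) (hTI' x hx z hz)
      rw [hnO (hin x hx hx0'), hspan, nn_eq_of_subset hL' hin hO.zero, ha, ha2, zero_mul, add_zero,
        zero_add, mul_comm] at h3
      have h4 := mul_right_cancel₀ hq h3
      rw [← hm1] at h4
      have h5 : Fintype.card F ^ 2 - 1 = b := by exact_mod_cast h4
      omega
  · refine ⟨b, Or.inl ⟨hb0, hb1, fun L hL hTI => ?_⟩⟩
    push Not at hin
    obtain ⟨y, hy, hy0, hyO⟩ := hin L hL hTI
    by_cases hLO : ∃ x ∈ L, x ∈ O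
    · obtain ⟨x, hx, hxO⟩ := hLO
      exact Or.inr (hmixL L hTI x hx y hy hL hxO hy0 hyO)
    · left
      push Not at hLO
      exact nn_eq_zero hLO

variable (B) in
/-- every totally isotropic line meets `O` in `0` or `b` points -/
structure ZB (O : Set V) (b : ℕ) : Prop where
  pos : 0 < b
  le : b ≤ Fintype.card F
  line : ∀ L : Submodule F V, finrank F L = 2 → TI B L → nn O L = 0 ∨ nn O L = b * (Fintype.card F - 1)

theorem ZV.zb {K : Subgroup (SIso B)} {O : Set V} (hB : HForm B) (hO : Orb K O) (hV : 4 ≤ finrank F V) {b : ℕ}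
    (hZ : ZV B O b) : ∃ β, ZB B O β := by
  obtain ⟨x, y, hx, hy0, hyy, hy, hxy⟩ := exists_mixed hB hO hV
  have hli := li_of_mem_of_notMem hO hx hy0 hy
  have h1 : nn O (Submodule.span F {x, y}) = b := by
    rcases hZ.line _ (finrank_span_pair hli) (ti_span_pair hB (hO.iso x hx) hyy hxy) with h | h
    · exfalso
      have := nn_pos (L := Submodule.span F {x, y}) (Submodule.subset_span (Or.inl rfl)) hx
      omega
    · exact h
  have h0 : (Fintype.card F - 1) ∣ b := by
    rw [← h1]
    have hc := (cone_sub (F := F) (Orb.cone hO) (Submodule.span F {x, y})).dvd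
    have h2 := ncard_sub' (F := F) (S := O) (Submodule.span F {x, y}) ⊤
    rw [Submodule.map_subtype_top, Submodule.top_coe, Set.univ_inter] at h2
    rw [h2] at hc
    exact hc
  obtain ⟨β, hβ⟩ := h0
  rw [mul_comm] at hβ
  refine ⟨β, ?_, ?_, fun L hL hTI => by rw [← hβ]; exact hZ.line L hL hTI⟩
  · rcases Nat.eq_zero_or_pos β with h | h
    · rw [h, zero_mul] at hβ
      have := hZ.pos
      omega
    · exact h
  · have h2 := hZ.lt
    rw [hβ] at h2
    have hq : 1 < Fintype.card F := Fintype.one_lt_card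
    have h3 : Fintype.card F ^ 2 - 1 = (Fintype.card F + 1) * (Fintype.card F - 1) := by
      obtain ⟨t, ht⟩ : ∃ t, Fintype.card F = t + 1 := ⟨Fintype.card F - 1, by omega⟩
      rw [ht, Nat.add_sub_cancel]
      have : (t + 1) ^ 2 = (t + 1 + 1) * t + 1 := by ring
      omega
    rw [h3] at h2
    have := lt_of_mul_lt_mul_right h2 (Nat.zero_le _)
    omega

/-- **`(0, b)`-sets.** -/
theorem exists_zero_b {K : Subgroup (SIso B)} {O : Set V} (hB : HForm B) (hO : Orb K O) (hA : AffP K O)
    (hV : 4 ≤ finrank F V) : ∃ b, ZB B O b ∨ ZB B (co B O) b := by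
  obtain ⟨b, h | h⟩ := exists_zv hB hO hA hV
  · obtain ⟨β, hβ⟩ := h.zb hB hO hV
    exact ⟨β, Or.inl hβ⟩
  · obtain ⟨β, hβ⟩ := h.zb hB hO.co hV
    exact ⟨β, Or.inr hβ⟩

theorem flag_smul {j : ℕ} (g : SIso B) (u : Fin j → V) (i : ℕ) :
    (W F u i).map (g.1 : V →ₗ[F] V) = W F (g • u) i := (W_smul g u i).symm

/-- **`K` is transitive on the flags with given intersection numbers.** -/
theorem flag_trans {K : Subgroup (SIso B)} {O : Set V} (hA : AffP K O) {j : ℕ} {u u' : Fin j → V} (hu : Frame B u)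
    (hu' : Frame B u') (h0 : ∀ i, i ≤ j → nn O (W F u i) = nn O (W F u' i)) :
    ∃ g ∈ K, ∀ i, (W F u i).map (g.1 : V →ₗ[F] V) = W F u' i := by
  classical
  let f : (Fin j → V) → ℝ := fun w => if ∃ g ∈ K, ∀ i, (W F w i).map (g.1 : V →ₗ[F] V) = W F u' i then 1 else 0
  obtain ⟨a, α, h⟩ := hA j f (by
    intro g hg w
    have h1 : (∃ g' ∈ K, ∀ i, (W F (g • w) i).map (g'.1 : V →ₗ[F] V) = W F u' i) ↔
        ∃ g' ∈ K, ∀ i, (W F w i).map (g'.1 : V →ₗ[F] V) = W F u' i := by
      constructor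
      · rintro ⟨g', hg', h2⟩
        refine ⟨g' * g, mul_mem hg' hg, fun i => ?_⟩
        rw [← h2 i, flag_smul, flag_smul, mul_smul]
      · rintro ⟨g', hg', h2⟩
        refine ⟨g' * g⁻¹, mul_mem hg' (inv_mem hg), fun i => ?_⟩
        rw [← h2 i, flag_smul, flag_smul, mul_smul, inv_smul_smul]
    simp only [f, h1]) (by
    intro w w' _ _ hW
    simp only [f, hW])
  have h1 : f u = f u' := by
    rw [h u hu, h u' hu']
    congr 1
    refine Finset.sum_congr rfl fun l hl => ?_
    have := h0 l (by have := Finset.mem_range.1 hl; omega)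
    unfold nn at this
    rw [this]
  have h2 : f u' = 1 := by
    refine if_pos ⟨1, one_mem K, fun i => ?_⟩
    rw [flag_smul, one_smul]
  rw [h2] at h1
  by_contra hcon
  have h3 : f u = 0 := if_neg hcon
  rw [h3] at h1
  exact zero_ne_one h1

end Cfsg.Agent.H449.U
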