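import Cfsg.Agent.H449.U.GeoHyp
import Cfsg.Agent.H449.U.ZeroB
import Cfsg.Agent.H450.UF.Aniso

/-!
# Geometric hyperplanes of Hermitian polar spaces, part two (helper449, for S2196)

* `GH.exists_perp` : a geometric hyperplane is the set of isotropic vectors of `u^⊥`;
* `hyp_false` : the case `b = q²`.
-/

set_option autoImplicit false
set_option linter.unusedSectionVars false

namespace Cfsg.Agent.H449.U

open Module Cfsg.Agent.H91.U
open Cfsg.Agent.H450.UF (self_fix exists_dual exists_iso exists_trace exists_iso_orth_not_mem finrank_perp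
  four_le_aniso)

variable {F V : Type*} [Field F] [Fintype F] [AddCommGroup V] [Module F V] [FiniteDimensional F V]
  {σ : F →+* F} {B : V →ₛₗ[σ] V →ₗ[F] F}

variable {H : Set V}

/-- moves -/
theorem GH.move (G : GH B H) {q : ℕ} (hF : Fintype.card F = q ^ 2) (hB : HForm B) (hn : 6 ≤ finrank F V) {v w d : V}
    (hd : d ∈ H) (e : w = v + d) (hv : B v v = 0) (hw : B w w = 0) : v ∈ H ↔ w ∈ H := by
  constructor
  · intro h
    rw [e] at hw ⊢
    exact G.addI hF hB hn h hd hw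
  · intro h
    have e1 : v = w + (-1 : F) • d := by rw [e, neg_one_smul]; abel
    rw [e1] at hv ⊢
    exact G.addI hF hB hn h (G.smul _ d hd) hv

/-- hyperbolic quadruples in `H` -/
structure GQ (B : V →ₛₗ[σ] V →ₗ[F] F) (H : Set V) (x₁ y₁ x₂ y₂ : V) : Prop where
  G : GH B H
  Q : Quad B x₁ x₂ y₁ y₂
  hx₁ : x₁ ∈ H
  hx₂ : x₂ ∈ H
  hy₁ : y₁ ∈ H
  hy₂ : y₂ ∈ H

theorem GQ.swap (hB : HForm B) {x₁ y₁ x₂ y₂ : V} (D : GQ B H x₁ y₁ x₂ y₂) : GQ B H y₁ x₁ x₂ y₂ where
  G := D.G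
  Q := ⟨D.Q.b11, D.Q.a22, hB.swap_zero D.Q.c21, D.Q.a11, D.Q.b22, D.Q.c12, D.Q.ba11 hB, D.Q.c22, D.Q.b12,
    hB.swap_zero D.Q.a12⟩
  hx₁ := D.hy₁
  hx₂ := D.hx₂
  hy₁ := D.hx₁
  hy₂ := D.hy₂

/-- the general vector -/
def vq (x₁ y₁ x₂ y₂ : V) (α β γ δ : F) (r : V) : V := α • x₁ + β • y₁ + γ • x₂ + δ • y₂ + r

/-- vectors orthogonal to the quadruple -/
def PQ (B : V →ₛₗ[σ] V →ₗ[F] F) (x₁ y₁ x₂ y₂ : V) (r : V) : Prop := B x₁ r = 0 ∧ B y₁ r = 0 ∧ B x₂ r = 0 ∧ B y₂ r = 0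

theorem B_vq (hB : HForm B) {x₁ y₁ x₂ y₂ : V} (Q : Quad B x₁ x₂ y₁ y₂) {r r' : V} (hr : PQ B x₁ y₁ x₂ y₂ r)
    (hr' : PQ B x₁ y₁ x₂ y₂ r') (α β γ δ α' β' γ' δ' : F) :
    B (vq x₁ y₁ x₂ y₂ α β γ δ r) (vq x₁ y₁ x₂ y₂ α' β' γ' δ' r') =
      σ α * β' + σ β * α' + σ γ * δ' + σ δ * γ' + B r r' := by
  obtain ⟨h1, h2, h3, h4⟩ := hr
  obtain ⟨h1', h2', h3', h4'⟩ := hr'
  unfold vq
  simp only [map_add, LinearMap.add_apply, smul_left', smul_right', h1', h2', h3', h4', hB.swap_zero h1,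
    hB.swap_zero h2, hB.swap_zero h3, hB.swap_zero h4, Q.a11, Q.a22, Q.a12, Q.b11, Q.b22, Q.b12, Q.c11, Q.c22, Q.c12,
    Q.c21, Q.ba11 hB, Q.ba22 hB, hB.swap_zero Q.a12, hB.swap_zero Q.b12, hB.swap_zero Q.c12, hB.swap_zero Q.c21]
  ring

theorem GQ.move_core {q : ℕ} (hF : Fintype.card F = q ^ 2) (hB : HForm B) (hn : 6 ≤ finrank F V) {x₁ y₁ x₂ y₂ : V}
    (D : GQ B H x₁ y₁ x₂ y₂) {r : V} (hr : PQ B x₁ y₁ x₂ y₂ r) {α β γ δ c : F} (hβ : β ≠ 0)
    (hN : B (vq x₁ y₁ x₂ y₂ α β γ δ r) (vq x₁ y₁ x₂ y₂ α β γ δ r) = 0)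
    (hc : c + σ c + B r r = 0) : vq x₁ y₁ x₂ y₂ α β γ δ r ∈ H ↔ vq x₁ y₁ x₂ y₂ 0 0 1 c r ∈ H := by
  have hσβ : σ β ≠ 0 := (map_ne_zero σ).2 hβ
  obtain ⟨t, ht⟩ := exists_trace hB (s := -(δ + σ δ + B r r)) (by
    rw [map_neg, map_add, map_add, hB.invol, self_fix hB]
    ring)
  set α₁ := t / σ β with hα₁
  have h1 : σ β * α₁ = t := by rw [hα₁]; field_simp
  have h2 : σ α₁ * β = σ t := by rw [← h1, map_mul, hB.invol]; ring
  have G := D.G
  refine (G.move hF hB hn (d := (α₁ - α) • x₁ + (1 - γ) • x₂) (w := vq x₁ y₁ x₂ y₂ α₁ β 1 δ r) ?_ ?_ hN ?_).trans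
    ((G.move hF hB hn (d := (-β) • y₁ + (c - δ) • y₂) (w := vq x₁ y₁ x₂ y₂ α₁ 0 1 c r) ?_ ?_ ?_ ?_).trans
      (G.move hF hB hn (d := (-α₁) • x₁) (w := vq x₁ y₁ x₂ y₂ 0 0 1 c r) ?_ ?_ ?_ ?_))
  · exact G.add _ (G.smul _ _ D.hx₁) _ (G.smul _ _ D.hx₂) (by rw [smul_left', smul_right', D.Q.a12, mul_zero, mul_zero])
  · unfold vq; module
  · rw [B_vq hB D.Q hr hr, h1, h2, map_one]
    linear_combination ht
  · exact G.add _ (G.smul _ _ D.hy₁) _ (G.smul _ _ D.hy₂) (by rw [smul_left', smul_right', D.Q.b12, mul_zero, mul_zero])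
  · unfold vq; module
  · rw [B_vq hB D.Q hr hr, h1, h2, map_one]
    linear_combination ht
  · rw [B_vq hB D.Q hr hr, map_one, map_zero]
    linear_combination hc
  · exact G.smul _ _ D.hx₁
  · unfold vq; module
  · rw [B_vq hB D.Q hr hr, map_one, map_zero]
    linear_combination hc
  · rw [B_vq hB D.Q hr hr, map_one, map_zero]
    linear_combination hc

theorem GQ.move_all {q : ℕ} (hF : Fintype.card F = q ^ 2) (hB : HForm B) (hn : 6 ≤ finrank F V) {x₁ y₁ x₂ y₂ : V}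
    (D : GQ B H x₁ y₁ x₂ y₂) {r : V} (hr : PQ B x₁ y₁ x₂ y₂ r) {α β γ δ c : F}
    (hN : B (vq x₁ y₁ x₂ y₂ α β γ δ r) (vq x₁ y₁ x₂ y₂ α β γ δ r) = 0)
    (hc : c + σ c + B r r = 0) : vq x₁ y₁ x₂ y₂ α β γ δ r ∈ H ↔ vq x₁ y₁ x₂ y₂ 0 0 1 c r ∈ H := by
  by_cases hβ : β = 0
  · subst hβ
    rw [B_vq hB D.Q hr hr, map_zero, mul_zero, zero_mul, add_zero, zero_add] at hN
    have hr' : PQ B y₁ x₁ x₂ y₂ r := ⟨hr.2.1, hr.1, hr.2.2.1, hr.2.2.2⟩
    have e1 : vq x₁ y₁ x₂ y₂ 1 0 γ δ r = vq y₁ x₁ x₂ y₂ 0 1 γ δ r := by unfold vq; module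
    have e2 : vq x₁ y₁ x₂ y₂ 0 0 1 c r = vq y₁ x₁ x₂ y₂ 0 0 1 c r := by unfold vq; module
    refine (D.G.move hF hB hn (d := (1 - α) • x₁) (w := vq x₁ y₁ x₂ y₂ 1 0 γ δ r) (D.G.smul _ _ D.hx₁) ?_ ?_ ?_).trans ?_
    · unfold vq; module
    · rw [B_vq hB D.Q hr hr, map_zero]
      linear_combination hN
    · rw [B_vq hB D.Q hr hr, map_zero]
      linear_combination hN
    · rw [e1, e2]
      refine (D.swap hB).move_core hF hB hn hr' one_ne_zero ?_ hc
      rw [← e1, B_vq hB D.Q hr hr, map_zero]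
      linear_combination hN
  · exact D.move_core hF hB hn hr hβ hN hc

theorem GQ.move_to {q : ℕ} (hF : Fintype.card F = q ^ 2) (hB : HForm B) (hn : 6 ≤ finrank F V) {x₁ y₁ x₂ y₂ : V}
    (D : GQ B H x₁ y₁ x₂ y₂) {r : V} (hr : PQ B x₁ y₁ x₂ y₂ r) {α β γ δ α' β' γ' δ' : F}
    (h : vq x₁ y₁ x₂ y₂ α β γ δ r ∈ H)
    (hN : B (vq x₁ y₁ x₂ y₂ α' β' γ' δ' r) (vq x₁ y₁ x₂ y₂ α' β' γ' δ' r) = 0) : vq x₁ y₁ x₂ y₂ α' β' γ' δ' r ∈ H := by
  obtain ⟨c, hc⟩ := exists_trace hB (s := -B r r) (by rw [map_neg, self_fix hB])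
  have hc' : c + σ c + B r r = 0 := by rw [hc]; ring
  rw [D.move_all hF hB hn hr hN hc']
  exact (D.move_all hF hB hn hr (D.G.iso _ h) hc').1 h

/-- **a geometric hyperplane is the set of isotropic vectors of a subspace.** -/
theorem GQ.exists_sub {q : ℕ} (hF : Fintype.card F = q ^ 2) (hB : HForm B) (hn : 6 ≤ finrank F V) {x₁ y₁ x₂ y₂ : V}
    (D : GQ B H x₁ y₁ x₂ y₂) : ∃ X : Submodule F V, ∀ v, B v v = 0 → (v ∈ H ↔ v ∈ X) := by
  let R : Submodule F V :=
    { carrier := {r | PQ B x₁ y₁ x₂ y₂ r ∧ ∃ α β γ δ : F, vq x₁ y₁ x₂ y₂ α β γ δ r ∈ H}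
      zero_mem' := ⟨⟨map_zero _, map_zero _, map_zero _, map_zero _⟩, 0, 0, 0, 0, by
        unfold vq
        simp only [zero_smul, add_zero]
        exact D.G.zero⟩
      smul_mem' := by
        rintro c r ⟨⟨h1, h2, h3, h4⟩, α, β, γ, δ, h⟩
        refine ⟨⟨by rw [smul_right', h1, mul_zero], by rw [smul_right', h2, mul_zero],
          by rw [smul_right', h3, mul_zero], by rw [smul_right', h4, mul_zero]⟩, c * α, c * β, c * γ, c * δ, ?_⟩
        have e : vq x₁ y₁ x₂ y₂ (c * α) (c * β) (c * γ) (c * δ) (c • r) = c • vq x₁ y₁ x₂ y₂ α β γ δ r := by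
          unfold vq; module
        rw [e]
        exact D.G.smul c _ h
      add_mem' := by
        rintro r r' ⟨hr, α, β, γ, δ, h⟩ ⟨hr', α', β', γ', δ', h'⟩
        refine ⟨⟨by rw [map_add, hr.1, hr'.1, add_zero], by rw [map_add, hr.2.1, hr'.2.1, add_zero],
          by rw [map_add, hr.2.2.1, hr'.2.2.1, add_zero], by rw [map_add, hr.2.2.2, hr'.2.2.2, add_zero]⟩, ?_⟩
        obtain ⟨a, ha⟩ := exists_trace hB (s := -B r r) (by rw [map_neg, self_fix hB])
        obtain ⟨g, hg⟩ := exists_trace hB (s := -B r' r') (by rw [map_neg, self_fix hB])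
        have m1 : vq x₁ y₁ x₂ y₂ 1 a 0 0 r ∈ H := D.move_to hF hB hn hr h (by
          rw [B_vq hB D.Q hr hr, map_one, map_zero]
          linear_combination ha)
        have m2 : vq x₁ y₁ x₂ y₂ 0 (-B r r') 1 g r' ∈ H := D.move_to hF hB hn hr' h' (by
          rw [B_vq hB D.Q hr' hr', map_one, map_zero]
          linear_combination hg)
        refine ⟨1, a + -B r r', 1, g, ?_⟩
        have e : vq x₁ y₁ x₂ y₂ 1 (a + -B r r') 1 g (r + r') =
            vq x₁ y₁ x₂ y₂ 1 a 0 0 r + vq x₁ y₁ x₂ y₂ 0 (-B r r') 1 g r' := by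
          unfold vq; module
        rw [e]
        refine D.G.add _ m1 _ m2 ?_
        rw [B_vq hB D.Q hr hr', map_one, map_zero]
        ring }
  let rm : V →ₗ[F] V := LinearMap.id - ((B y₁).smulRight x₁ + (B x₁).smulRight y₁ + (B y₂).smulRight x₂ +
    (B x₂).smulRight y₂)
  have hrm : ∀ v, rm v = v - (B y₁ v • x₁ + B x₁ v • y₁ + B y₂ v • x₂ + B x₂ v • y₂) := fun v => rfl
  have hv : ∀ v, v = vq x₁ y₁ x₂ y₂ (B y₁ v) (B x₁ v) (B y₂ v) (B x₂ v) (rm v) := by
    intro v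
    rw [hrm]
    unfold vq
    abel
  have hPQ : ∀ v, PQ B x₁ y₁ x₂ y₂ (rm v) := by
    intro v
    have Q := D.Q
    refine ⟨?_, ?_, ?_, ?_⟩ <;> rw [hrm] <;>
    simp only [map_sub, map_add, smul_right', Q.a11, Q.a22, Q.a12, Q.b11, Q.b22, Q.b12, Q.c11, Q.c22, Q.c12,
      Q.c21, Q.ba11 hB, Q.ba22 hB, hB.swap_zero Q.a12, hB.swap_zero Q.b12, hB.swap_zero Q.c12, hB.swap_zero Q.c21] <;>
    ring
  refine ⟨R.comap rm, fun v hvv => ?_⟩
  rw [Submodule.mem_comap]
  constructor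
  · intro h
    refine ⟨hPQ v, B y₁ v, B x₁ v, B y₂ v, B x₂ v, ?_⟩
    rw [← hv]
    exact h
  · rintro ⟨hr, α, β, γ, δ, h⟩
    rw [hv v]
    refine D.move_to hF hB hn hr h ?_
    rw [← hv]
    exact hvv

theorem GH.exists_sub (G : GH B H) {q : ℕ} (hF : Fintype.card F = q ^ 2) (hB : HForm B) (hn : 6 ≤ finrank F V) :
    ∃ X : Submodule F V, ∀ v, B v v = 0 → (v ∈ H ↔ v ∈ X) := by
  obtain ⟨M, -, hTI, hM⟩ := Cfsg.Agent.H450.UF.exists_ti_le hB Cfsg.Agent.H450.UF.ti_bot (k := 3) (by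
    rw [finrank_bot]; omega) (by omega)
  obtain ⟨u, hu, -⟩ := Cfsg.Agent.H450.UF.exists_frame_of_ti hTI hM
  obtain ⟨f, h1, h2⟩ := Cfsg.Agent.H450.UF.exists_dual_frame hF hB hu
  have h : Hyp B u f := ⟨hu.ti, h2, h1⟩
  obtain ⟨x₁, hx₁, y₁, hy₁, -, -, h11⟩ := G.exists_pair hB (h.quad hB) ⊤ trivial trivial trivial trivial
  obtain ⟨e, f, h, he0, hf0⟩ := exists_hyp_through hF hB hn (G.iso _ hx₁) (G.iso _ hy₁) h11
  let U : Submodule F V := LinearMap.ker (B x₁) ⊓ LinearMap.ker (B y₁)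
  have hU : ∀ v, B (e 0) v = 0 → B (f 0) v = 0 → v ∈ U := by
    intro v h1 h2
    rw [he0] at h1
    rw [hf0] at h2
    exact ⟨h1, h2⟩
  obtain ⟨x₂, hx₂, y₂, hy₂, hxU, hyU, h22⟩ := G.exists_pair hB (h.quad hB) U
    (hU _ (h.ee _ _) (by rw [h.fe hB, if_neg (by decide)])) (hU _ (h.ee _ _) (by rw [h.fe hB, if_neg (by decide)]))
    (hU _ (by rw [h.ef, if_neg (by decide)]) (h.ff _ _)) (hU _ (by rw [h.ef, if_neg (by decide)]) (h.ff _ _))
  exact GQ.exists_sub hF hB hn ⟨G, ⟨G.iso _ hx₁, G.iso _ hx₂, hxU.1, G.iso _ hy₁, G.iso _ hy₂, hyU.2, h11, h22, hyU.1,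
    hB.swap_zero hxU.2⟩, hx₁, hx₂, hy₁, hy₂⟩

/-- separation of hyperplanes by isotropic vectors -/
theorem exists_iso_sep (hB : HForm B) (hn : 6 ≤ finrank F V) {v u : V} (hli : LinearIndependent F ![v, u]) :
    ∃ y, B y y = 0 ∧ B v y = 0 ∧ B u y ≠ 0 := by
  have hfV : Finite V := Module.finite_of_finite F
  have : Fintype V := Fintype.ofFinite V
  have hr : Set.range ![v, u] = {v, u} := by
    rw [Matrix.range_cons, Matrix.range_cons, Matrix.range_empty, Set.union_empty, Set.singleton_union]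
  obtain ⟨z, hz, hzz, hvz⟩ := exists_iso_orth_not_mem hB (fun _ : Unit => v) (Submodule.span F {v, u}) (by
    rw [Fintype.card_unit, finrank_span_pair hli]; omega)
  have hvz := hvz ()
  by_cases huz : B u z = 0
  · have hli3 : LinearIndependent F ![z, v, u] := by
      rw [Matrix.vecCons, linearIndependent_finCons, hr]
      exact ⟨hli, hz⟩
    obtain ⟨x, hx⟩ := exists_dual hB hli3 ![1, 0, 1]
    have hxz : B x z = 1 := hx 0
    have hxv : B x v = 0 := hx 1
    have hxu : B x u = 1 := hx 2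
    obtain ⟨c, hc⟩ := exists_iso hB hzz (x := x) (by rw [hB.swap, hxz, map_one])
    refine ⟨_, hc, ?_, ?_⟩
    · rw [map_add, smul_right', hvz, mul_zero, add_zero, hB.swap_zero hxv]
    · rw [map_add, smul_right', huz, mul_zero, add_zero, hB.swap u, hxu, map_one]
      exact one_ne_zero
  · exact ⟨z, hzz, hvz, huz⟩

theorem GH.exists_perp (G : GH B H) {q : ℕ} (hF : Fintype.card F = q ^ 2) (hB : HForm B) (hn : 6 ≤ finrank F V)
    {v₀ : V} (hv₀ : B v₀ v₀ = 0) (hv₀H : v₀ ∉ H) : ∃ u : V, u ≠ 0 ∧ ∀ v, B v v = 0 → (v ∈ H ↔ B u v = 0) := by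
  have hfV : Finite V := Module.finite_of_finite F
  have : Fintype V := Fintype.ofFinite V
  obtain ⟨X, hX⟩ := G.exists_sub hF hB hn
  have hX' : finrank F X < finrank F V := by
    refine Submodule.finrank_lt fun e => hv₀H ((hX v₀ hv₀).2 ?_)
    rw [e]; trivial
  have h1 := finrank_perp hB X
  obtain ⟨u, hu, hu0⟩ : ∃ u ∈ perp B X, u ≠ 0 := by
    refine Submodule.exists_mem_ne_zero_of_ne_bot ?_
    intro e
    rw [e, finrank_bot] at h1
    omega
  have hu' : ∀ z ∈ X, B u z = 0 := fun z hz => hu z hz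
  have key : ∀ v, B v v = 0 → v ≠ 0 → B u v = 0 → LinearIndependent F ![v, u] → v ∈ X := by
    intro v hvv hv0 huv hli
    obtain ⟨y, hyy, hvy, huy⟩ := exists_iso_sep hB hn hli
    have hli' : LinearIndependent F ![v, y] := by
      rw [LinearIndependent.pair_iff' hv0]
      rintro a rfl
      rw [smul_right', huv, mul_zero] at huy
      exact huy rfl
    obtain ⟨a, b, hab, h⟩ := G.meet v y hli' hvv hyy hvy
    have h2 := hu' _ ((hX _ (G.iso _ h)).1 h)
    rw [map_add, smul_right', smul_right', huv, mul_zero, zero_add] at h2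
    have hb : b = 0 := (mul_eq_zero.1 h2).resolve_right huy
    rw [hb, zero_smul, add_zero] at h
    have ha : a ≠ 0 := hab.resolve_right (not_not.2 hb)
    exact (hX _ hvv).1 (G.smul_mem ha h)
  refine ⟨u, hu0, fun v hvv => ⟨fun h => hu' v ((hX v hvv).1 h), fun huv => (hX v hvv).2 ?_⟩⟩
  by_cases hv0 : v = 0
  · rw [hv0]; exact X.zero_mem
  by_cases hli : LinearIndependent F ![v, u]
  · exact key v hvv hv0 huv hli
  · -- `v` is a multiple of `u`
    rw [LinearIndependent.pair_iff' hv0] at hli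
    push Not at hli
    obtain ⟨a, ha⟩ := hli
    have ha0 : a ≠ 0 := by rintro rfl; exact hu0 (by rw [← ha, zero_smul])
    obtain ⟨z, hz, hzz, huz⟩ := exists_iso_orth_not_mem hB (fun _ : Unit => u) (Submodule.span F {u}) (by
      rw [Fintype.card_unit, finrank_span_singleton hu0]; omega)
    have huz := huz ()
    have hvz : B v z = 0 := by
      have : B u z = σ a * B v z := by rw [← ha, smul_left']
      rw [this] at huz
      exact (mul_eq_zero.1 huz).resolve_left ((map_ne_zero σ).2 ha0)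
    have hli1 : ∀ w : V, w ∉ Submodule.span F {u} → LinearIndependent F ![w, u] := by
      intro w hw
      refine li_swap ?_
      rw [LinearIndependent.pair_iff' hu0]
      rintro b rfl
      exact hw (Submodule.smul_mem _ _ (Submodule.mem_span_singleton_self u))
    have hz0 : z ≠ 0 := by rintro rfl; exact hz (Submodule.zero_mem _)
    have h1 : z ∈ X := key z hzz hz0 huz (hli1 z hz)
    have hvu : v ∈ Submodule.span F {u} := by
      rw [Submodule.mem_span_singleton]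
      exact ⟨a⁻¹, by rw [← ha, smul_smul, inv_mul_cancel₀ ha0, one_smul]⟩
    have hzv : z + v ∉ Submodule.span F {u} := fun h => hz ((Submodule.add_mem_iff_left _ hvu).1 h)
    have hzv0 : z + v ≠ 0 := by intro e; rw [e] at hzv; exact hzv (Submodule.zero_mem _)
    have h2 : z + v ∈ X := key (z + v) (by
      rw [map_add, map_add, LinearMap.add_apply, LinearMap.add_apply, hzz, hvv, hvz, hB.swap_zero hvz]
      simp) hzv0 (by rw [map_add, huz, huv, add_zero]) (hli1 _ hzv)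
    exact (Submodule.add_mem_iff_right _ h1).1 h2

/-! ### the case `b = q²` -/

/-- the complement of `O` is a geometric hyperplane -/
theorem ZB.gh (hB : HForm B) {K : Subgroup (SIso B)} {O : Set V} (hO : Orb K O) (hZ : ZB B O (Fintype.card F)) :
    GH B {v | B v v = 0 ∧ v ∉ O} where
  iso v h := h.1
  zero := ⟨by rw [map_zero], hO.zero⟩
  smul c v h := by
    refine ⟨by rw [smul_left', smul_right', h.1, mul_zero, mul_zero], ?_⟩
    by_cases hc : c = 0
    · rw [hc, zero_smul]; exact hO.zero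
    · rw [hO.smul c hc]; exact h.2
  add x hx y hy hxy := by
    have hfV : Finite V := Module.finite_of_finite F
    have : Fintype V := Fintype.ofFinite V
    refine ⟨?_, ?_⟩
    · rw [map_add, map_add, LinearMap.add_apply, LinearMap.add_apply, hx.1, hy.1, hxy, hB.swap_zero hxy]
      simp
    by_cases hx0 : x = 0
    · rw [hx0, zero_add]; exact hy.2
    by_cases hli : LinearIndependent F ![x, y]
    · set L := Submodule.span F {x, y} with hL
      have hL2 : finrank F L = 2 := finrank_span_pair hli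
      have hxL : x ∈ L := Submodule.subset_span (Or.inl rfl)
      have hyL : y ∈ L := Submodule.subset_span (Or.inr rfl)
      rcases hZ.line L hL2 (ti_span_pair hB hx.1 hy.1 hxy) with h | h
      · intro hxyO
        have := nn_pos (L := L) (L.add_mem hxL hyL) hxyO
        omega
      · exfalso
        have h1 : (((L : Set V)) \ ((L : Set V) ∩ O)).ncard = Fintype.card F := by
          rw [Set.ncard_sdiff Set.inter_subset_left (Set.toFinite _), card_submodule, hL2]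
          change _ - nn O L = _
          rw [h]
          obtain ⟨m, hm⟩ : ∃ m, Fintype.card F = m + 1 := ⟨Fintype.card F - 1, by
            have := Fintype.card_pos (α := F); omega⟩
          rw [hm, Nat.add_sub_cancel]
          have : (m + 1) ^ 2 = (m + 1) + (m + 1) * m := by ring
          omega
        have h2 : ((Submodule.span F {x} : Submodule F V) : Set V) = ((L : Set V)) \ ((L : Set V) ∩ O) := by
          refine Set.eq_of_subset_of_ncard_le ?_ ?_ (Set.toFinite _)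
          · intro w hw
            obtain ⟨c, rfl⟩ := Submodule.mem_span_singleton.1 hw
            refine ⟨L.smul_mem _ hxL, fun h3 => ?_⟩
            by_cases hc : c = 0
            · rw [hc, zero_smul] at h3; exact hO.zero h3.2
            · exact hx.2 ((hO.smul c hc x).1 h3.2)
          · rw [h1, card_submodule, finrank_span_singleton hx0, pow_one]
        have h3 : y ∈ ((Submodule.span F {x} : Submodule F V) : Set V) := by
          rw [h2]
          exact ⟨hyL, fun h4 => hy.2 h4.2⟩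
        obtain ⟨c, hc⟩ := Submodule.mem_span_singleton.1 h3
        exact (LinearIndependent.pair_iff' hx0).1 hli c hc
    · rw [LinearIndependent.pair_iff' hx0] at hli
      push Not at hli
      obtain ⟨a, ha⟩ := hli
      rw [← ha]
      have e : x + a • x = (1 + a) • x := by module
      rw [e]
      by_cases hc : 1 + a = 0
      · rw [hc, zero_smul]; exact hO.zero
      · rw [hO.smul _ hc]; exact hx.2
  meet x y hli hx hy hxy := by
    have hfV : Finite V := Module.finite_of_finite F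
    have : Fintype V := Fintype.ofFinite V
    set L := Submodule.span F {x, y} with hL
    have hL2 : finrank F L = 2 := finrank_span_pair hli
    have h1 : ∃ v ∈ L, v ≠ 0 ∧ v ∉ O := by
      by_contra hcon
      push Not at hcon
      have h2 := nn_eq_of_subset hL2 hcon hO.zero
      have h3 : 1 < Fintype.card F := Fintype.one_lt_card
      obtain ⟨m, hm⟩ : ∃ m, Fintype.card F = m + 1 := ⟨Fintype.card F - 1, by omega⟩
      rcases hZ.line L hL2 (ti_span_pair hB hx hy hxy) with h | h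
      · rw [h, hm] at h2
        have : (m + 1) ^ 2 = 1 + (m * m + 2 * m) := by ring
        have : 0 < m := by omega
        omega
      · rw [h, hm, Nat.add_sub_cancel] at h2
        have e1 : (m + 1) ^ 2 = 1 + (m + (m + 1) * m) := by ring
        have : 0 < m := by omega
        omega
    obtain ⟨v, hv, hv0, hvO⟩ := h1
    obtain ⟨a, b, rfl⟩ := Submodule.mem_span_pair.1 hv
    refine ⟨a, b, ?_, ?_, hvO⟩
    · by_contra hcon
      push Not at hcon
      apply hv0
      rw [hcon.1, hcon.2, zero_smul, zero_smul, add_zero]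
    · exact ti_span_pair hB hx hy hxy _ hv _ hv

/-- **the case `b = q²` does not occur** -/
theorem hyp_false {q : ℕ} (hF : Fintype.card F = q ^ 2) (hq : 3 ≤ q) (hB : HForm B) (hn : 6 ≤ finrank F V)
    {X : Type*} [Finite X] [MulAction (SIso B) X] (x₀ : X)
    (h3 : Nat.card (MulAction.orbitRel.Quotient (MulAction.stabilizer (SIso B) x₀) X) ≤ 3) {O : Set V}
    (hO : Orb (MulAction.stabilizer (SIso B) x₀) O) (hZ : ZB B O (Fintype.card F)) : False := by
  obtain ⟨v₀, hv₀⟩ := hO.ne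
  obtain ⟨u, hu0, hu⟩ := (hZ.gh hB hO).exists_perp hF hB hn (hO.iso _ hv₀) (fun h => h.2 hv₀)
  have hu' : ∀ v, B v v = 0 → (v ∉ O ↔ B u v = 0) := by
    intro v hv
    rw [← hu v hv]
    exact ⟨fun h => ⟨hv, h⟩, fun h => h.2⟩
  have key : ∀ g ∈ MulAction.stabilizer (SIso B) x₀, ∃ c : F, g • u = c • u := by
    intro g hg
    by_contra hcon
    push Not at hcon
    have hli : LinearIndependent F ![u, g • u] := by
      rw [LinearIndependent.pair_iff' hu0]
      intro a e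
      exact hcon a e.symm
    obtain ⟨y, hyy, huy, hgy⟩ := exists_iso_sep hB hn hli
    apply hgy
    have e : y = g • (g⁻¹ • y) := (smul_inv_smul g y).symm
    have hyy' : B (g⁻¹ • y) (g⁻¹ • y) = 0 := by rw [B_smul]; exact hyy
    have h1 : y ∉ O := (hu' y hyy).2 huy
    have h2 : g⁻¹ • y ∉ O := by
      rw [hO.inv _ (inv_mem hg)]
      exact h1
    have h3 := (hu' _ hyy').1 h2
    rw [e, B_smul]
    exact h3
  by_cases huu : B u u = 0
  · have huO : u ∉ O := (hu' u huu).2 huu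
    obtain ⟨z, hz, hzz, huz⟩ := exists_iso_orth_not_mem hB (fun _ : Unit => u) (Submodule.span F {u}) (by
      rw [Fintype.card_unit, finrank_span_singleton hu0]; omega)
    have hz0 : z ≠ 0 := by rintro rfl; exact hz (Submodule.zero_mem _)
    obtain ⟨g, hg, c, hc⟩ := hO.tr' u hu0 huu huO z hz0 hzz ((hu' z hzz).2 (huz ()))
    obtain ⟨d, hd⟩ := key g hg
    have hgu : g • u ≠ 0 := fun e => hu0 ((smul_eq_zero' g).1 e)
    have hc0 : c ≠ 0 := by rintro rfl; rw [zero_smul] at hc; exact hgu hc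
    apply hz
    rw [Submodule.mem_span_singleton]
    refine ⟨c⁻¹ * d, ?_⟩
    rw [mul_smul, ← hd, hc, smul_smul, inv_mul_cancel₀ hc0, one_smul]
  · have := four_le_aniso hF hB hn hq x₀ huu key
    omega

end Cfsg.Agent.H449.U
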