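import Cfsg.Agent.H449.U.SixBase

/-!
# No `(0, 1)`-sets in dimension six (helper449, for S2196)
-/

set_option autoImplicit false
set_option linter.unusedSectionVars false

namespace Cfsg.Agent.H449.U

open Module Cfsg.Agent.H91.U
open Cfsg.Agent.H450.UF (self_fix)

variable {F V : Type*} [Field F] [Fintype F] [AddCommGroup V] [Module F V] [FiniteDimensional F V]
  {σ : F →+* F} {B : V →ₛₗ[σ] V →ₗ[F] F} {O : Set V} {K : Subgroup (V ≃ₗ[F] V)} {e f : Fin 3 → V}

/-! ### the group acting on `⟨e⟩` by transvections with centre `e 0` -/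

/-- the elements of `K` acting on `⟨e 0, e 1, e 2⟩` as transvections with centre `e 0` -/
def AM (K : Subgroup (V ≃ₗ[F] V)) (e : Fin 3 → V) : Subgroup (V ≃ₗ[F] V) where
  carrier := {g | g ∈ K ∧ g (e 0) = e 0 ∧ ∀ i, ∃ c : F, g (e i) = e i + c • e 0}
  one_mem' := ⟨one_mem K, rfl, fun i => ⟨0, by rw [zero_smul, add_zero]; rfl⟩⟩
  mul_mem' := by
    rintro g g' ⟨h1, h2, h3⟩ ⟨h1', h2', h3'⟩
    refine ⟨mul_mem h1 h1', by rw [LinearEquiv.mul_apply, h2', h2], fun i => ?_⟩
    obtain ⟨c, hc⟩ := h3 i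
    obtain ⟨c', hc'⟩ := h3' i
    exact ⟨c + c', by rw [LinearEquiv.mul_apply, hc', map_add, map_smul, h2, hc, add_smul, add_assoc]⟩
  inv_mem' := by
    rintro g ⟨h1, h2, h3⟩
    have hi : ∀ x y, g x = y → g⁻¹ y = x := by
      rintro x y rfl
      rw [← LinearEquiv.mul_apply, inv_mul_cancel]; rfl
    refine ⟨inv_mem h1, hi _ _ h2, fun i => ?_⟩
    obtain ⟨c, hc⟩ := h3 i
    refine ⟨-c, hi _ _ ?_⟩
    rw [map_add, map_smul, h2, hc, neg_smul, add_neg_cancel_right]

theorem mem_AM {g : V ≃ₗ[F] V} : g ∈ AM K e ↔ g ∈ K ∧ g (e 0) = e 0 ∧ ∀ i, ∃ c : F, g (e i) = e i + c • e 0 := Iff.rfl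

variable (B) in
/-- the functional of `g` -/
def lam (e f : Fin 3 → V) (g : V ≃ₗ[F] V) (i : Fin 3) : F := B (f 0) (g (e i) - e i)

variable (B) in
/-- the form of `g` -/
def cc (f : Fin 3 → V) (g : V ≃ₗ[F] V) (i j : Fin 3) : F := B (f i) (g (f j))

section

variable (D : SixD B O K) (h : Hyp B e f)

include D h in
theorem lam_spec {g : V ≃ₗ[F] V} (hg : g ∈ AM K e) (i : Fin 3) : g (e i) = e i + lam B e f g i • e 0 := by
  obtain ⟨c, hc⟩ := hg.2.2 i
  have : lam B e f g i = c := by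
    unfold lam
    rw [hc, add_sub_cancel_left, smul_right', h.fe D.hB, if_pos rfl, mul_one]
  rw [this, hc]

include D h in
theorem B_e {g : V ≃ₗ[F] V} (hg : g ∈ AM K e) (i : Fin 3) (v : V) :
    B (e i) (g v) = B (e i) v - σ (lam B e f g i) * B (e 0) v := by
  have h1 := D.isom g hg.1 (e i) v
  have h2 := D.isom g hg.1 (e 0) v
  rw [hg.2.1] at h2
  rw [lam_spec D h hg, map_add, LinearMap.add_apply, smul_left', h2] at h1
  rw [← h1]; ring

include D h in
theorem g_f {g : V ≃ₗ[F] V} (hg : g ∈ AM K e) {j : Fin 3} (hj : j ≠ 0) :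
    g (f j) = f j + ∑ i, cc B f g i j • e i := by
  conv_lhs => rw [h.expand D.hB D.hV (g (f j))]
  have h1 : ∀ i, B (e i) (g (f j)) = if i = j then 1 else 0 := by
    intro i
    rw [B_e D h hg, h.ef, h.ef, if_neg (Ne.symm hj), mul_zero, sub_zero]
  have h2 : ∑ i, B (e i) (g (f j)) • f i = f j := by
    simp only [h1, ite_smul, one_smul, zero_smul]
    rw [Finset.sum_ite_eq', if_pos (Finset.mem_univ _)]
  rw [h2, add_comm]
  rfl

include D h in
theorem cc_skew {g : V ≃ₗ[F] V} (hg : g ∈ AM K e) {i j : Fin 3} (hi : i ≠ 0) (hj : j ≠ 0) :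
    cc B f g i j + σ (cc B f g j i) = 0 := by
  have h1 := D.isom g hg.1 (f i) (f j)
  rw [g_f D h hg hi, h.ff, map_add, LinearMap.add_apply, map_sum, LinearMap.sum_apply] at h1
  have h2 : ∀ k, B (cc B f g k i • e k) (g (f j)) = if k = j then σ (cc B f g k i) else 0 := by
    intro k
    rw [smul_left', B_e D h hg, h.ef, h.ef, if_neg (Ne.symm hj), mul_zero, sub_zero]
    split_ifs
    · rw [mul_one]
    · rw [mul_zero]
  simp only [h2] at h1
  rw [Finset.sum_ite_eq', if_pos (Finset.mem_univ _)] at h1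
  exact h1

include D h in
theorem cc_mul {g g' : V ≃ₗ[F] V} (hg : g ∈ AM K e) (hg' : g' ∈ AM K e) {i j : Fin 3} (hi : i ≠ 0) (hj : j ≠ 0) :
    cc B f (g * g') i j = cc B f g i j + cc B f g' i j := by
  have h1 : cc B f (g * g') i j = B (f i) (g (g' (f j))) := rfl
  rw [h1, g_f D h hg' hj, map_add, map_add, map_sum, map_sum]
  have h2 : ∀ k, B (f i) (g (cc B f g' k j • e k)) = if i = k then cc B f g' k j else 0 := by
    intro k
    rw [map_smul, lam_spec D h hg, smul_right', map_add, smul_right', h.fe D.hB, h.fe D.hB, if_neg hi, mul_zero,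
      add_zero]
    split_ifs
    · rw [mul_one]
    · rw [mul_zero]
  simp only [h2]
  rw [Finset.sum_ite_eq, if_pos (Finset.mem_univ _)]
  rfl

include D h in
theorem lam_mul {g g' : V ≃ₗ[F] V} (hg : g ∈ AM K e) (hg' : g' ∈ AM K e) (i : Fin 3) :
    lam B e f (g * g') i = lam B e f g i + lam B e f g' i := by
  have h1 : lam B e f (g * g') i = B (f 0) (g (g' (e i)) - e i) := rfl
  rw [h1, lam_spec D h hg' i, map_add, map_smul, hg.2.1, lam_spec D h hg i]
  have h2 : e i + lam B e f g i • e 0 + lam B e f g' i • e 0 - e i = (lam B e f g i + lam B e f g' i) • e 0 := by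
    rw [add_smul]; abel
  rw [h2, smul_right', h.fe D.hB, if_pos rfl, mul_one]

/-! ### the unipotent radical of the stabiliser of `e 0` -/

variable (B) in
/-- the vectors of the elements of `K` acting trivially on `p` and on `p^⊥ / p` -/
def WW (K : Subgroup (V ≃ₗ[F] V)) (p : V) : AddSubgroup V where
  carrier := {u | B p u = 0 ∧ ∃ g ∈ K, g p = p ∧ ∀ x, B p x = 0 → g x = x - B u x • p}
  zero_mem' := ⟨map_zero _, 1, one_mem K, rfl, fun x _ => by
    rw [map_zero, LinearMap.zero_apply, zero_smul, sub_zero]; rfl⟩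
  add_mem' := by
    rintro u u' ⟨h0, g, hg, h1, h2⟩ ⟨h0', g', hg', h1', h2'⟩
    refine ⟨by rw [map_add, h0, h0', add_zero], g * g', mul_mem hg hg', by rw [LinearEquiv.mul_apply, h1', h1],
      fun x hx => ?_⟩
    rw [LinearEquiv.mul_apply, h2' x hx, map_sub, map_smul, h1, h2 x hx, map_add, LinearMap.add_apply, add_smul]
    abel
  neg_mem' := by
    rintro u ⟨h0, g, hg, h1, h2⟩
    have hi : ∀ x y, g x = y → g⁻¹ y = x := by
      rintro x y rfl
      rw [← LinearEquiv.mul_apply, inv_mul_cancel]; rfl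
    refine ⟨by rw [map_neg, h0, neg_zero], g⁻¹, inv_mem hg, hi _ _ h1, fun x hx => hi _ _ ?_⟩
    rw [map_sub, map_smul, h1, h2 x hx, map_neg, LinearMap.neg_apply, neg_smul]
    abel

theorem mem_WW {p u : V} : u ∈ WW B K p ↔ B p u = 0 ∧ ∃ g ∈ K, g p = p ∧ ∀ x, B p x = 0 → g x = x - B u x • p := Iff.rfl

include D h in
theorem mem_span_p {w : V} (hw : ∀ x, B (e 0) x = 0 → B x w = 0) : w = B (f 0) w • e 0 := by
  have h1 : ∀ i, B (e i) w = 0 := fun i => hw _ (h.ee 0 i)
  have h2 : ∀ i, i ≠ 0 → B (f i) w = 0 := fun i hi => hw _ (by rw [h.ef, if_neg (Ne.symm hi)])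
  conv_lhs => rw [h.expand D.hB D.hV w]
  simp only [h1, zero_smul, Finset.sum_const_zero, add_zero]
  rw [Fin.sum_univ_three, h2 1 (by decide), h2 2 (by decide), zero_smul, zero_smul, add_zero, add_zero]

include D h in
/-- no isotropic vectors -/
theorem iso_mem (hp : e 0 ∈ O) {u : V} (hu : u ∈ WW B K (e 0)) (huu : B u u = 0) : ∃ c : F, u = c • e 0 := by
  by_contra hcon
  push Not at hcon
  have hfin : Finite V := Module.finite_of_finite F
  have hfin' : Fintype V := Fintype.ofFinite V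
  obtain ⟨hpu, g, hg, hgp, hgx⟩ := hu
  have hB := D.hB
  have hup : B u (e 0) = 0 := hB.swap_zero hpu
  have hp0 : e 0 ≠ 0 := fun h0 => D.cone.zero (h0 ▸ hp)
  have hpp : B (e 0) (e 0) = 0 := h.ee 0 0
  have hpf : B (e 0) (f 0) = 1 := by rw [h.ef, if_pos rfl]
  have hfp : B (f 0) (e 0) = 1 := by rw [h.fe hB, if_pos rfl]
  -- the action on `f 0`
  obtain ⟨τ, hτ⟩ : ∃ τ : F, g (f 0) = f 0 + u + τ • e 0 := by
    have h1 : ∀ x, B (e 0) x = 0 → B x (g (f 0) - (f 0 + u)) = 0 := by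
      intro x hx
      have h2 : g (x + B u x • e 0) = x := by
        rw [map_add, map_smul, hgp, hgx x hx, sub_add_cancel]
      have h3 := D.isom g hg (x + B u x • e 0) (f 0)
      rw [h2, map_add, LinearMap.add_apply, smul_left', hpf, mul_one, ← hB.swap] at h3
      rw [map_sub, h3, map_add, sub_self]
    exact ⟨_, by rw [← mem_span_p D h h1, add_sub_cancel]⟩
  set κ := τ + B u (f 0) with hκ
  have hy : ∀ y, B (e 0) y = 1 → g y = y + u + (κ - B u y) • e 0 := by
    intro y hy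
    have h1 : B (e 0) (y - f 0) = 0 := by rw [map_sub, hy, hpf, sub_self]
    have h2 := hgx _ h1
    rw [map_sub, hτ] at h2
    have h3 : g y = (y - f 0 - B u (y - f 0) • e 0) + (f 0 + u + τ • e 0) := by rw [← h2, sub_add_cancel]
    rw [h3, map_sub, hκ]
    module
  have hκ0 : κ + σ κ = 0 := by
    have h1 := D.isom g hg (f 0) (f 0)
    rw [hτ, h.ff] at h1
    have h2 : B (f 0 + u + τ • e 0) (f 0 + u + τ • e 0) = B (f 0) u + τ + B u (f 0) + σ τ := by
      simp only [map_add, LinearMap.add_apply, smul_left', smul_right', h.ff, hfp, hup, huu, hpf, hpu, hpp]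
      ring
    rw [h2] at h1
    rw [hκ, map_add, ← hB.swap]
    rw [← h1]; ring
  obtain ⟨θ, hθ⟩ := Cfsg.Agent.H450.UF.exists_trace hB (s := (1 : F)) (map_one σ)
  set b := θ * κ with hb
  have hb1 : b - σ b = κ := by
    have h1 : σ κ = -κ := by linear_combination hκ0
    rw [hb, map_mul, h1]
    linear_combination κ * hθ
  -- the isotropic vector `w`
  set w := u - σ b • e 0 with hw
  have hw0 : ∀ y, B w y = B u y - b * B (e 0) y := by
    intro y
    rw [hw, map_sub, LinearMap.sub_apply, smul_left', hB.invol]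
  have hpw : B (e 0) w = 0 := by rw [hw, map_sub, smul_right', hpu, hpp, mul_zero, sub_zero]
  have hwp : B w (e 0) = 0 := hB.swap_zero hpw
  have hww : B w w = 0 := by
    rw [hw0, hpw, mul_zero, sub_zero, hw, map_sub, smul_right', huu, hup, mul_zero, sub_zero]
  have hli : LinearIndependent F ![e 0, w] := by
    rw [LinearIndependent.pair_iff' hp0]
    intro a ha
    apply hcon (a + σ b)
    rw [add_smul, ha, hw, sub_add_cancel]
  obtain ⟨z₀, hz₀⟩ := Cfsg.Agent.H450.UF.exists_dual hB hli ![1, 0]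
  have hz1 : B (e 0) z₀ = 1 := by
    have h1 : B z₀ (e 0) = 1 := hz₀ 0
    rw [hB.swap, h1, map_one]
  have hz2 : B w z₀ = 0 := hB.swap_zero (hz₀ 1)
  obtain ⟨c, hc⟩ := Cfsg.Agent.H450.UF.exists_iso hB hpp hz1
  set z := z₀ + c • e 0 with hz
  have hpz : B (e 0) z = 1 := by rw [hz, map_add, smul_right', hz1, hpp, mul_zero, add_zero]
  have hwz : B w z = 0 := by rw [hz, map_add, smul_right', hz2, hwp, mul_zero, add_zero]
  have hw_ne : w ≠ 0 := by
    intro h0
    apply hcon (σ b)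
    rw [hw, sub_eq_zero] at h0
    exact h0
  have hli2 : LinearIndependent F ![w, z] := by
    rw [LinearIndependent.pair_iff' hw_ne]
    intro a ha
    have := congrArg (B (e 0)) ha
    rw [smul_right', hpw, hpz, mul_zero] at this
    exact zero_ne_one this
  obtain ⟨M, hM1, hTI, hM⟩ := Cfsg.Agent.H450.UF.exists_ti_le hB (ti_span_pair hB hww hc hwz) (k := 3) (by
    have h1 := finrank_span_eq_card hli2
    rw [Fintype.card_fin, Matrix.range_cons, Matrix.range_cons, Matrix.range_empty, Set.union_empty,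
      Set.singleton_union] at h1
    rw [h1]; omega) (by rw [D.hV])
  have hwM : w ∈ M := hM1 (Submodule.subset_span (Or.inl rfl))
  have hzM : z ∈ M := hM1 (Submodule.subset_span (Or.inr rfl))
  obtain ⟨y₁, hy₁, hy₁O⟩ := D.meet M hM hTI
  have hpy : B (e 0) y₁ ≠ 0 := by
    intro h0
    obtain ⟨a, ha⟩ := Submodule.mem_span_singleton.1 (D.one _ hp _ hy₁O h0)
    have ha0 : a ≠ 0 := by
      rintro rfl
      rw [zero_smul] at ha
      exact D.cone.zero (ha ▸ hy₁O)
    have h1 := hTI y₁ hy₁ z hzM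
    rw [← ha, smul_left', hpz, mul_one, map_eq_zero] at h1
    exact ha0 h1
  obtain ⟨y, hyO, hy1, hy2⟩ : ∃ y, y ∈ O ∧ B (e 0) y = 1 ∧ B u y = b := by
    have hy1 : B (e 0) ((B (e 0) y₁)⁻¹ • y₁) = 1 := by rw [smul_right', inv_mul_cancel₀ hpy]
    refine ⟨(B (e 0) y₁)⁻¹ • y₁, D.cone.smul _ (inv_ne_zero hpy) _ hy₁O, hy1, ?_⟩
    have h1 : B w ((B (e 0) y₁)⁻¹ • y₁) = 0 := by rw [smul_right', hTI w hwM y₁ hy₁, mul_zero]
    rw [hw0, hy1, mul_one, sub_eq_zero] at h1
    exact h1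
  have hgy := hy y hy1
  have h1 : B y (g y) = 0 := by
    have h2 : B y u = σ b := by rw [hB.swap, hy2]
    have h3 : B y (e 0) = 1 := by rw [hB.swap, hy1, map_one]
    rw [hgy, map_add, map_add, smul_right', D.iso y hyO, h2, h3, hy2, ← hb1]
    ring
  obtain ⟨a, ha⟩ := Submodule.mem_span_singleton.1 (D.one _ hyO _ (D.inv g hg y hyO) h1)
  have h2 := congrArg (B (e 0)) ha
  rw [hgy, smul_right', hy1, map_add, map_add, smul_right', hpu, hpp, hy1] at h2
  have ha1 : a = 1 := by rw [mul_one, mul_zero, add_zero, add_zero] at h2; exact h2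
  rw [ha1, one_smul, hgy] at ha
  apply hcon (-(κ - B u y))
  have h3 : u + (κ - B u y) • e 0 = 0 := by
    have : y + (u + (κ - B u y) • e 0) = y + 0 := by rw [add_zero, ← add_assoc]; exact ha.symm
    exact add_left_cancel this
  rw [neg_smul]
  exact eq_neg_of_add_eq_zero_left h3

end

/-! ### restriction to a subspace -/

theorem exists_restrict {k : V ≃ₗ[F] V} {M : Submodule F V} (h : M.map (k : V →ₗ[F] V) = M) :
    ∃ t : M ≃ₗ[F] M, ∀ x : M, ((t x : M) : V) = k (x : V) := ⟨LinearEquiv.ofSubmodules k M M h, fun _ => rfl⟩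

/-- the group induced on a subspace -/
def TM (K : Subgroup (V ≃ₗ[F] V)) (M : Submodule F V) : Subgroup (M ≃ₗ[F] M) where
  carrier := {t | ∃ k ∈ K, ∀ x : M, ((t x : M) : V) = k (x : V)}
  one_mem' := ⟨1, one_mem K, fun _ => rfl⟩
  mul_mem' := by
    rintro s t ⟨g, hg, h⟩ ⟨g', hg', h'⟩
    refine ⟨g * g', mul_mem hg hg', fun v => ?_⟩
    rw [LinearEquiv.mul_apply, h, h', LinearEquiv.mul_apply]
  inv_mem' := by
    rintro t ⟨g, hg, h⟩
    have hi : ∀ x y, g x = y → g⁻¹ y = x := by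
      rintro x y rfl
      rw [← LinearEquiv.mul_apply, inv_mul_cancel]; rfl
    refine ⟨g⁻¹, inv_mem hg, fun v => ?_⟩
    have h1 := h (t⁻¹ v)
    rw [← LinearEquiv.mul_apply, mul_inv_cancel] at h1
    exact (hi _ _ h1.symm).symm

theorem map_restrict {M : Submodule F V} {k : V ≃ₗ[F] V} {t : M ≃ₗ[F] M} (ht : ∀ v : M, ((t v : M) : V) = k (v : V))
    {L L' : Submodule F M} (h : (L.map M.subtype).map (k : V →ₗ[F] V) = L'.map M.subtype) :
    L.map (t : M →ₗ[F] M) = L' := by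
  apply Submodule.map_injective_of_injective (Submodule.subtype_injective M)
  rw [← h]
  ext v
  constructor
  · rintro ⟨_, ⟨w, hw, rfl⟩, rfl⟩
    exact ⟨_, ⟨w, hw, rfl⟩, (ht w).symm⟩
  · rintro ⟨_, ⟨w, hw, rfl⟩, rfl⟩
    exact ⟨_, ⟨w, hw, rfl⟩, ht w⟩

theorem map_le_sub (M : Submodule F V) (L : Submodule F M) : L.map M.subtype ≤ M := by
  rintro _ ⟨w, -, rfl⟩
  exact w.2

section

variable (D : SixD B O K) (h : Hyp B e f) (hp : e 0 ∈ O)

include D h hp in
theorem mem_span_of_O {v : V} (hv : v ∈ W F e 3) (hvO : v ∈ O) : v ∈ Submodule.span F {e 0} :=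
  D.one _ hp _ hvO ((h.frame D.hB).W_ti 3 _ (mem_W e (by decide)) _ hv)

/-- the first vector -/
def p₀ (F : Type*) {V : Type*} [Field F] [AddCommGroup V] [Module F V] (e : Fin 3 → V) : W F e 3 :=
  ⟨e 0, mem_W e (by decide)⟩

include D h hp in
theorem tm_p {t : W F e 3 ≃ₗ[F] W F e 3} (ht : t ∈ TM K (W F e 3)) : ∃ c : F, t (p₀ F e) = c • p₀ F e := by
  obtain ⟨k, hk, h1⟩ := ht
  have h2 : ((t (p₀ F e) : W F e 3) : V) = k (e 0) := h1 _
  obtain ⟨c, hc⟩ := Submodule.mem_span_singleton.1 (mem_span_of_O D h hp (v := k (e 0)) (by rw [← h2]; exact Subtype.coe_prop _)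
    (D.inv k hk _ hp))
  exact ⟨c, Subtype.ext (by rw [h2, ← hc]; rfl)⟩

include D h hp in
theorem tm_tr {L L' : Submodule F (W F e 3)} (hL : finrank F L = 2) (hL' : finrank F L' = 2)
    (hLL : p₀ F e ∈ L ↔ p₀ F e ∈ L') : ∃ t ∈ TM K (W F e 3), L.map (t : W F e 3 →ₗ[F] W F e 3) = L' := by
  classical
  have hfr := h.frame D.hB
  have hM : finrank F (W F e 3) = 3 := finrank_W hfr.li le_rfl
  have hTI : TI B (W F e 3) := hfr.W_ti 3
  have hp0 : e 0 ≠ 0 := fun h0 => D.cone.zero (h0 ▸ hp)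
  -- frames
  have key : ∀ L : Submodule F (W F e 3), finrank F L = 2 → ∃ u : Fin 3 → V, Frame B u ∧ W F u 2 = L.map (W F e 3).subtype ∧
      W F u 3 = W F e 3 ∧ ∀ i, (∃ v ∈ W F u i, v ∈ O) ↔ (if p₀ F e ∈ L then 1 ≤ i else 3 ≤ i) := by
    intro L hL
    have hLv : finrank F (L.map (W F e 3).subtype) = 2 := (Submodule.finrank_map_subtype_eq _ L).trans hL
    by_cases hpL : p₀ F e ∈ L
    · obtain ⟨u, hu, hu0, h1, h2, h3⟩ := exists_frame3 hM hTI hLv (map_le_sub _ L) (s := e 0) ⟨_, hpL, rfl⟩ hp0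
      refine ⟨u, hu, h2, h3, fun i => ?_⟩
      rw [if_pos hpL]
      constructor
      · rintro ⟨v, hv, hvO⟩
        by_contra hcon
        have hi : i = 0 := by omega
        rw [hi, W_zero, Submodule.mem_bot] at hv
        exact D.cone.zero (hv ▸ hvO)
      · intro hi
        refine ⟨e 0, ?_, hp⟩
        rw [← hu0]
        exact mem_W u (by exact hi)
    · obtain ⟨s, hs, hs0⟩ : ∃ s ∈ L.map (W F e 3).subtype, s ≠ 0 := by
        have h1 : 0 < finrank F (L.map (W F e 3).subtype) := by omega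
        obtain ⟨⟨s, hs⟩, hs0⟩ := (Module.finrank_pos_iff_exists_ne_zero (R := F)).1 h1
        exact ⟨s, hs, fun h0 => hs0 (Subtype.ext h0)⟩
      obtain ⟨u, hu, hu0, h1, h2, h3⟩ := exists_frame3 hM hTI hLv (map_le_sub _ L) hs hs0
      refine ⟨u, hu, h2, h3, fun i => ?_⟩
      rw [if_neg hpL]
      constructor
      · rintro ⟨v, hv, hvO⟩
        by_contra hcon
        have hv2 : v ∈ W F u 2 := W_mono u (by omega) hv
        rw [h2] at hv2
        obtain ⟨c, hc⟩ := Submodule.mem_span_singleton.1 (mem_span_of_O D h hp (map_le_sub _ L hv2) hvO)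
        have hc0 : c ≠ 0 := by
          rintro rfl
          rw [zero_smul] at hc
          exact D.cone.zero (hc ▸ hvO)
        apply hpL
        have h4 : e 0 ∈ L.map (W F e 3).subtype := by
          rw [← hc] at hv2
          exact (Submodule.smul_mem_iff _ hc0).1 hv2
        obtain ⟨w, hw, hwe⟩ := h4
        have : w = p₀ F e := Subtype.ext hwe
        rw [← this]
        exact hw
      · intro hi
        refine ⟨e 0, ?_, hp⟩
        have h4 : e 0 ∈ W F u 3 := by rw [h3]; exact mem_W e (by decide)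
        exact W_mono u hi h4
  obtain ⟨u, hu, h2, h3, h4⟩ := key L hL
  obtain ⟨u', hu', h2', h3', h4'⟩ := key L' hL'
  obtain ⟨k, hk, hmap⟩ := D.tr u u' hu hu' (fun i => by rw [h4, h4']; simp only [hLL]) (h3.trans h3'.symm)
  have h5 := hmap 3
  rw [h3, h3'] at h5
  obtain ⟨t, ht⟩ := exists_restrict h5
  refine ⟨t, ⟨k, hk, ht⟩, map_restrict ht ?_⟩
  rw [← h2, ← h2']
  exact hmap 2

include D h hp in
/-- **all transvections with centre `e 0` are induced on `⟨e⟩`** -/
theorem exists_AM (c : Fin 3 → F) (hc : c 0 = 0) : ∃ g ∈ AM K e, ∀ i, lam B e f g i = c i := by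
  have hfr := h.frame D.hB
  have hM : finrank F (W F e 3) = 3 := finrank_W hfr.li le_rfl
  have hp0 : p₀ F e ≠ 0 := by
    intro h0
    have h1 : e 0 = 0 := congrArg Subtype.val h0
    exact D.cone.zero (h1 ▸ hp)
  -- the functional
  let μ : Dual F (W F e 3) := ∑ i, c i • ((B (f i)).comp (W F e 3).subtype)
  have hμ : ∀ i (hi : e i ∈ W F e 3), μ ⟨e i, hi⟩ = c i := by
    intro i hi
    change (∑ j, c j • ((B (f j)).comp (W F e 3).subtype)) ⟨e i, hi⟩ = c i
    rw [LinearMap.sum_apply]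
    have : ∀ j, (c j • ((B (f j)).comp (W F e 3).subtype)) ⟨e i, hi⟩ = if j = i then c j else 0 := by
      intro j
      change c j * B (f j) (e i) = _
      rw [h.fe D.hB]
      split_ifs <;> simp
    simp only [this]
    rw [Finset.sum_ite_eq', if_pos (Finset.mem_univ _)]
  obtain ⟨t, ⟨k, hk, hkt⟩, ht⟩ := Planar.all_tv hM hp0 (T := TM K (W F e 3)) (fun t ht => tm_p D h hp ht)
    (fun L L' hL hL' h1 h2 => tm_tr D h hp hL hL' ⟨fun _ => h2, fun _ => h1⟩)
    (fun L L' hL hL' h1 h2 => tm_tr D h hp hL hL' ⟨fun h3 => absurd h3 h1, fun h3 => absurd h3 h2⟩) μ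
    ((hμ 0 (mem_W e (by decide))).trans hc)
  have hke : ∀ i, k (e i) = e i + c i • e 0 := by
    intro i
    have hi : e i ∈ W F e 3 := mem_W e (by have := i.2; omega)
    have h1 := congrArg Subtype.val (ht ⟨e i, hi⟩)
    rw [hkt, hμ] at h1
    exact h1
  have hg : k ∈ AM K e := ⟨hk, by rw [hke, hc, zero_smul, add_zero], fun i => ⟨c i, hke i⟩⟩
  refine ⟨k, hg, fun i => ?_⟩
  have h1 := lam_spec D h hg i
  rw [hke i] at h1
  have h2 : c i • e 0 = lam B e f k i • e 0 := add_left_cancel h1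
  exact (smul_left_injective F (fun h0 => D.cone.zero (h0 ▸ hp) : e 0 ≠ 0) h2).symm

include D h hp in
/-- **the elements of `K` in the unipotent radical of the stabiliser of `e 0` are transvections** -/
theorem WW_eq {u : V} (hu : u ∈ WW B K (e 0)) : ∃ c : F, u = c • e 0 := by
  by_contra hcon
  have hB := D.hB
  have hfr := h.frame D.hB
  have hM : finrank F (W F e 3) = 3 := finrank_W hfr.li le_rfl
  have hTI : TI B (W F e 3) := hfr.W_ti 3
  have hp0 : p₀ F e ≠ 0 := by
    intro h0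
    have h1 : e 0 = 0 := congrArg Subtype.val h0
    exact D.cone.zero (h1 ▸ hp)
  have hpp : B (e 0) (e 0) = 0 := h.ee 0 0
  let Λ : AddSubgroup (Dual F (W F e 3)) :=
    { carrier := {μ | ∃ u ∈ WW B K (e 0), ∀ x : W F e 3, μ x = B u (x : V)}
      zero_mem' := ⟨0, zero_mem _, fun x => by rw [map_zero, LinearMap.zero_apply, LinearMap.zero_apply]⟩
      add_mem' := by
        rintro μ ν ⟨u, hu, h1⟩ ⟨v, hv, h2⟩
        exact ⟨u + v, add_mem hu hv, fun x => by rw [LinearMap.add_apply, h1, h2, map_add, LinearMap.add_apply]⟩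
      neg_mem' := by
        rintro μ ⟨u, hu, h1⟩
        exact ⟨-u, neg_mem hu, fun x => by rw [LinearMap.neg_apply, h1, map_neg, LinearMap.neg_apply]⟩ }
  have hΛ : ∀ μ, μ ∈ Λ ↔ ∃ u ∈ WW B K (e 0), ∀ x : W F e 3, μ x = B u (x : V) := fun μ => Iff.rfl
  have h0 : ∀ μ ∈ Λ, μ (p₀ F e) = 0 := by
    rintro μ ⟨u, hu, h1⟩
    rw [h1]
    exact hB.swap_zero hu.1
  have hinv : Planar.InvL (p₀ F e) (TM K (W F e 3)) Λ := by
    rintro t ht c hc μ ⟨u, hu, h1⟩
    obtain ⟨hu0, g, hg, hgp, hgx⟩ := hu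
    obtain ⟨k, hk, hkt⟩ := ht
    have hit : ∀ x, t (t⁻¹ x) = x := fun x => by rw [← LinearEquiv.mul_apply, mul_inv_cancel]; rfl
    have hik : ∀ x, k⁻¹ (k x) = x := fun x => by rw [← LinearEquiv.mul_apply, inv_mul_cancel]; rfl
    have hki : ∀ x, k (k⁻¹ x) = x := fun x => by rw [← LinearEquiv.mul_apply, mul_inv_cancel]; rfl
    have hkp : k (e 0) = c • e 0 := by
      have h2 := congrArg Subtype.val hc
      rw [hkt] at h2
      exact h2
    have hc0 : c ≠ 0 := by
      rintro rfl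
      rw [zero_smul] at hkp
      exact hp0 (Subtype.ext ((LinearEquiv.map_eq_zero_iff k).1 hkp))
    have hki' : k⁻¹ (e 0) = c⁻¹ • e 0 := by
      have h2 : k (c⁻¹ • e 0) = e 0 := by rw [map_smul, hkp, smul_smul, inv_mul_cancel₀ hc0, one_smul]
      rw [← hik (c⁻¹ • e 0), h2]
    have hx' : ∀ x, B (e 0) x = 0 → B (e 0) (k⁻¹ x) = 0 := by
      intro x hx
      have h2 := D.isom k⁻¹ (inv_mem hk) (e 0) x
      rw [hki', smul_left', hx] at h2
      exact (mul_eq_zero.1 h2).resolve_left ((map_ne_zero σ).2 (inv_ne_zero hc0))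
    have hBk : ∀ x, B (k u) x = B u (k⁻¹ x) := by
      intro x
      have h2 := D.isom k hk u (k⁻¹ x)
      rwa [hki] at h2
    refine ⟨σ c • k u, ⟨?_, k * g * k⁻¹, mul_mem (mul_mem hk hg) (inv_mem hk), ?_, fun x hx => ?_⟩, fun x => ?_⟩
    · rw [smul_right']
      have h2 : B (k u) (e 0) = 0 := by rw [hBk, hki', smul_right', hB.swap_zero hu0, mul_zero]
      rw [hB.swap_zero h2, mul_zero]
    · rw [LinearEquiv.mul_apply, LinearEquiv.mul_apply, hki', map_smul, hgp, ← hki', hki]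
    · rw [LinearEquiv.mul_apply, LinearEquiv.mul_apply, hgx _ (hx' x hx), map_sub, hki, map_smul, hkp, smul_smul,
        smul_left', hB.invol, hBk, mul_comm]
    · have h2 : ((t⁻¹ x : W F e 3) : V) = k⁻¹ (x : V) := by
        have h3 := hkt (t⁻¹ x)
        rw [hit] at h3
        rw [h3, hik]
      rw [LinearMap.smul_apply, smul_eq_mul, smul_left', hB.invol, hBk]
      change c * μ (t⁻¹ x) = _
      rw [h1, h2]
  have hsm : ∀ c : F, c • e 0 ∈ WW B K (e 0) := fun c => ⟨by rw [smul_right', hpp, mul_zero], 1, one_mem K, rfl,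
    fun x hx => by rw [smul_left', hx, mul_zero, zero_smul, sub_zero]; rfl⟩
  have hne : Λ ≠ ⊥ := by
    intro hbot
    have h1 : (B u).comp (W F e 3).subtype ∈ Λ := ⟨u, hu, fun x => rfl⟩
    rw [hbot, AddSubgroup.mem_bot] at h1
    have h2 : ∀ i, B u (e i) = 0 := fun i =>
      congrArg (fun φ : Dual F (W F e 3) => φ ⟨e i, mem_W e (by have := i.2; omega)⟩) h1
    apply hcon
    refine iso_mem D h hp hu ?_
    have h3 := h.expand hB D.hV u
    have h4 : ∀ i, B (e i) u = 0 := fun i => hB.swap_zero (h2 i)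
    simp only [h4, zero_smul, Finset.sum_const_zero, add_zero] at h3
    have h5 : B u u = B u (∑ i, B (f i) u • e i) := congrArg (B u) h3
    rw [h5, map_sum]
    exact Finset.sum_eq_zero fun i _ => by rw [smul_right', h2, mul_zero]
  have hbig := Planar.big hM hp0 (T := TM K (W F e 3)) (fun t ht => tm_p D h hp ht)
    (fun L L' hL hL' h1 h2 => tm_tr D h hp hL hL' ⟨fun _ => h2, fun _ => h1⟩) h0 hinv hne
  -- representatives
  have hfin : Finite V := Module.finite_of_finite F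
  let W' : AddSubgroup V := WW B K (e 0) ⊓ (LinearMap.ker (B (f 0))).toAddSubgroup
  have hW' : ∀ v, v ∈ W' ↔ v ∈ WW B K (e 0) ∧ B (f 0) v = 0 := fun v => Iff.rfl
  have hcard : Nat.card Λ ≤ Nat.card W' := by
    refine Nat.card_le_card_of_surjective (fun w : W' => (⟨(B w.1).comp (W F e 3).subtype, w.1, w.2.1, fun x => rfl⟩ : Λ)) ?_
    rintro ⟨μ, v, hv, h1⟩
    refine ⟨⟨v - B (f 0) v • e 0, (hW' _).2 ⟨sub_mem hv (hsm _), ?_⟩⟩, Subtype.ext (LinearMap.ext fun x => ?_)⟩
    · rw [map_sub, smul_right', h.fe hB, if_pos rfl, mul_one, sub_self]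
    · change B (v - B (f 0) v • e 0) (x : V) = μ x
      rw [h1, map_sub, LinearMap.sub_apply, smul_left', hTI (e 0) (mem_W e (by decide)) x x.2, mul_zero, sub_zero]
  obtain ⟨w, hw, hw0, hww⟩ := exists_iso_of_card hB W' (by omega)
  obtain ⟨c, hc⟩ := iso_mem D h hp hw.1 hww
  have h1 : B (f 0) w = 0 := hw.2
  rw [hc, smul_right', h.fe hB, if_pos rfl, mul_one] at h1
  rw [h1, zero_smul] at hc
  exact hw0 hc

include D h in
theorem lam_p {g : V ≃ₗ[F] V} (hg : g ∈ AM K e) : lam B e f g 0 = 0 := by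
  unfold lam
  rw [hg.2.1, sub_self, map_zero]

include D h hp in
/-- the form determines the functional -/
theorem lam_zero {g : V ≃ₗ[F] V} (hg : g ∈ AM K e) (h0 : ∀ i j, i ≠ 0 → j ≠ 0 → cc B f g i j = 0) (i : Fin 3) :
    lam B e f g i = 0 := by
  have hB := D.hB
  set u : V := -(∑ i, σ (lam B e f g i) • f i + ∑ j, σ (cc B f g 0 j) • e j) with hu
  have hBu : ∀ x, B u x = -(∑ i, lam B e f g i * B (f i) x + ∑ j, cc B f g 0 j * B (e j) x) := by
    intro x
    rw [hu, map_neg, LinearMap.neg_apply, map_add, LinearMap.add_apply, map_sum, map_sum, LinearMap.sum_apply,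
      LinearMap.sum_apply]
    simp only [smul_left', hB.invol]
  have hBe : ∀ i, B u (e i) = -lam B e f g i := by
    intro i
    rw [hBu]
    simp only [h.ee, h.fe hB, mul_zero, Finset.sum_const_zero, add_zero, mul_ite, mul_one]
    rw [Finset.sum_ite_eq', if_pos (Finset.mem_univ _)]
  have hmem : u ∈ WW B K (e 0) := by
    refine ⟨hB.swap_zero ?_, g, hg.1, hg.2.1, fun x hx => ?_⟩
    · rw [hBe, lam_p D h hg, neg_zero]
    · have h1 : ∀ j, B (e j) x • g (f j) = B (e j) x • f j + (B (e j) x * cc B f g 0 j) • e 0 := by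
        intro j
        by_cases hj : j = 0
        · rw [hj, hx, zero_smul, zero_smul, zero_mul, zero_smul, add_zero]
        · rw [g_f D h hg hj, smul_add, Fin.sum_univ_three, h0 1 j (by decide) hj, h0 2 j (by decide) hj, zero_smul,
            zero_smul, add_zero, add_zero, smul_smul]
      have h2 : ∀ i, B (f i) x • g (e i) = B (f i) x • e i + (B (f i) x * lam B e f g i) • e 0 := by
        intro i
        rw [lam_spec D h hg, smul_add, smul_smul]
      have h3 : g x = ∑ i, B (f i) x • g (e i) + ∑ j, B (e j) x • g (f j) := by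
        conv_lhs => rw [h.expand hB D.hV x]
        rw [map_add, map_sum, map_sum]
        simp only [map_smul]
      rw [h3]
      simp only [h1, h2]
      rw [Finset.sum_add_distrib, Finset.sum_add_distrib, ← Finset.sum_smul, ← Finset.sum_smul]
      have h4 := h.expand hB D.hV x
      rw [hBu, neg_smul, sub_neg_eq_add, add_smul]
      conv_rhs => rw [h4]
      have h5 : ∑ i, B (f i) x * lam B e f g i = ∑ i, lam B e f g i * B (f i) x :=
        Finset.sum_congr rfl fun i _ => mul_comm _ _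
      have h6 : ∑ i, B (e i) x * cc B f g 0 i = ∑ i, cc B f g 0 i * B (e i) x :=
        Finset.sum_congr rfl fun i _ => mul_comm _ _
      rw [h5, h6]
      conv_rhs => rw [← h4]
      conv_lhs => rw [add_add_add_comm, ← h4]
  obtain ⟨c, hc⟩ := WW_eq D h hp hmem
  have h1 := hBe i
  rw [hc, smul_left', h.ee, mul_zero] at h1
  exact (neg_eq_zero.1 h1.symm)

/-- the values of the form -/
abbrev Sk (σ : F →+* F) : Type _ := {a : F // a + σ a = 0}

/-- a combinatorial lemma -/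
theorem comb {A X Y : Type*} [Finite X] [Finite Y] (c : A → X) (l : A → Y) (hl : Function.Surjective l)
    (h : ∀ g g', c g = c g' → l g = l g') (hcard : Nat.card X ≤ Nat.card Y) :
    Function.Surjective c ∧ ∀ g g', l g = l g' → c g = c g' := by
  obtain ⟨s, hs⟩ := hl.hasRightInverse
  have hinj : Function.Injective (c ∘ s) := by
    intro y y' e
    have := h _ _ e
    rwa [hs, hs] at this
  have hbij : Function.Bijective (c ∘ s) := by
    have h1 : Nat.card Y ≤ Nat.card X := Nat.card_le_card_of_injective _ hinj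
    exact (Nat.bijective_iff_injective_and_card _).2 ⟨hinj, le_antisymm h1 hcard⟩
  refine ⟨fun x => ?_, fun g g' e => ?_⟩
  · obtain ⟨y, hy⟩ := hbij.2 x
    exact ⟨s y, hy⟩
  · obtain ⟨y, hy⟩ := hbij.2 (c g)
    obtain ⟨y', hy'⟩ := hbij.2 (c g')
    have h1 := h _ _ hy
    have h2 := h _ _ hy'
    rw [hs] at h1 h2
    rw [← hy, ← hy', h1, h2, e]

include D h hp in
theorem comb' : (∀ (a b : Sk σ) (x : F), ∃ g ∈ AM K e, cc B f g 1 1 = a ∧ cc B f g 1 2 = x ∧ cc B f g 2 2 = b) ∧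
    (∀ g ∈ AM K e, ∀ g' ∈ AM K e, lam B e f g 1 = lam B e f g' 1 → lam B e f g 2 = lam B e f g' 2 →
      cc B f g 1 1 = cc B f g' 1 1 ∧ cc B f g 1 2 = cc B f g' 1 2 ∧ cc B f g 2 2 = cc B f g' 2 2) ∧
    (∀ g ∈ AM K e, ∀ g' ∈ AM K e, cc B f g 1 1 = cc B f g' 1 1 → cc B f g 1 2 = cc B f g' 1 2 →
      cc B f g 2 2 = cc B f g' 2 2 → lam B e f g 1 = lam B e f g' 1 ∧ lam B e f g 2 = lam B e f g' 2) := by
  let c : AM K e → Sk σ × F × Sk σ := fun g => (⟨cc B f g.1 1 1, cc_skew D h g.2 (by decide) (by decide)⟩, cc B f g.1 1 2,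
    ⟨cc B f g.1 2 2, cc_skew D h g.2 (by decide) (by decide)⟩)
  let l : AM K e → F × F := fun g => (lam B e f g.1 1, lam B e f g.1 2)
  have hl : Function.Surjective l := by
    rintro ⟨a, b⟩
    obtain ⟨g, hg, h1⟩ := exists_AM D h hp ![0, a, b] rfl
    exact ⟨⟨g, hg⟩, Prod.ext (h1 1) (h1 2)⟩
  have h3 : ∀ g ∈ AM K e, ∀ g' ∈ AM K e, cc B f g 1 1 = cc B f g' 1 1 → cc B f g 1 2 = cc B f g' 1 2 →
      cc B f g 2 2 = cc B f g' 2 2 → lam B e f g 1 = lam B e f g' 1 ∧ lam B e f g 2 = lam B e f g' 2 := by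
    intro g hg g' hg' h11 h12 h22
    have hk : g⁻¹ * g' ∈ AM K e := mul_mem (inv_mem hg) hg'
    have hgk : g * (g⁻¹ * g') = g' := mul_inv_cancel_left g g'
    have hcc : ∀ i j, i ≠ 0 → j ≠ 0 → cc B f g' i j = cc B f g i j + cc B f (g⁻¹ * g') i j := by
      intro i j hi hj
      rw [← cc_mul D h hg hk hi hj, hgk]
    have e11 : cc B f (g⁻¹ * g') 1 1 = 0 := by
      have := hcc 1 1 (by decide) (by decide)
      rw [h11] at this
      exact left_eq_add.1 this
    have e12 : cc B f (g⁻¹ * g') 1 2 = 0 := by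
      have := hcc 1 2 (by decide) (by decide)
      rw [h12] at this
      exact left_eq_add.1 this
    have e22 : cc B f (g⁻¹ * g') 2 2 = 0 := by
      have := hcc 2 2 (by decide) (by decide)
      rw [h22] at this
      exact left_eq_add.1 this
    have e21 : cc B f (g⁻¹ * g') 2 1 = 0 := by
      have := cc_skew D h hk (i := 2) (j := 1) (by decide) (by decide)
      rwa [e12, map_zero, add_zero] at this
    have h0 : ∀ i j : Fin 3, i ≠ 0 → j ≠ 0 → cc B f (g⁻¹ * g') i j = 0 := by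
      intro i j hi hj
      fin_cases i <;> fin_cases j <;> first | exact absurd rfl hi | exact absurd rfl hj | assumption
    have h1 := lam_zero D h hp hk h0
    have h2 : ∀ i, lam B e f g' i = lam B e f g i := by
      intro i
      have := lam_mul D h hg hk i
      rw [hgk, h1, add_zero] at this
      exact this
    exact ⟨(h2 1).symm, (h2 2).symm⟩
  have hcard : Nat.card (Sk σ × F × Sk σ) ≤ Nat.card (F × F) := by
    rw [Nat.card_prod, Nat.card_prod, Nat.card_prod]
    have h1 := card_skew D.hB.ne_id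
    calc Nat.card (Sk σ) * (Nat.card F * Nat.card (Sk σ)) = Nat.card (Sk σ) ^ 2 * Nat.card F := by ring
      _ ≤ Nat.card F * Nat.card F := Nat.mul_le_mul_right _ h1
  obtain ⟨hs, hi⟩ := comb c l hl (by
    rintro ⟨g, hg⟩ ⟨g', hg'⟩ hcg
    have e1 := congrArg (fun x : Sk σ × F × Sk σ => x.1.1) hcg
    have e2 := congrArg (fun x : Sk σ × F × Sk σ => x.2.1) hcg
    have e3 := congrArg (fun x : Sk σ × F × Sk σ => x.2.2.1) hcg
    obtain ⟨h4, h5⟩ := h3 g hg g' hg' e1 e2 e3
    exact Prod.ext h4 h5) hcard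
  refine ⟨fun a b x => ?_, fun g hg g' hg' h1 h2 => ?_, h3⟩
  · obtain ⟨⟨g, hg⟩, h1⟩ := hs (a, x, b)
    exact ⟨g, hg, congrArg (fun x : Sk σ × F × Sk σ => x.1.1) h1, congrArg (fun x : Sk σ × F × Sk σ => x.2.1) h1,
      congrArg (fun x : Sk σ × F × Sk σ => x.2.2.1) h1⟩
  · have h3 := hi ⟨g, hg⟩ ⟨g', hg'⟩ (Prod.ext h1 h2)
    exact ⟨congrArg (fun x : Sk σ × F × Sk σ => x.1.1) h3, congrArg (fun x : Sk σ × F × Sk σ => x.2.1) h3,
      congrArg (fun x : Sk σ × F × Sk σ => x.2.2.1) h3⟩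

include D h hp in
/-- the elements with functional vanishing at `e 1` -/
theorem cc_vanish {g : V ≃ₗ[F] V} (hg : g ∈ AM K e) (h1 : lam B e f g 1 = 0) : cc B f g 1 2 = 0 ∧ cc B f g 2 2 = 0 := by
  have hB := D.hB
  have hs := h.swap hB
  have key : ∀ b : F, b * cc B f g 2 2 = 0 ∧
      σ b * cc B f g 1 2 + b * cc B f g 2 1 + b * σ b * cc B f g 2 2 = 0 := by
    intro b
    obtain ⟨k, hk, k11, k12, k22⟩ := (comb' D hs hp).1 ⟨0, by rw [map_zero, add_zero]⟩ ⟨0, by rw [map_zero, add_zero]⟩ b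
    have hkp : k (e 0) = e 0 := hk.2.1
    have hk1 : k (e 1) = e 1 + lam B ![e 0, e 1, f 2] ![f 0, f 1, e 2] k 1 • e 0 := lam_spec D hs hk 1
    have hk2 : k (f 2) = f 2 + lam B ![e 0, e 1, f 2] ![f 0, f 1, e 2] k 2 • e 0 := lam_spec D hs hk 2
    set l1 := lam B ![e 0, e 1, f 2] ![f 0, f 1, e 2] k 1 with hl1
    set l2 := lam B ![e 0, e 1, f 2] ![f 0, f 1, e 2] k 2 with hl2
    have k21 : cc B ![f 0, f 1, e 2] k 2 1 = -σ b := by
      have := cc_skew D hs hk (i := 2) (j := 1) (by decide) (by decide)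
      rw [k12] at this
      exact eq_neg_of_add_eq_zero_left this
    have hk3 : k (e 2) = e 2 + (cc B ![f 0, f 1, e 2] k 0 2 • e 0 + b • e 1) := by
      have h2 := g_f D hs hk (j := 2) (by decide)
      rw [Fin.sum_univ_three, k12, k22] at h2
      have h3 : k (e 2) = e 2 + (cc B ![f 0, f 1, e 2] k 0 2 • e 0 + b • e 1 + (0 : F) • f 2) := h2
      rw [h3, zero_smul, add_zero]
    have hk4 : k (f 1) = f 1 + (cc B ![f 0, f 1, e 2] k 0 1 • e 0 - σ b • f 2) := by
      have h2 := g_f D hs hk (j := 1) (by decide)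
      rw [Fin.sum_univ_three, k11, k21] at h2
      have h3 : k (f 1) = f 1 + (cc B ![f 0, f 1, e 2] k 0 1 • e 0 + (0 : F) • e 1 + (-σ b) • f 2) := h2
      rw [h3, zero_smul, add_zero, neg_smul, sub_eq_add_neg]
    have hik : ∀ x y, k x = y → k⁻¹ y = x := by
      rintro x y rfl
      rw [← LinearEquiv.mul_apply, inv_mul_cancel]; rfl
    have hki : ∀ x, k (k⁻¹ x) = x := fun x => by rw [← LinearEquiv.mul_apply, mul_inv_cancel]; rfl
    -- the inverse
    have i0 : k⁻¹ (e 0) = e 0 := hik _ _ hkp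
    have i1 : k⁻¹ (e 1) = e 1 - l1 • e 0 := hik _ _ (by rw [map_sub, map_smul, hk1, hkp, add_sub_cancel_right])
    obtain ⟨d, i2⟩ : ∃ d : F, k⁻¹ (e 2) = e 2 - b • e 1 + d • e 0 := by
      refine ⟨b * l1 - cc B ![f 0, f 1, e 2] k 0 2, hik _ _ ?_⟩
      rw [map_add, map_sub, map_smul, map_smul, hk3, hk1, hkp]
      module
    have i3 : k⁻¹ (f 2) = f 2 - l2 • e 0 := hik _ _ (by rw [map_sub, map_smul, hk2, hkp, add_sub_cancel_right])
    obtain ⟨d', i4⟩ : ∃ d : F, k⁻¹ (f 1) = f 1 + σ b • f 2 + d • e 0 := by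
      refine ⟨-(cc B ![f 0, f 1, e 2] k 0 1 + σ b * l2), hik _ _ ?_⟩
      rw [map_add, map_add, map_smul, map_smul, hk4, hk2, hkp]
      module
    -- the conjugate
    have hkK : k ∈ K := hk.1
    have hge1 : g (e 1) = e 1 := by rw [lam_spec D h hg, h1, zero_smul, add_zero]
    have hge2 : g (e 2) = e 2 + lam B e f g 2 • e 0 := lam_spec D h hg 2
    have hgp : g (e 0) = e 0 := hg.2.1
    have c0 : (k * g * k⁻¹) (e 0) = e 0 := by
      rw [LinearEquiv.mul_apply, LinearEquiv.mul_apply, i0, hgp, hkp]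
    have c1 : (k * g * k⁻¹) (e 1) = e 1 := by
      rw [LinearEquiv.mul_apply, LinearEquiv.mul_apply, i1, map_sub, map_smul, hge1, hgp, ← i1, hki]
    have c2 : (k * g * k⁻¹) (e 2) = e 2 + lam B e f g 2 • e 0 := by
      have h2 : g (k⁻¹ (e 2)) = k⁻¹ (e 2) + lam B e f g 2 • e 0 := by
        rw [i2, map_add, map_sub, map_smul, map_smul, hge1, hge2, hgp]
        abel
      rw [LinearEquiv.mul_apply, LinearEquiv.mul_apply, h2, map_add, hki, map_smul, hkp]
    have hg' : k * g * k⁻¹ ∈ AM K e := by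
      refine ⟨mul_mem (mul_mem hkK hg.1) (inv_mem hkK), c0, fun i => ?_⟩
      fin_cases i
      · exact ⟨0, by rw [zero_smul, add_zero]; exact c0⟩
      · exact ⟨0, by rw [zero_smul, add_zero]; exact c1⟩
      · exact ⟨_, c2⟩
    have hl1' : lam B e f (k * g * k⁻¹) 1 = lam B e f g 1 := by
      unfold lam
      rw [c1, hge1]
    have hl2' : lam B e f (k * g * k⁻¹) 2 = lam B e f g 2 := by
      have h2 : lam B e f (k * g * k⁻¹) 2 = B (f 0) ((k * g * k⁻¹) (e 2) - e 2) := rfl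
      rw [h2, c2, add_sub_cancel_left, smul_right', h.fe hB, if_pos rfl, mul_one]
    obtain ⟨e11, e12, e22⟩ := (comb' D h hp).2.1 _ hg' _ hg hl1' hl2'
    have hcc : ∀ i j, cc B f (k * g * k⁻¹) i j = B (k⁻¹ (f i)) (g (k⁻¹ (f j))) := by
      intro i j
      have h2 := D.isom k⁻¹ (inv_mem hkK) (f i) ((k * g * k⁻¹) (f j))
      have h3 : k⁻¹ ((k * g * k⁻¹) (f j)) = g (k⁻¹ (f j)) := by
        rw [LinearEquiv.mul_apply, LinearEquiv.mul_apply]
        exact hik _ _ rfl
      rw [h3] at h2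
      exact h2.symm
    have z1 : B (e 0) (g (f 1)) = 0 := by
      rw [B_e D h hg, lam_p D h hg, map_zero, zero_mul, sub_zero, h.ef, if_neg (by decide)]
    have z2 : B (e 0) (g (f 2)) = 0 := by
      rw [B_e D h hg, lam_p D h hg, map_zero, zero_mul, sub_zero, h.ef, if_neg (by decide)]
    have z3 : B (f 1) (e 0) = 0 := by rw [h.fe hB, if_neg (by decide)]
    have z4 : B (f 2) (e 0) = 0 := by rw [h.fe hB, if_neg (by decide)]
    have z5 : B (e 0) (e 0) = 0 := h.ee 0 0
    have m12 : B (f 1) (g (f 2)) = cc B f g 1 2 := rfl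
    have m11 : B (f 1) (g (f 1)) = cc B f g 1 1 := rfl
    have m21 : B (f 2) (g (f 1)) = cc B f g 2 1 := rfl
    have m22 : B (f 2) (g (f 2)) = cc B f g 2 2 := rfl
    constructor
    · rw [hcc, i4, i3] at e12
      simp only [map_add, map_sub, map_smul, LinearMap.add_apply, smul_left', smul_right', hgp, hB.invol,
        z1, z2, z3, z4, z5, m12, m22, smul_eq_mul] at e12
      linear_combination e12
    · rw [hcc, i4] at e11
      simp only [map_add, map_sub, map_smul, LinearMap.add_apply, smul_left', smul_right', hgp, hB.invol,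
        z1, z2, z3, z4, z5, m12, m22, m11, m21, smul_eq_mul] at e11
      linear_combination e11
  have h22 : cc B f g 2 2 = 0 := by
    have := (key 1).1
    rwa [one_mul] at this
  have h21 := cc_skew D h hg (i := 2) (j := 1) (by decide) (by decide)
  have h3 : ∀ b, σ b * cc B f g 1 2 = b * σ (cc B f g 1 2) := by
    intro b
    have h4 := (key b).2
    rw [h22, eq_neg_of_add_eq_zero_left h21] at h4
    linear_combination h4
  obtain ⟨a, ha⟩ := exists_moved hB.ne_id
  have h4 := h3 1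
  rw [map_one, one_mul, one_mul] at h4
  have h5 := h3 a
  rw [← h4] at h5
  refine ⟨?_, h22⟩
  have h6 : (σ a - a) * cc B f g 1 2 = 0 := by linear_combination h5
  exact (mul_eq_zero.1 h6).resolve_left (sub_ne_zero.2 ha)

end

/-- **There is no such set in dimension six.** -/
theorem six_false {q : ℕ} (hF : Fintype.card F = q ^ 2) (D : SixD B O K) : False := by
  obtain ⟨e, f, h, hp⟩ := D.exists_frame hF
  have hex : ∀ c : F, ∃ g ∈ AM K e, lam B e f g 1 = 0 ∧ lam B e f g 2 = c := by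
    intro c
    obtain ⟨g, hg, h1⟩ := exists_AM D h hp ![0, 0, c] rfl
    exact ⟨g, hg, h1 1, h1 2⟩
  choose g hg h1 h2 using hex
  have hinj : Function.Injective (fun c : F => (⟨cc B f (g c) 1 1, cc_skew D h (hg c) (by decide) (by decide)⟩ : Sk σ)) := by
    intro c c' e1
    have e2 : cc B f (g c) 1 1 = cc B f (g c') 1 1 := congrArg (fun x : Sk σ => x.1) e1
    obtain ⟨a1, a2⟩ := cc_vanish D h hp (hg c) (h1 c)
    obtain ⟨b1, b2⟩ := cc_vanish D h hp (hg c') (h1 c')
    have := ((comb' D h hp).2.2 _ (hg c) _ (hg c') e2 (a1.trans b1.symm) (a2.trans b2.symm)).2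
    rwa [h2, h2] at this
  have h3 := Nat.card_le_card_of_injective _ hinj
  have h4 := card_skew D.hB.ne_id
  have h5 : 1 < Nat.card F := by rw [Nat.card_eq_fintype_card]; exact Fintype.one_lt_card
  have h6 : Nat.card F ^ 2 ≤ Nat.card (Sk σ) ^ 2 := Nat.pow_le_pow_left h3 2
  have h7 : Nat.card F ^ 2 ≤ Nat.card F := h6.trans h4
  nlinarith

end Cfsg.Agent.H449.U
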