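import Cfsg.Agent.H449.U.MidEven
import Cfsg.Agent.H449.U.ZeroB
import Cfsg.Agent.H449.U.Six
import Cfsg.Agent.H184.ArcMain

/-!
# The case `1 < b < q²` (helper449, for S2196)
-/

set_option autoImplicit false
set_option linter.unusedSectionVars false

namespace Cfsg.Agent.H449.U

open Module Cfsg.Agent.H91.U

variable {F V : Type*} [Field F] [Fintype F] [AddCommGroup V] [Module F V] [FiniteDimensional F V]
  {σ : F →+* F} {B : V →ₛₗ[σ] V →ₗ[F] F}

/-- the group of linear automorphisms underlying `K` -/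
def KL (K : Subgroup (SIso B)) : Subgroup (V ≃ₗ[F] V) := K.map (SIso B).subtype

theorem nn_le_one {K : Subgroup (SIso B)} {O : Set V} (hO : Orb K O) {s s' : V} (h : s ∈ O ↔ s' ∈ O) :
    nn O (Submodule.span F {s}) = nn O (Submodule.span F {s'}) := by
  have hfV : Finite V := Module.finite_of_finite F
  have : Fintype V := Fintype.ofFinite V
  by_cases hs : s ∈ O
  · exact (ncard_span_of_mem (Orb.cone hO) hs).trans (ncard_span_of_mem (Orb.cone hO) (h.1 hs)).symm
  · exact (ncard_span_of_notMem (Orb.cone hO) hs).trans (ncard_span_of_notMem (Orb.cone hO) fun h' => hs (h.2 h')).symm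

theorem nn_line {O : Set V} {b : ℕ} (hZ : ZB B O b) {L L' : Submodule F V} (hL : finrank F L = 2)
    (hL' : finrank F L' = 2) (hTI : TI B L) (hTI' : TI B L') (h : (∃ v ∈ L, v ∈ O) ↔ ∃ v ∈ L', v ∈ O) :
    nn O L = nn O L' := by
  have hfV : Finite V := Module.finite_of_finite F
  have : Fintype V := Fintype.ofFinite V
  have h0 : ∀ L : Submodule F V, nn O L = 0 ↔ ¬ ∃ v ∈ L, v ∈ O := by
    intro L
    constructor
    · rintro h ⟨v, hv, hvO⟩
      have := nn_pos (L := L) hv hvO
      omega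
    · intro h
      refine nn_eq_zero fun x hx hxO => h ⟨x, hx, hxO⟩
  rcases hZ.line L hL hTI with h1 | h1 <;> rcases hZ.line L' hL' hTI' with h2 | h2
  · rw [h1, h2]
  · rw [h1, eq_comm, h0, ← h, ← h0]
    exact h1
  · rw [h2, h0, h, ← h0]
    exact h2
  · rw [h1, h2]

/-- **transitivity on the plane** -/
theorem plane_trans {K : Subgroup (SIso B)} {O : Set V} (hO : Orb K O) (hA : AffP K O) {b : ℕ} (hZ : ZB B O b)
    {M : Submodule F V} (hM : finrank F M = 3) (hTI : TI B M) {s s' : M} {L L' : Submodule F M}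
    (hL : finrank F L = 2) (hL' : finrank F L' = 2) (hs : s ∈ L) (hs' : s' ∈ L') (hs0 : s ≠ 0) (hs0' : s' ≠ 0)
    (hss : (s : V) ∈ O ↔ (s' : V) ∈ O) (hLL : (∃ v ∈ L, (v : V) ∈ O) ↔ ∃ v ∈ L', (v : V) ∈ O) :
    ∃ t ∈ TM (KL K) M, (∃ c : F, t s = c • s') ∧ L.map (t : M →ₗ[F] M) = L' := by
  have hfV : Finite V := Module.finite_of_finite F
  have : Fintype V := Fintype.ofFinite V
  have h0 : (s : V) ≠ 0 := fun e => hs0 (Subtype.ext e)
  have h0' : (s' : V) ≠ 0 := fun e => hs0' (Subtype.ext e)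
  obtain ⟨u, hu, hu0, hu1, hu2, hu3⟩ := exists_frame3 hM hTI ((Submodule.finrank_map_subtype_eq M L).trans hL)
    (map_le_sub M L) (s := (s : V)) ⟨s, hs, rfl⟩ h0
  obtain ⟨u', hu', hu0', hu1', hu2', hu3'⟩ := exists_frame3 hM hTI ((Submodule.finrank_map_subtype_eq M L').trans hL')
    (map_le_sub M L') (s := (s' : V)) ⟨s', hs', rfl⟩ h0'
  have hex : ∀ L : Submodule F M, (∃ v ∈ L, (v : V) ∈ O) ↔ ∃ v ∈ L.map M.subtype, v ∈ O := by
    intro L
    constructor
    · rintro ⟨v, hv, hvO⟩
      exact ⟨v, ⟨v, hv, rfl⟩, hvO⟩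
    · rintro ⟨_, ⟨v, hv, rfl⟩, hvO⟩
      exact ⟨v, hv, hvO⟩
  obtain ⟨g, hg, h⟩ := flag_trans hA hu hu' (by
    intro i hi
    interval_cases i
    · rw [W_zero, W_zero]
    · rw [hu1, hu1']
      exact nn_le_one hO hss
    · rw [hu2, hu2']
      refine nn_line hZ ((Submodule.finrank_map_subtype_eq M L).trans hL)
        ((Submodule.finrank_map_subtype_eq M L').trans hL') (hTI.mono (map_le_sub M L)) (hTI.mono (map_le_sub M L')) ?_
      rw [← hex, ← hex]
      exact hLL
    · rw [hu3, hu3'])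
  have h3 := h 3
  rw [hu3, hu3'] at h3
  obtain ⟨t, ht⟩ := exists_restrict h3
  refine ⟨t, ⟨g.1, ⟨g, hg, rfl⟩, ht⟩, ?_, ?_⟩
  · have h4 := h 1
    rw [hu1, hu1', Submodule.map_span, Set.image_singleton] at h4
    have h5 : g.1 (s : V) ∈ Submodule.span F {(s' : V)} := by
      rw [← h4]
      exact Submodule.mem_span_singleton_self _
    obtain ⟨c, hc⟩ := Submodule.mem_span_singleton.1 h5
    refine ⟨c, Subtype.ext ?_⟩
    rw [ht, ← hc]
    rfl
  · have h4 := h 2
    rw [hu2, hu2'] at h4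
    exact map_restrict ht h4

/-- **the case `1 < b < q²` does not occur** -/
theorem mid_false {q : ℕ} (hF : Fintype.card F = q ^ 2) (hq : 3 ≤ q) (hB : HForm B) (hn : 6 ≤ finrank F V)
    {K : Subgroup (SIso B)} {O : Set V} (hO : Orb K O) (hA : AffP K O) {b : ℕ} (hZ : ZB B O b) (h1 : 1 < b)
    (h2 : b < Fintype.card F) : False := by
  classical
  have hfV : Finite V := Module.finite_of_finite F
  have : Fintype V := Fintype.ofFinite V
  obtain ⟨v, hv⟩ := hO.ne
  have hv0 : v ≠ 0 := (Orb.cone hO).ne hv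
  obtain ⟨M, hvM, hTI, hM⟩ := Cfsg.Agent.H450.UF.exists_ti_le hB (C := Submodule.span F {v}) (k := 3) (by
    refine ti_span ?_
    rintro a rfl b rfl
    exact hO.iso _ hv) (by rw [finrank_span_singleton hv0]; omega) (by omega)
  have hvM : v ∈ M := hvM (Submodule.mem_span_singleton_self v)
  have : Fintype M := Fintype.ofFinite M
  let S : Set M := M.subtype ⁻¹' O
  have hS : Cone F S := cone_sub (Orb.cone hO) M
  have hne : S.Nonempty := ⟨⟨v, hvM⟩, hv⟩
  have hzl : ZL F S b := by
    intro L hL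
    rw [ncard_sub']
    exact hZ.line _ ((Submodule.finrank_map_subtype_eq M L).trans hL) (hTI.mono (map_le_sub M L))
  have hinv : ∀ t ∈ TM (KL K) M, ∀ w : M, t w ∈ S ↔ w ∈ S := by
    rintro t ⟨_, ⟨g, hg, rfl⟩, ht⟩ w
    change ((t w : M) : V) ∈ O ↔ (w : V) ∈ O
    rw [ht]
    exact hO.inv g hg _
  rcases Nat.even_or_odd (Fintype.card F) with hev | hodd
  · -- even characteristic
    obtain ⟨p, hchar⟩ := CharP.exists F
    obtain ⟨n, hp, hcard⟩ := FiniteField.card F p
    have hp2 : p = 2 := by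
      rw [hcard] at hev
      have h3 : Even p := by
        by_contra hcon
        exact Nat.not_even_iff_odd.2 ((Nat.not_even_iff_odd.1 hcon).pow) hev
      exact (hp.even_iff).1 h3
    subst hp2
    have P : ME.Pl (TM (KL K) M) S b :=
      { hM := hM
        cone := hS
        ne := hne
        b1 := h1
        bQ := h2
        zl := hzl
        inv := hinv
        ts := by
          intro s hs s' hs'
          have h0 := hS.ne hs
          have h0' := hS.ne hs'
          have hex : ∀ s : M, s ≠ 0 → ∃ L : Submodule F M, finrank F L = 2 ∧ s ∈ L := by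
            intro s hs0
            obtain ⟨y, hy⟩ : ∃ y : M, y ∉ Submodule.span F {s} := by
              by_contra hcon
              push Not at hcon
              have h5 : (⊤ : Submodule F M) ≤ Submodule.span F {s} := fun y _ => hcon y
              have h6 := Submodule.finrank_mono h5
              rw [finrank_top, hM, finrank_span_singleton hs0] at h6
              omega
            refine ⟨Submodule.span F {s, y}, finrank_span_pair ?_, Submodule.subset_span (Or.inl rfl)⟩
            rw [LinearIndependent.pair_iff' hs0]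
            intro a e
            exact hy (Submodule.mem_span_singleton.2 ⟨a, e⟩)
          obtain ⟨L, hL, hsL⟩ := hex s h0
          obtain ⟨L', hL', hsL'⟩ := hex s' h0'
          obtain ⟨t, ht, hc, -⟩ := plane_trans hO hA hZ hM hTI hL hL' hsL hsL' h0 h0' ⟨fun _ => hs', fun _ => hs⟩
            ⟨fun _ => ⟨s', hsL', hs'⟩, fun _ => ⟨s, hsL, hs⟩⟩
          exact ⟨t, ht, hc⟩
        tw := by
          intro w w' hw hw' hwS hwS' f f' hf hf' hfw hfw' hff
          have hex : ∀ f : Dual F M, (∃ s ∈ S, f s = 0) ↔ ∃ v ∈ LinearMap.ker f, (v : V) ∈ O := by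
            intro f
            exact ⟨fun ⟨s, hs, h⟩ => ⟨s, h, hs⟩, fun ⟨s, hs, h⟩ => ⟨s, h, hs⟩⟩
          obtain ⟨t, ht, hc, e⟩ := plane_trans hO hA hZ hM hTI (ME.finrank_ker hM hf) (ME.finrank_ker hM hf')
            (s := w) (s' := w') hfw hfw' hw hw' ⟨fun h => absurd h hwS, fun h => absurd h hwS'⟩ (by
              rw [← hex, ← hex]; exact hff)
          refine ⟨t, ht, hc, fun x hx => ?_⟩
          have h3 : t x ∈ (LinearMap.ker f).map (t : M →ₗ[F] M) := ⟨x, hx, rfl⟩
          rw [e] at h3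
          exact h3 }
    refine P.false hcard ?_
    rw [hF]
    nlinarith
  · -- odd characteristic
    refine Cfsg.Agent.H184.Arc.no_arc hM hodd S hS.zero hS.smul hne b h1 h2 hzl (TM (KL K) M) hinv ?_ ?_
    · intro s hs L L' hL hL' hsL hsL'
      exact plane_trans hO hA hZ hM hTI hL hL' hsL hsL' (hS.ne hs) (hS.ne hs) Iff.rfl
        ⟨fun _ => ⟨s, hsL', hs⟩, fun _ => ⟨s, hsL, hs⟩⟩
    · intro L hL s hs s' hs' hsL hsL'
      obtain ⟨t, ht, hc, e⟩ := plane_trans hO hA hZ hM hTI hL hL hsL hsL' (hS.ne hs) (hS.ne hs')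
        ⟨fun _ => hs', fun _ => hs⟩ Iff.rfl
      exact ⟨t, ht, e, hc⟩

end Cfsg.Agent.H449.U
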