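import Cfsg.Agent.H449.U.ZeroB
import Cfsg.Agent.H450.UF.Red
import Cfsg.Agent.H450.UF.Ovoid
import Cfsg.Agent.H450.UF.Point

/-!
# The case `b = 1` (helper449, for S2196)
-/

set_option autoImplicit false
set_option linter.unusedSectionVars false

namespace Cfsg.Agent.H449.U

open Module Cfsg.Agent.H91.U
open Cfsg.Agent.H950 (isoNum)

variable {F V : Type*} [Field F] [Fintype F] [AddCommGroup V] [Module F V] [FiniteDimensional F V] [Fintype V]
  {σ : F →+* F} {B : V →ₛₗ[σ] V →ₗ[F] F}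

/-- sums of the normalised characteristic function over arbitrary subspaces -/
theorem sm_nf_gen {K : Subgroup (SIso B)} {O : Set V} (_ : Orb K O) (C : Submodule F V) :
    sm (nf B O) C = (((C : Set V) ∩ O).ncard : ℝ) -
      (O.ncard : ℝ) / mu B * ({v : V | v ∈ C ∧ (v ≠ 0 ∧ B v v = 0)}.ncard : ℝ) := by
  classical
  unfold sm nf
  rw [ncard_eq_sum ((C : Set V) ∩ O), ncard_eq_sum {v : V | v ∈ C ∧ (v ≠ 0 ∧ B v v = 0)}, Finset.mul_sum,
    ← Finset.sum_sub_distrib]
  refine Finset.sum_congr rfl fun v _ => ?_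
  have e : (v ∈ {v : V | v ∈ C ∧ (v ≠ 0 ∧ B v v = 0)}) = (v ∈ C ∧ (v ≠ 0 ∧ B v v = 0)) := rfl
  simp only [Set.mem_inter_iff, SetLike.mem_coe, e]
  by_cases hv : v ∈ C
  · by_cases h0 : v ≠ 0 ∧ B v v = 0
    · simp only [hv, h0, true_and, if_true, and_self, ne_eq, not_false_eq_true, mul_one]
    · simp only [hv, true_and, if_true, if_neg h0, mul_zero]
  · simp only [hv, false_and, if_false, mul_zero, sub_zero]

theorem perp_one {K : Subgroup (SIso B)} {O : Set V} (hB : HForm B) (hO : Orb K O) (hZ : ZB B O 1) {x y : V}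
    (hx : x ∈ O) (hy : y ∈ O) (hxy : B x y = 0) : y ∈ Submodule.span F {x} := by
  by_contra hcon
  have hx0 : x ≠ 0 := (Orb.cone hO).ne hx
  have hli : LinearIndependent F ![x, y] := by
    rw [LinearIndependent.pair_iff' hx0]
    intro a e
    exact hcon (Submodule.mem_span_singleton.2 ⟨a, e⟩)
  have hxL : x ∈ Submodule.span F {x, y} := Submodule.subset_span (Or.inl rfl)
  have hyL : y ∈ Submodule.span F {x, y} := Submodule.subset_span (Or.inr rfl)
  have h1 := nn_pos hxL hx
  rcases hZ.line _ (finrank_span_pair hli) (ti_span_pair hB (hO.iso x hx) (hO.iso y hy) hxy) with h | h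
  · omega
  · rw [one_mul] at h
    have h2 : ((Submodule.span F {x} : Submodule F V) : Set V) ∩ O = ((Submodule.span F {x, y} : Submodule F V) : Set V) ∩ O := by
      refine Set.eq_of_subset_of_ncard_le ?_ ?_ (Set.toFinite _)
      · rintro v ⟨hv, hvO⟩
        exact ⟨Submodule.span_mono (by intro z hz; exact Or.inl hz) hv, hvO⟩
      · rw [ncard_span_of_mem (Orb.cone hO) hx]
        exact h.le
    have h3 : y ∈ ((Submodule.span F {x} : Submodule F V) : Set V) ∩ O := by
      rw [h2]; exact ⟨hyL, hy⟩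
    exact hcon h3.1

theorem perp_one_inter {K : Subgroup (SIso B)} {O : Set V} (hB : HForm B) (hO : Orb K O) (hZ : ZB B O 1) {x : V}
    (hx : x ∈ O) : ((perp B (Submodule.span F {x}) : Submodule F V) : Set V) ∩ O =
      ((Submodule.span F {x} : Submodule F V) : Set V) ∩ O := by
  ext v
  constructor
  · rintro ⟨h1, h2⟩
    exact ⟨perp_one hB hO hZ hx h2 (hB.swap_zero (mem_perp_span.1 h1)), h2⟩
  · rintro ⟨h1, h2⟩
    refine ⟨mem_perp_span.2 ?_, h2⟩
    obtain ⟨c, rfl⟩ := Submodule.mem_span_singleton.1 h1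
    rw [smul_left', hO.iso x hx, mul_zero]

/-- **maximal totally isotropic subspaces** -/
theorem one_key {K : Subgroup (SIso B)} {O : Set V} (hB : HForm B) (hn : 6 ≤ finrank F V) (hO : Orb K O)
    (hZ : ZB B O 1) {C : Submodule F V} (hC : TI B C) (hmax : finrank F V < 2 * (finrank F C + 1)) :
    (((C : Set V) ∩ O).ncard : ℝ) = (O.ncard : ℝ) / mu B * ((Nat.card C : ℝ) - 1) := by
  classical
  have ht : Tr1 B := fun j u u' hu hu' => Cfsg.Agent.H450.UF.exists_flag_map0 hB hu hu'
  obtain ⟨lam, hlam⟩ := exists_lam' ht hO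
  obtain ⟨x, y, hx, hy0, hyy, hy, hxy⟩ := exists_mixed hB hO (by omega)
  have hx0 : x ≠ 0 := (Orb.cone hO).ne hx
  have hxx := hO.iso x hx
  -- the number of isotropic vectors orthogonal to `x`, `y`
  have hcount : {v : V | v ∈ perp B (Submodule.span F {x}) ∧ (v ≠ 0 ∧ B v v = 0)}.ncard =
      {v : V | v ∈ perp B (Submodule.span F {y}) ∧ (v ≠ 0 ∧ B v v = 0)}.ncard := by
    obtain ⟨g, c, hc, hg⟩ := exists_smul_iso ht hx0 hxx hy0 hyy
    rw [← Set.ncard_image_of_injective _ (g.1.injective)]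
    congr 1
    ext v
    have hsc : ∀ w, B w (g • x) = 0 ↔ B w y = 0 := by
      intro w
      rw [hg, smul_right', mul_eq_zero]
      exact ⟨fun h => h.resolve_left hc, Or.inr⟩
    constructor
    · rintro ⟨w, ⟨h1, h2, h3⟩, rfl⟩
      change g • w ∈ perp B (Submodule.span F {y}) ∧ (g • w ≠ 0 ∧ B (g • w) (g • w) = 0)
      rw [mem_perp_span] at h1 ⊢
      rw [← hsc, B_smul, B_smul, Ne, smul_eq_zero']
      exact ⟨h1, h2, h3⟩
    · rintro ⟨h1, h2, h3⟩
      refine ⟨g⁻¹ • v, ?_, smul_inv_smul g v⟩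
      change g⁻¹ • v ∈ perp B (Submodule.span F {x}) ∧ (g⁻¹ • v ≠ 0 ∧ B (g⁻¹ • v) (g⁻¹ • v) = 0)
      rw [mem_perp_span] at h1 ⊢
      rw [← hsc] at h1
      rw [B_smul, Ne, smul_eq_zero', ← B_smul g, smul_inv_smul]
      exact ⟨h1, h2, h3⟩
  have h1 := hlam x hxx
  have h2 := hlam y hyy
  rw [sm_nf_gen hO, hcount] at h1
  rw [sm_nf_gen hO] at h2
  have e1 : nf B O x = 1 - (O.ncard : ℝ) / mu B := by
    unfold nf
    rw [if_pos hx, if_pos ⟨hx0, hxx⟩]
  have e2 : nf B O y = 0 - (O.ncard : ℝ) / mu B := by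
    unfold nf
    rw [if_neg hy, if_pos ⟨hy0, hyy⟩]
  rw [e1] at h1
  rw [e2] at h2
  have hle : (((perp B (Submodule.span F {x}) : Submodule F V) : Set V) ∩ O).ncard ≤
      (((perp B (Submodule.span F {y}) : Submodule F V) : Set V) ∩ O).ncard := by
    rw [perp_one_inter hB hO hZ hx]
    refine Set.ncard_le_ncard ?_ (Set.toFinite _)
    rintro v ⟨hv, hvO⟩
    refine ⟨mem_perp_span.2 ?_, hvO⟩
    obtain ⟨c, rfl⟩ := Submodule.mem_span_singleton.1 hv
    rw [smul_left', hxy, mul_zero]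
  have hle' : ((((perp B (Submodule.span F {x}) : Submodule F V) : Set V) ∩ O).ncard : ℝ) ≤
      ((((perp B (Submodule.span F {y}) : Submodule F V) : Set V) ∩ O).ncard : ℝ) := by exact_mod_cast hle
  have hl0 : lam ≤ 0 := by linarith
  -- the sum over `C`
  have h3 := perp_sum (sum_nf hO) hlam hC
  have h4 : sm (nf B O) (perp B C) = sm (nf B O) C := by
    unfold sm
    refine Finset.sum_congr rfl fun v _ => ?_
    by_cases hv : v ≠ 0 ∧ B v v = 0
    · have h5 : v ∈ perp B C ↔ v ∈ C := by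
        constructor
        · intro h6
          by_contra h7
          have h8 := Cfsg.Agent.H450.UF.ti_sup_span hB hC h6 hv.2
          have h9 := Cfsg.Agent.H450.UF.ti_two_mul_le hB h8
          have h10 : C < C ⊔ Submodule.span F {v} := by
            refine lt_of_le_of_ne le_sup_left fun e => h7 ?_
            rw [e]
            exact Submodule.mem_sup_right (Submodule.mem_span_singleton_self v)
          have h11 := Submodule.finrank_lt_finrank_of_lt h10
          omega
        · intro h6 z hz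
          exact hC v h6 z hz
      simp only [h5]
    · rw [nf_not hO hv, ite_self, ite_self]
  rw [h4] at h3
  have hq1 : (1 : ℝ) < Fintype.card F := by exact_mod_cast Fintype.one_lt_card
  have hq : (0 : ℝ) < 1 - (Fintype.card F : ℝ)⁻¹ := by
    have := inv_lt_one_of_one_lt₀ hq1
    linarith
  have hCp : (0 : ℝ) < Nat.card C := by exact_mod_cast Nat.card_pos
  have h5 : ((Nat.card C : ℝ) * (1 - (Fintype.card F : ℝ)⁻¹) - lam) * sm (nf B O) C = 0 := by
    rw [sub_mul, h3, sub_self]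
  have h6 : sm (nf B O) C = 0 := by
    refine (mul_eq_zero.1 h5).resolve_left ?_
    have := mul_pos hCp hq
    linarith
  rw [sm_nf hC] at h6
  linarith

theorem mu_eq {q : ℕ} (hF : Fintype.card F = q ^ 2) (hB : HForm B) : mu B = (isoNum q (finrank F V) : ℝ) := by
  unfold mu
  rw [← Cfsg.Agent.H450.UF.card_iso hF hB, ← Nat.card_coe_set_eq]
  congr 1
  refine Nat.card_congr (Equiv.subtypeEquivRight fun v => ?_)
  exact ⟨fun h => ⟨h.2, h.1⟩, fun h => ⟨h.2, h.1⟩⟩

/-- **the case `b = 1` does not occur** -/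
theorem one_false {q : ℕ} (hF : Fintype.card F = q ^ 2) (hB : HForm B) (hn : 6 ≤ finrank F V)
    {K : Subgroup (SIso B)} {O : Set V} (hO : Orb K O) (hA : AffP K O) (hZ : ZB B O 1) : False := by
  classical
  have hmu := hO.mu_ne
  have hq1 : 1 < Fintype.card F := Fintype.one_lt_card
  have hOp : 0 < O.ncard := (Set.ncard_pos (Set.toFinite _)).2 hO.ne
  have hmup : (0 : ℝ) < mu B := lt_of_le_of_ne (by unfold mu; positivity) (Ne.symm hmu)
  -- maximal subspaces meet `O`
  have hmeet : ∀ C : Submodule F V, TI B C → finrank F V < 2 * (finrank F C + 1) → ∃ x ∈ C, x ∈ O := by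
    intro C hC hmax
    by_contra hcon
    push Not at hcon
    have h1 := one_key hB hn hO hZ hC hmax
    have h2 : ((C : Set V) ∩ O).ncard = 0 := nn_eq_zero hcon
    rw [h2, Nat.cast_zero] at h1
    have h3 : (1 : ℝ) < Nat.card C := by
      have : 1 < Nat.card C := by
        rw [Module.natCard_eq_pow_finrank (K := F), Nat.card_eq_fintype_card]
        exact Nat.one_lt_pow (by omega) hq1
      exact_mod_cast this
    have h4 : (0 : ℝ) < (O.ncard : ℝ) / mu B * ((Nat.card C : ℝ) - 1) := by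
      have : (0 : ℝ) < O.ncard := by exact_mod_cast hOp
      have h5 : (0 : ℝ) < (Nat.card C : ℝ) - 1 := by linarith
      positivity
    linarith
  rcases Nat.even_or_odd' (finrank F V) with ⟨m, hm | hm⟩
  · exact Cfsg.Agent.H450.UF.Red.even_false hF hB hm (by omega) hO hA
      (fun x hx y hy h => perp_one hB hO hZ hx hy h) (fun M hM hTI => hmeet M hTI (by omega))
  · -- odd dimension
    obtain ⟨C, -, hC, hCm⟩ := Cfsg.Agent.H450.UF.exists_ti_le hB Cfsg.Agent.H450.UF.ti_bot (k := m) (by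
      rw [finrank_bot]; omega) (by omega)
    have hmax : finrank F V < 2 * (finrank F C + 1) := by omega
    obtain ⟨x, hx, hxO⟩ := hmeet C hC hmax
    have h1 := one_key hB hn hO hZ hC hmax
    have h2 : ((C : Set V) ∩ O) = ((Submodule.span F {x} : Submodule F V) : Set V) ∩ O := by
      ext v
      constructor
      · rintro ⟨h3, h4⟩
        exact ⟨perp_one hB hO hZ hxO h4 (hC x hx v h3), h4⟩
      · rintro ⟨h3, h4⟩
        refine ⟨?_, h4⟩
        obtain ⟨c, rfl⟩ := Submodule.mem_span_singleton.1 h3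
        exact C.smul_mem c hx
    rw [h2, ncard_span_of_mem (Orb.cone hO) hxO, mu_eq hF hB, Module.natCard_eq_pow_finrank (K := F), hCm,
      Nat.card_eq_fintype_card, hF] at h1
    have hq2 : 2 ≤ q := by
      by_contra hcon
      have : q = 0 ∨ q = 1 := by omega
      rcases this with rfl | rfl <;> omega
    have h3 : isoNum q (finrank F V) = (q ^ finrank F V + 1) * (q ^ (finrank F V - 1) - 1) :=
      (Cfsg.Agent.H450.UF.isoNum_eq q _).2 ⟨m, hm⟩
    have h4 : q ^ (finrank F V - 1) = (q ^ 2) ^ m := by rw [← pow_mul]; congr 1; omega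
    rw [h3, h4] at h1
    have h5 : 1 < (q ^ 2) ^ m := Nat.one_lt_pow (by omega) (by nlinarith)
    have h6 : 0 < q ^ finrank F V + 1 := by positivity
    have h7 : (((q ^ 2 : ℕ) - 1 : ℕ) : ℝ) * (((q ^ finrank F V + 1 : ℕ)) : ℝ) = (O.ncard : ℝ) := by
      rw [h1]
      have e1 : (((q ^ finrank F V + 1) * ((q ^ 2) ^ m - 1) : ℕ) : ℝ) =
          ((q ^ finrank F V + 1 : ℕ) : ℝ) * (((q ^ 2) ^ m - 1 : ℕ) : ℝ) := by push_cast; ring
      have e2 : ((((q ^ 2) ^ m : ℕ) : ℝ) - 1) = (((q ^ 2) ^ m - 1 : ℕ) : ℝ) := by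
        rw [Nat.cast_sub (by omega), Nat.cast_one]
      rw [e1, e2]
      have e3 : (((q ^ 2) ^ m - 1 : ℕ) : ℝ) ≠ 0 := by
        have : (q ^ 2) ^ m - 1 ≠ 0 := by omega
        exact_mod_cast this
      have e4 : ((q ^ finrank F V + 1 : ℕ) : ℝ) ≠ 0 := by
        exact_mod_cast h6.ne'
      field_simp
    have h8 : O.ncard = (q ^ 2 - 1) * (q ^ finrank F V + 1) := by
      have : ((((q ^ 2 - 1) * (q ^ finrank F V + 1) : ℕ)) : ℝ) = (O.ncard : ℝ) := by
        rw [← h7]; push_cast; ring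
      exact_mod_cast this.symm
    refine Cfsg.Agent.H450.UF.Ovoid.no_ovoid hB hF rfl (by omega) hO.zero (Orb.cone hO).smul h8 fun z hz => ?_
    rw [perp_one_inter hB hO hZ hz, ncard_span_of_mem (Orb.cone hO) hz, hF]

end Cfsg.Agent.H449.U
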