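import Cfsg.Agent.H449.U.GeoHyp2
import Cfsg.Agent.H449.U.Mid
import Cfsg.Agent.H449.U.One

/-!
# The case of two orbits on the isotropic points (helper449, for S2196)

A rank three point stabiliser `K` of `SU(V)`, `dim V ≥ 6`, `q ≥ 3`, with a function `r ≠ 0` orthogonal to the functions
invariant under the stabilisers of totally isotropic flags cannot have exactly two orbits on the isotropic points.
-/

set_option autoImplicit false
set_option linter.unusedSectionVars false

namespace Cfsg.Agent.H449.U

open Module Cfsg.Agent.H91.U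

variable {F V : Type*} [Field F] [Fintype F] [AddCommGroup V] [Module F V] [FiniteDimensional F V]
  {σ : F →+* F} {B : V →ₛₗ[σ] V →ₗ[F] F}

/-- **No two orbits.** -/
theorem not_two_orb {q : ℕ} (hF : Fintype.card F = q ^ 2) (hq : 3 ≤ q) (hB : HForm B) (hn : 6 ≤ finrank F V)
    {X : Type*} [Fintype X] [MulAction (SIso B) X] [MulAction.IsPretransitive (SIso B) X] (x₀ : X)
    (h3 : Nat.card (MulAction.orbitRel.Quotient (MulAction.stabilizer (SIso B) x₀) X) ≤ 3) {r : X → ℝ}
    (hr : Orth B r) (hr0 : r ≠ 0) {O : Set V} (hO : Orb (MulAction.stabilizer (SIso B) x₀) O) : False := by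
  have hfV : Finite V := Module.finite_of_finite F
  have : Fintype V := Fintype.ofFinite V
  have key : ∀ {O : Set V}, Orb (MulAction.stabilizer (SIso B) x₀) O → ∀ b, ZB B O b → False := by
    intro O hO b hZ
    have hA := aff (x₀ := x₀) hn hB h3 hO hr hr0
    rcases Nat.lt_or_ge 1 b with h1 | h1
    · rcases lt_or_eq_of_le hZ.le with h2 | h2
      · exact mid_false hF hq hB hn hO hA hZ h1 h2
      · rw [h2] at hZ
        exact hyp_false hF hq hB hn x₀ h3 hO hZ
    · have h2 : b = 1 := by
        have := hZ.pos
        omega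
      rw [h2] at hZ
      exact one_false hF hB hn hO hA hZ
  obtain ⟨b, h | h⟩ := exists_zero_b hB hO (aff (x₀ := x₀) hn hB h3 hO hr hr0) (by omega)
  · exact key hO b h
  · exact key hO.co b h

end Cfsg.Agent.H449.U
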