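import Mathlib

/-!
# Groups on a three-dimensional space fixing a point (helper449, for S2196)

`T` is a group of linear automorphisms of the three-dimensional space `M` over `F`, `q = |F|`, fixing the point `p`,
transitive on the lines through `p` and on the lines not through `p`.

* `key` : an invariant group `Λ` of functionals vanishing at `p` satisfies `|Λ| + q = (q + 1) s`, `1 ≤ s ≤ q`;
* `big` : if `Λ ≠ 0` then `q + 2 ≤ |Λ|`;
* `all_tv` : `T` contains all maps `x ↦ x + μ x • p`, `μ p = 0`.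
-/

set_option autoImplicit false
set_option linter.unusedSectionVars false

namespace Cfsg.Agent.H449.U.Planar

open Module

variable {F M : Type*} [Field F] [Fintype F] [AddCommGroup M] [Module F M] [FiniteDimensional F M]

theorem exists_smul_of_ker_le {ν ν' : Dual F M} (hν' : ν' ≠ 0) (h : LinearMap.ker ν' ≤ LinearMap.ker ν) :
    ∃ d : F, ν = d • ν' := by
  obtain ⟨x₀, hx₀⟩ : ∃ x, ν' x ≠ 0 := by
    by_contra hcon
    push Not at hcon
    exact hν' (LinearMap.ext hcon)
  refine ⟨ν x₀ / ν' x₀, LinearMap.ext fun x => ?_⟩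
  have h1 : x - (ν' x / ν' x₀) • x₀ ∈ LinearMap.ker ν' := by
    rw [LinearMap.mem_ker, map_sub, map_smul, smul_eq_mul, div_mul_cancel₀ _ hx₀, sub_self]
  have h2 := LinearMap.mem_ker.1 (h h1)
  rw [map_sub, map_smul, smul_eq_mul, sub_eq_zero] at h2
  rw [LinearMap.smul_apply, smul_eq_mul, h2]
  ring

section

variable (hM : finrank F M = 3) {p : M} (hp : p ≠ 0) {T : Subgroup (M ≃ₗ[F] M)} (hTp : ∀ t ∈ T, ∃ c : F, t p = c • p)
  (hT2 : ∀ L L' : Submodule F M, finrank F L = 2 → finrank F L' = 2 → p ∈ L → p ∈ L' →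
    ∃ t ∈ T, L.map (t : M →ₗ[F] M) = L')

/-- `Λ` is invariant under `T` -/
def InvL (p : M) (T : Subgroup (M ≃ₗ[F] M)) (Λ : AddSubgroup (Dual F M)) : Prop :=
  ∀ t ∈ T, ∀ c : F, t p = c • p → ∀ μ ∈ Λ, c • (μ ∘ₗ (t⁻¹ : M ≃ₗ[F] M).toLinearMap) ∈ Λ

open Classical in
/-- the multiplicity -/
noncomputable def mult (Λ : AddSubgroup (Dual F M)) (ν : Dual F M) : ℕ :=
  ((Finset.univ : Finset F).filter fun a => a • ν ∈ Λ).card

include hM hp hTp hT2 in
theorem mult_le {Λ : AddSubgroup (Dual F M)} (hinv : InvL p T Λ) {ν ν' : Dual F M} (hν : ν ≠ 0) (hν' : ν' ≠ 0)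
    (hνp : ν p = 0) (hνp' : ν' p = 0) : mult Λ ν ≤ mult Λ ν' := by
  classical
  have h1 := Dual.finrank_ker_add_one_of_ne_zero (K := F) hν
  have h2 := Dual.finrank_ker_add_one_of_ne_zero (K := F) hν'
  obtain ⟨t, ht, hL⟩ := hT2 (LinearMap.ker ν) (LinearMap.ker ν') (by omega) (by omega) hνp hνp'
  obtain ⟨c, hc⟩ := hTp t ht
  have hc0 : c ≠ 0 := by
    rintro rfl
    rw [zero_smul] at hc
    exact hp ((LinearEquiv.map_eq_zero_iff t).1 hc)
  obtain ⟨d, hd⟩ := exists_smul_of_ker_le (ν := ν ∘ₗ (t⁻¹ : M ≃ₗ[F] M).toLinearMap) hν' (by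
    intro x hx
    rw [← hL] at hx
    obtain ⟨y, hy, rfl⟩ := hx
    rw [LinearMap.mem_ker, LinearMap.comp_apply]
    have : (t⁻¹ : M ≃ₗ[F] M).toLinearMap ((t : M →ₗ[F] M) y) = y := by
      change t⁻¹ (t y) = y
      rw [← LinearEquiv.mul_apply, inv_mul_cancel]; rfl
    rw [this]
    exact hy)
  have hd0 : d ≠ 0 := by
    rintro rfl
    rw [zero_smul] at hd
    apply hν
    ext x
    have h3 := congrArg (fun g : Dual F M => g (t x)) hd
    have h4 : (t⁻¹ : M ≃ₗ[F] M).toLinearMap (t x) = x := by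
      change t⁻¹ (t x) = x
      rw [← LinearEquiv.mul_apply, inv_mul_cancel]; rfl
    simp only [LinearMap.comp_apply, h4, LinearMap.zero_apply] at h3
    exact h3
  unfold mult
  refine Finset.card_le_card_of_injOn (fun a => c * a * d) ?_ ?_
  · intro a ha
    rw [Finset.mem_coe, Finset.mem_filter] at ha ⊢
    refine ⟨Finset.mem_univ _, ?_⟩
    have h3 := hinv t ht c hc _ ha.2
    have h4 : c • ((a • ν) ∘ₗ (t⁻¹ : M ≃ₗ[F] M).toLinearMap) = (c * a * d) • ν' := by
      rw [LinearMap.smul_comp, hd, smul_smul, smul_smul, mul_assoc]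
    rwa [h4] at h3
  · intro a _ a' _ h
    have h3 : c * a * d = c * a' * d := h
    exact mul_left_cancel₀ hc0 (mul_right_cancel₀ hd0 h3)

include hM hp hTp hT2 in
/-- **the numbers of elements of an invariant group of functionals** -/
theorem key {Λ : AddSubgroup (Dual F M)} (h0 : ∀ μ ∈ Λ, μ p = 0) (hinv : InvL p T Λ) :
    ∃ s, 1 ≤ s ∧ s ≤ Fintype.card F ∧ Nat.card Λ + Fintype.card F = (Fintype.card F + 1) * s := by
  classical
  have hfin : Finite (Dual F M) := Module.finite_of_finite F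
  have : Fintype (Dual F M) := Fintype.ofFinite _
  -- the functionals vanishing at `p`
  let ev : Dual F M →ₗ[F] F := Dual.eval F M p
  have hev : ev ≠ 0 := by
    intro h
    apply hp
    rw [← Module.forall_dual_apply_eq_zero_iff F]
    intro f
    exact congrArg (fun g : Dual F M →ₗ[F] F => g f) h
  have hD : finrank F (LinearMap.ker ev) = 2 := by
    have h1 := Dual.finrank_ker_add_one_of_ne_zero (K := F) (f := ev) hev
    rw [Subspace.dual_finrank_eq] at h1
    omega
  let D : Finset (Dual F M) := Finset.univ.filter fun ν => ν p = 0 ∧ ν ≠ 0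
  have hDcard : D.card + 1 = Fintype.card F ^ 2 := by
    have h1 : Nat.card (LinearMap.ker ev) = Fintype.card F ^ 2 := by
      rw [Module.natCard_eq_pow_finrank (K := F), hD, Nat.card_eq_fintype_card]
    rw [← h1, Nat.card_eq_fintype_card, Fintype.card_subtype]
    have h2 : (Finset.univ.filter fun ν : Dual F M => ν ∈ LinearMap.ker ev) = insert 0 D := by
      ext ν
      simp only [D, Finset.mem_filter, Finset.mem_univ, true_and, Finset.mem_insert]
      change ν p = 0 ↔ ν = 0 ∨ (ν p = 0 ∧ ν ≠ 0)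
      constructor
      · intro h
        by_cases h3 : ν = 0
        · exact Or.inl h3
        · exact Or.inr ⟨h, h3⟩
      · rintro (rfl | h)
        · exact LinearMap.zero_apply p
        · exact h.1
    rw [h2, Finset.card_insert_of_notMem]
    simp [D]
  have hne : D.Nonempty := by
    rw [← Finset.card_pos]
    have : 1 < Fintype.card F := Fintype.one_lt_card
    have : 1 < Fintype.card F ^ 2 := Nat.one_lt_pow (by norm_num) this
    omega
  obtain ⟨ν₀, hν₀⟩ := hne
  have hmult : ∀ ν ∈ D, mult Λ ν = mult Λ ν₀ := by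
    intro ν hν
    simp only [D, Finset.mem_filter] at hν hν₀
    exact le_antisymm (mult_le hM hp hTp hT2 hinv hν.2.2 hν₀.2.2 hν.2.1 hν₀.2.1)
      (mult_le hM hp hTp hT2 hinv hν₀.2.2 hν.2.2 hν₀.2.1 hν.2.1)
  -- exchange
  have h1 : ∑ ν ∈ D, mult Λ ν = ∑ a : F, (D.filter fun ν => a • ν ∈ Λ).card := by
    simp only [mult, Finset.card_filter]
    exact Finset.sum_comm
  rw [Finset.sum_congr rfl hmult, Finset.sum_const, smul_eq_mul] at h1
  have hΛ : Nat.card Λ = (Finset.univ.filter fun μ : Dual F M => μ ∈ Λ).card := by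
    rw [Nat.card_eq_fintype_card, Fintype.card_subtype]
  have hΛ' : (Finset.univ.filter fun μ : Dual F M => μ ∈ Λ ∧ μ ≠ 0).card + 1 = Nat.card Λ := by
    rw [hΛ]
    have h2 : (Finset.univ.filter fun μ : Dual F M => μ ∈ Λ) = insert 0 (Finset.univ.filter fun μ : Dual F M => μ ∈ Λ ∧ μ ≠ 0) := by
      ext ν
      simp only [Finset.mem_filter, Finset.mem_univ, true_and, Finset.mem_insert]
      constructor
      · intro h
        by_cases h3 : ν = 0
        · exact Or.inl h3
        · exact Or.inr ⟨h, h3⟩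
      · rintro (rfl | h)
        · exact zero_mem _
        · exact h.1
    rw [h2, Finset.card_insert_of_notMem]
    simp
  have h2 : ∀ a : F, a ≠ 0 → (D.filter fun ν => a • ν ∈ Λ).card =
      (Finset.univ.filter fun μ : Dual F M => μ ∈ Λ ∧ μ ≠ 0).card := by
    intro a ha
    refine Finset.card_bij (fun ν _ => a • ν) ?_ ?_ ?_
    · intro ν hν
      simp only [D, Finset.mem_filter, Finset.mem_univ, true_and] at hν ⊢
      exact ⟨hν.2, smul_ne_zero ha hν.1.2⟩
    · intro ν _ ν' _ h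
      exact smul_right_injective _ ha h
    · intro μ hμ
      simp only [Finset.mem_filter, Finset.mem_univ, true_and] at hμ
      refine ⟨a⁻¹ • μ, ?_, ?_⟩
      · simp only [D, Finset.mem_filter, Finset.mem_univ, true_and]
        refine ⟨⟨?_, smul_ne_zero (inv_ne_zero ha) hμ.2⟩, ?_⟩
        · rw [LinearMap.smul_apply, h0 μ hμ.1, smul_zero]
        · rw [smul_smul, mul_inv_cancel₀ ha, one_smul]; exact hμ.1
      · rw [smul_smul, mul_inv_cancel₀ ha, one_smul]
  have h3 : (D.filter fun ν => (0 : F) • ν ∈ Λ).card = D.card := by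
    congr 1
    rw [Finset.filter_eq_self]
    intro ν _
    rw [zero_smul]
    exact zero_mem _
  rw [← Finset.add_sum_erase _ _ (Finset.mem_univ (0 : F)), h3,
    Finset.sum_congr rfl fun a ha => h2 a (Finset.ne_of_mem_erase ha), Finset.sum_const,
    Finset.card_erase_of_mem (Finset.mem_univ _), Finset.card_univ, smul_eq_mul] at h1
  set s := mult Λ ν₀ with hs
  set Q := Fintype.card F with hQ
  set L := (Finset.univ.filter fun μ : Dual F M => μ ∈ Λ ∧ μ ≠ 0).card with hL
  have hs1 : 1 ≤ s := by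
    rw [hs]
    unfold mult
    rw [Nat.one_le_iff_ne_zero, Finset.card_ne_zero]
    exact ⟨0, by rw [Finset.mem_filter]; exact ⟨Finset.mem_univ _, by rw [zero_smul]; exact zero_mem _⟩⟩
  have hsQ : s ≤ Q := by
    rw [hs, hQ, ← Finset.card_univ]
    exact Finset.card_filter_le _ _
  refine ⟨s, hs1, hsQ, ?_⟩
  have hQ1 : 1 < Q := Fintype.one_lt_card
  obtain ⟨r, hr⟩ : ∃ r, Q = r + 1 := ⟨Q - 1, by omega⟩
  have hr0 : 0 < r := by omega
  obtain ⟨s', hs'⟩ : ∃ s', s = s' + 1 := ⟨s - 1, by omega⟩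
  have hD2 : D.card = r * (r + 2) := by
    have : (r + 1) ^ 2 = r * (r + 2) + 1 := by ring
    rw [hr, this] at hDcard
    omega
  rw [hD2, hr, Nat.add_sub_cancel, hs'] at h1
  have h5 : r * ((r + 2) * s') = r * L := by
    have h6 : r * (r + 2) * (s' + 1) = r * (r + 2) + r * ((r + 2) * s') := by ring
    omega
  have h6 := Nat.eq_of_mul_eq_mul_left hr0 h5
  rw [← hΛ', hr, hs', ← h6]
  ring

include hM hp hTp hT2 in
theorem big {Λ : AddSubgroup (Dual F M)} (h0 : ∀ μ ∈ Λ, μ p = 0) (hinv : InvL p T Λ) (hne : Λ ≠ ⊥) :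
    Fintype.card F + 2 ≤ Nat.card Λ := by
  have hfin : Finite (Dual F M) := Module.finite_of_finite F
  obtain ⟨s, h1, h2, h3⟩ := key hM hp hTp hT2 h0 hinv
  have h4 : Nat.card Λ ≠ 1 := fun h => hne (AddSubgroup.card_eq_one.1 h)
  have h5 : 2 ≤ s := by
    by_contra hcon
    have : s = 1 := by omega
    rw [this] at h3
    omega
  have h6 : (Fintype.card F + 1) * 2 ≤ (Fintype.card F + 1) * s := Nat.mul_le_mul_left _ h5
  omega

/-! ### the group of transvections with centre `p` -/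

/-- the functionals of the transvections with centre `p` in `T` -/
def tvL (p : M) (T : Subgroup (M ≃ₗ[F] M)) : AddSubgroup (Dual F M) where
  carrier := {μ | μ p = 0 ∧ ∃ t ∈ T, ∀ x, t x = x + μ x • p}
  zero_mem' := ⟨LinearMap.zero_apply p, 1, one_mem T, fun x => by rw [LinearMap.zero_apply, zero_smul, add_zero]; rfl⟩
  add_mem' := by
    rintro μ ν ⟨h1, t, ht, h2⟩ ⟨h3, t', ht', h4⟩
    refine ⟨by rw [LinearMap.add_apply, h1, h3, add_zero], t * t', mul_mem ht ht', fun x => ?_⟩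
    rw [LinearEquiv.mul_apply, h4, map_add, map_smul, h2, h2, h1, zero_smul, add_zero, LinearMap.add_apply, add_smul]
    abel
  neg_mem' := by
    rintro μ ⟨h1, t, ht, h2⟩
    refine ⟨by rw [LinearMap.neg_apply, h1, neg_zero], t⁻¹, inv_mem ht, fun x => ?_⟩
    have h3 : t (x + (-μ) x • p) = x := by
      rw [map_add, map_smul, h2, h2 p, h1, zero_smul, add_zero, LinearMap.neg_apply, neg_smul]
      abel
    have h4 : t⁻¹ (t (x + (-μ) x • p)) = x + (-μ) x • p := by
      rw [← LinearEquiv.mul_apply, inv_mul_cancel]; rfl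
    rw [← h4, h3]

theorem mem_tvL {p : M} {T : Subgroup (M ≃ₗ[F] M)} {μ : Dual F M} :
    μ ∈ tvL p T ↔ μ p = 0 ∧ ∃ t ∈ T, ∀ x, t x = x + μ x • p := Iff.rfl

theorem inv_tvL {p : M} {T : Subgroup (M ≃ₗ[F] M)} : InvL p T (tvL p T) := by
  rintro t ht c hc μ ⟨h1, g, hg, h2⟩
  have hti : ∀ x, t (t⁻¹ x) = x := fun x => by rw [← LinearEquiv.mul_apply, mul_inv_cancel]; rfl
  have hit : ∀ x, t⁻¹ (t x) = x := fun x => by rw [← LinearEquiv.mul_apply, inv_mul_cancel]; rfl
  refine ⟨?_, t * g * t⁻¹, mul_mem (mul_mem ht hg) (inv_mem ht), fun x => ?_⟩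
  · rw [LinearMap.smul_apply, smul_eq_mul]
    have h3 : c • (t⁻¹ p) = p := by
      rw [← map_smul, ← hc, hit]
    change c * μ (t⁻¹ p) = 0
    rw [← smul_eq_mul, ← map_smul, h3, h1]
  · rw [LinearEquiv.mul_apply, LinearEquiv.mul_apply, h2, map_add, map_smul, hti, hc, LinearMap.smul_apply, smul_smul,
      smul_eq_mul, mul_comm c]
    rfl

variable (hT1 : ∀ L L' : Submodule F M, finrank F L = 2 → finrank F L' = 2 → p ∉ L → p ∉ L' →
    ∃ t ∈ T, L.map (t : M →ₗ[F] M) = L')

/-- the functionals with value one at `p` -/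
def Nu (F : Type*) {M : Type*} [Field F] [AddCommGroup M] [Module F M] (p : M) : Type _ := {ν : Dual F M // ν p = 1}

include hp hTp in
theorem nu_ne {t : M ≃ₗ[F] M} (ht : t ∈ T) (ν : Nu F p) : ν.1 (t p) ≠ 0 := by
  obtain ⟨c, hc⟩ := hTp t ht
  have hc0 : c ≠ 0 := by
    rintro rfl
    rw [zero_smul] at hc
    exact hp ((LinearEquiv.map_eq_zero_iff t).1 hc)
  rw [hc, map_smul, ν.2, smul_eq_mul, mul_one]
  exact hc0

/-- the action on the functionals with value one at `p` -/
@[instance_reducible]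
def actNu (hp : p ≠ 0) (hTp : ∀ t ∈ T, ∃ c : F, t p = c • p) : MulAction T (Nu F p) where
  smul t ν := ⟨(ν.1 ((t⁻¹ : T).1 p))⁻¹ • (ν.1 ∘ₗ ((t⁻¹ : T).1 : M ≃ₗ[F] M).toLinearMap), by
    rw [LinearMap.smul_apply, smul_eq_mul]
    exact inv_mul_cancel₀ (nu_ne hp hTp (t⁻¹ : T).2 ν)⟩
  one_smul ν := Subtype.ext (by
    ext x
    change (ν.1 ((1⁻¹ : T).1 p))⁻¹ • (ν.1 ((1⁻¹ : T).1 x)) = ν.1 x
    rw [inv_one]
    change (ν.1 p)⁻¹ • (ν.1 x) = ν.1 x
    rw [ν.2, inv_one, one_smul])
  mul_smul t t' ν := Subtype.ext (by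
    ext x
    have h1 : ∀ y, ((t * t')⁻¹ : T).1 y = (t'⁻¹ : T).1 ((t⁻¹ : T).1 y) := fun y => by
      rw [mul_inv_rev]; rfl
    change (ν.1 (((t * t')⁻¹ : T).1 p))⁻¹ • (ν.1 (((t * t')⁻¹ : T).1 x)) =
      ((ν.1 ((t'⁻¹ : T).1 p))⁻¹ • ν.1 ((t'⁻¹ : T).1 ((t⁻¹ : T).1 p)))⁻¹ •
        ((ν.1 ((t'⁻¹ : T).1 p))⁻¹ • ν.1 ((t'⁻¹ : T).1 ((t⁻¹ : T).1 x)))
    rw [h1, h1]
    have h2 := nu_ne hp hTp (t'⁻¹ : T).2 ν
    simp only [smul_eq_mul, mul_inv, inv_inv]
    field_simp)

include hM hT1 in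
theorem sq_dvd (hp : p ≠ 0) (hTp : ∀ t ∈ T, ∃ c : F, t p = c • p) : Fintype.card F ^ 2 ∣ Nat.card T := by
  classical
  have hfin : Finite (Dual F M) := Module.finite_of_finite F
  have hfinM : Finite M := Module.finite_of_finite F
  have : Finite (M ≃ₗ[F] M) := Finite.of_injective (fun t => (t : M → M)) DFunLike.coe_injective
  have : Finite (Nu F p) := Subtype.finite
  -- the number of functionals
  let ev : Dual F M →ₗ[F] F := Dual.eval F M p
  have hev : ev ≠ 0 := by
    intro h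
    apply hp
    rw [← Module.forall_dual_apply_eq_zero_iff F]
    intro f
    exact congrArg (fun g : Dual F M →ₗ[F] F => g f) h
  have hD : finrank F (LinearMap.ker ev) = 2 := by
    have h1 := Dual.finrank_ker_add_one_of_ne_zero (K := F) (f := ev) hev
    rw [Subspace.dual_finrank_eq] at h1
    omega
  obtain ⟨ν₀, hν₀⟩ : ∃ ν : Dual F M, ν p = 1 := by
    obtain ⟨ν, hν⟩ : ∃ ν : Dual F M, ν p ≠ 0 := by
      by_contra hcon
      push Not at hcon
      exact hev (LinearMap.ext hcon)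
    exact ⟨(ν p)⁻¹ • ν, by rw [LinearMap.smul_apply, smul_eq_mul, inv_mul_cancel₀ hν]⟩
  have hcard : Nat.card (Nu F p) = Fintype.card F ^ 2 := by
    have h1 : Nat.card (LinearMap.ker ev) = Fintype.card F ^ 2 := by
      rw [Module.natCard_eq_pow_finrank (K := F), hD, Nat.card_eq_fintype_card]
    rw [← h1]
    refine Nat.card_congr ⟨fun ν => ⟨ν.1 - ν₀, ?_⟩, fun μ => ⟨μ.1 + ν₀, ?_⟩, ?_, ?_⟩
    · change (ν.1 - ν₀) p = 0
      rw [LinearMap.sub_apply, ν.2, hν₀, sub_self]
    · have h2 : μ.1 p = 0 := μ.2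
      rw [LinearMap.add_apply, h2, hν₀, zero_add]
    · intro ν
      exact Subtype.ext (sub_add_cancel _ _)
    · intro μ
      exact Subtype.ext (add_sub_cancel_right _ _)
  let n₀ : Nu F p := ⟨ν₀, hν₀⟩
  let act : MulAction T (Nu F p) := actNu (T := T) hp hTp
  have htr : MulAction.orbit T n₀ = Set.univ := by
    rw [Set.eq_univ_iff_forall]
    intro ν
    have hne : ∀ ν : Nu F p, ν.1 ≠ 0 := by
      intro ν h
      have := ν.2
      rw [h, LinearMap.zero_apply] at this
      exact zero_ne_one this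
    have h1 : finrank F (LinearMap.ker ν₀) + 1 = finrank F M := Dual.finrank_ker_add_one_of_ne_zero (K := F) (hne n₀)
    have h2 : finrank F (LinearMap.ker ν.1) + 1 = finrank F M := Dual.finrank_ker_add_one_of_ne_zero (K := F) (hne ν)
    have hnot : ∀ ν : Nu F p, p ∉ LinearMap.ker ν.1 := by
      intro ν h
      rw [LinearMap.mem_ker, ν.2] at h
      exact one_ne_zero h
    obtain ⟨t, ht, hL⟩ := hT1 (LinearMap.ker ν₀) (LinearMap.ker ν.1) (by omega) (by omega) (hnot ⟨ν₀, hν₀⟩) (hnot ν)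
    refine ⟨⟨t, ht⟩, Subtype.ext ?_⟩
    obtain ⟨d, hd⟩ := exists_smul_of_ker_le (ν := ν₀ ∘ₗ (t⁻¹ : M ≃ₗ[F] M).toLinearMap) (hne ν) (by
      intro x hx
      rw [← hL] at hx
      obtain ⟨y, hy, rfl⟩ := hx
      rw [LinearMap.mem_ker, LinearMap.comp_apply]
      have : (t⁻¹ : M ≃ₗ[F] M).toLinearMap ((t : M →ₗ[F] M) y) = y := by
        change t⁻¹ (t y) = y
        rw [← LinearEquiv.mul_apply, inv_mul_cancel]; rfl
      rw [this]
      exact hy)
    change (ν₀ (t⁻¹ p))⁻¹ • (ν₀ ∘ₗ (t⁻¹ : M ≃ₗ[F] M).toLinearMap) = ν.1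
    have h3 : ν₀ (t⁻¹ p) = d := by
      have h4 := congrArg (fun g : Dual F M => g p) hd
      simp only [LinearMap.comp_apply, LinearMap.smul_apply, ν.2, smul_eq_mul, mul_one] at h4
      exact h4
    have h5 := nu_ne hp hTp (inv_mem ht) ⟨ν₀, hν₀⟩
    have h6 : ν₀ (t⁻¹ p) ≠ 0 := h5
    rw [h3] at h6 ⊢
    rw [hd, smul_smul, inv_mul_cancel₀ h6, one_smul]
  have : Fintype T := Fintype.ofFinite _
  have : Fintype (MulAction.orbit T n₀) := Fintype.ofFinite _
  have : Fintype (MulAction.stabilizer T n₀) := Fintype.ofFinite _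
  have h1 := MulAction.card_orbit_mul_card_stabilizer_eq_card_group T n₀
  rw [Nat.card_eq_fintype_card (α := T), ← h1]
  refine Dvd.intro _ (congrArg (· * _) ?_)
  rw [← hcard, ← Nat.card_eq_fintype_card, Nat.card_congr (Equiv.setCongr htr)]
  exact (Nat.card_congr (Equiv.Set.univ _)).symm

include hTp in
theorem le_comap {t : M ≃ₗ[F] M} (ht : t ∈ T) :
    Submodule.span F {p} ≤ (Submodule.span F {p}).comap (t : M →ₗ[F] M) := by
  rw [Submodule.span_singleton_le_iff_mem, Submodule.mem_comap]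
  obtain ⟨c, hc⟩ := hTp t ht
  exact Submodule.mem_span_singleton.2 ⟨c, hc.symm⟩

/-- the action on the quotient -/
def homQ (hTp : ∀ t ∈ T, ∃ c : F, t p = c • p) : T →* Module.End F (M ⧸ Submodule.span F {p}) where
  toFun t := (Submodule.span F {p}).mapQ (Submodule.span F {p}) (t.1 : M →ₗ[F] M) (le_comap hTp t.2)
  map_one' := by
    ext x
    rfl
  map_mul' t t' := by
    ext x
    rfl

/-- the action on `p` -/
def homP (ν : Nu F p) (hTp : ∀ t ∈ T, ∃ c : F, t p = c • p) : T →* F where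
  toFun t := ν.1 (t.1 p)
  map_one' := ν.2
  map_mul' t t' := by
    obtain ⟨c, hc⟩ := hTp t'.1 t'.2
    change ν.1 (t.1 (t'.1 p)) = ν.1 (t.1 p) * ν.1 (t'.1 p)
    rw [hc, map_smul, map_smul, map_smul, ν.2, smul_eq_mul, smul_eq_mul, mul_one, mul_comm]

theorem card_units_end {W : Type*} [AddCommGroup W] [Module F W] [FiniteDimensional F W] (hW : finrank F W = 2) :
    Nat.card (Module.End F W)ˣ = (Fintype.card F ^ 2 - 1) * (Fintype.card F ^ 2 - Fintype.card F) := by
  classical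
  let b := Module.finBasisOfFinrankEq F W hW
  rw [Nat.card_congr (Units.mapEquiv (LinearMap.toMatrixAlgEquiv b).toMulEquiv).toEquiv]
  have h1 := Matrix.card_GL_field (𝔽 := F) 2
  rw [Fin.prod_univ_two] at h1
  rw [show Nat.card (Matrix (Fin 2) (Fin 2) F)ˣ = Nat.card (GL (Fin 2) F) from rfl, h1]
  simp

include hM in
theorem card_dvd (hp : p ≠ 0) (hTp : ∀ t ∈ T, ∃ c : F, t p = c • p) (ν : Nu F p) :
    Nat.card T ∣ Nat.card (tvL p T) *
      ((Fintype.card F ^ 2 - 1) * (Fintype.card F ^ 2 - Fintype.card F) * (Fintype.card F - 1)) := by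
  classical
  have hfinM : Finite M := Module.finite_of_finite F
  have : Finite (M ≃ₗ[F] M) := Finite.of_injective (fun t => (t : M → M)) DFunLike.coe_injective
  let Φ : T →* (Module.End F (M ⧸ Submodule.span F {p}))ˣ × Fˣ :=
    (homQ hTp).toHomUnits.prod (homP ν hTp).toHomUnits
  have h1 : Nat.card Φ.ker * Nat.card Φ.range = Nat.card T := by
    rw [← Subgroup.index_ker, Subgroup.card_mul_index]
  have h2 : Nat.card Φ.range ∣
      ((Fintype.card F ^ 2 - 1) * (Fintype.card F ^ 2 - Fintype.card F) * (Fintype.card F - 1)) := by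
    have h3 := Subgroup.card_subgroup_dvd_card Φ.range
    have hq := Submodule.finrank_quotient_add_finrank (Submodule.span F {p})
    rw [finrank_span_singleton hp, hM] at hq
    rwa [Nat.card_prod, card_units_end (by omega), Nat.card_eq_fintype_card (α := Fˣ), Fintype.card_units] at h3
  have hker : ∀ t : Φ.ker, ∀ x, t.1.1 x = x + ν.1 (t.1.1 x - x) • p := by
    intro t x
    have h3 : Φ t.1 = 1 := t.2
    have h4 : (homQ hTp).toHomUnits t.1 = 1 := congrArg Prod.fst h3
    have h5 : homQ hTp t.1 = 1 := congrArg Units.val h4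
    have h6 : (Submodule.Quotient.mk (t.1.1 x) : M ⧸ Submodule.span F {p}) = Submodule.Quotient.mk x :=
      congrArg (fun f : Module.End F (M ⧸ Submodule.span F {p}) => f (Submodule.Quotient.mk x)) h5
    rw [Submodule.Quotient.eq] at h6
    obtain ⟨c, hc⟩ := Submodule.mem_span_singleton.1 h6
    rw [← hc, map_smul, ν.2, smul_eq_mul, mul_one, hc]
    abel
  have hkerp : ∀ t : Φ.ker, t.1.1 p = p := by
    intro t
    have h3 : Φ t.1 = 1 := t.2
    have h4 : (homP ν hTp).toHomUnits t.1 = 1 := congrArg Prod.snd h3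
    have h5 : ν.1 (t.1.1 p) = 1 := congrArg Units.val h4
    have h6 := hker t p
    rw [map_sub, h5, ν.2, sub_self, zero_smul, add_zero] at h6
    exact h6
  have h3 : Nat.card Φ.ker = Nat.card (tvL p T) := by
    refine Nat.card_congr (Equiv.ofBijective (fun t => ⟨ν.1 ∘ₗ ((t.1.1 : M →ₗ[F] M) - LinearMap.id), ?_, t.1.1, t.1.2,
      hker t⟩) ⟨?_, ?_⟩)
    · change ν.1 (t.1.1 p - p) = 0
      rw [hkerp, sub_self, map_zero]
    · intro t t' h
      apply Subtype.ext
      apply Subtype.ext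
      ext x
      have h4 := congrArg (fun f : tvL p T => f.1 x) h
      change ν.1 (t.1.1 x - x) = ν.1 (t'.1.1 x - x) at h4
      rw [hker t x, hker t' x, h4]
    · rintro ⟨μ, h0, t, ht, h4⟩
      have h5 : Φ ⟨t, ht⟩ = 1 := by
        refine Prod.ext (Units.ext ?_) (Units.ext ?_)
        · change homQ hTp ⟨t, ht⟩ = 1
          ext x
          change (Submodule.Quotient.mk (t x) : M ⧸ Submodule.span F {p}) = Submodule.Quotient.mk x
          rw [Submodule.Quotient.eq, h4, add_sub_cancel_left]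
          exact Submodule.smul_mem _ _ (Submodule.mem_span_singleton_self p)
        · change ν.1 (t p) = 1
          rw [h4, h0, zero_smul, add_zero, ν.2]
      refine ⟨⟨⟨t, ht⟩, h5⟩, Subtype.ext ?_⟩
      ext x
      change ν.1 (t x - x) = μ x
      rw [h4, add_sub_cancel_left, map_smul, ν.2, smul_eq_mul, mul_one]
  rw [← h1, h3]
  exact Nat.mul_dvd_mul_left _ h2

include hM hp hTp hT1 hT2 in
/-- **`T` contains all the transvections with centre `p`.** -/
theorem all_tv (μ : Dual F M) (hμ : μ p = 0) : ∃ t ∈ T, ∀ x, t x = x + μ x • p := by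
  classical
  have hfin : Finite (Dual F M) := Module.finite_of_finite F
  have : Fintype (Dual F M) := Fintype.ofFinite _
  obtain ⟨s, hs1, hsQ, hs⟩ := key hM hp hTp hT2 (Λ := tvL p T) (fun μ hμ => hμ.1) inv_tvL
  let ev : Dual F M →ₗ[F] F := Dual.eval F M p
  have hev : ev ≠ 0 := by
    intro h
    apply hp
    rw [← Module.forall_dual_apply_eq_zero_iff F]
    intro f
    exact congrArg (fun g : Dual F M →ₗ[F] F => g f) h
  have hD : finrank F (LinearMap.ker ev) = 2 := by
    have h1 := Dual.finrank_ker_add_one_of_ne_zero (K := F) (f := ev) hev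
    rw [Subspace.dual_finrank_eq] at h1
    omega
  obtain ⟨ν₀, hν₀⟩ : ∃ ν : Dual F M, ν p = 1 := by
    obtain ⟨ν, hν⟩ : ∃ ν : Dual F M, ν p ≠ 0 := by
      by_contra hcon
      push Not at hcon
      exact hev (LinearMap.ext hcon)
    exact ⟨(ν p)⁻¹ • ν, by rw [LinearMap.smul_apply, smul_eq_mul, inv_mul_cancel₀ hν]⟩
  have h1 := (sq_dvd hM hT1 hp hTp).trans (card_dvd hM hp hTp ⟨ν₀, hν₀⟩)
  set Q := Fintype.card F with hQ
  have hQ1 : 1 < Q := Fintype.one_lt_card
  obtain ⟨r, hr⟩ : ∃ r, Q = r + 1 := ⟨Q - 1, by omega⟩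
  have h2 : Q ∣ Nat.card (tvL p T) := by
    have h3 : Q ^ 2 - 1 = (Q + 1) * (Q - 1) := by
      rw [hr, Nat.add_sub_cancel]
      have : (r + 1) ^ 2 = (r + 1 + 1) * r + 1 := by ring
      omega
    have h4 : Q ^ 2 - Q = Q * (Q - 1) := by
      rw [hr, Nat.add_sub_cancel]
      have : (r + 1) ^ 2 = (r + 1) * r + (r + 1) := by ring
      omega
    rw [h3, h4] at h1
    have h5 : Nat.card (tvL p T) * ((Q + 1) * (Q - 1) * (Q * (Q - 1)) * (Q - 1)) =
        Q * (Nat.card (tvL p T) * ((Q + 1) * (Q - 1) * (Q - 1) * (Q - 1))) := by ring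
    rw [h5, pow_two] at h1
    have h6 := Nat.dvd_of_mul_dvd_mul_left (by omega) h1
    have hc1 : Nat.Coprime Q (Q + 1) := by rw [Nat.coprime_self_add_right]; exact Nat.coprime_one_right _
    have hc2 : Nat.Coprime Q (Q - 1) := by
      rw [hr, Nat.add_sub_cancel]
      exact (Nat.coprime_self_add_left (m := r) (n := 1)).2 (Nat.coprime_one_left _)
    exact (((hc1.mul_right hc2).mul_right hc2).mul_right hc2).dvd_of_dvd_mul_right h6
  have h3 : Q ∣ s := by
    have h4 : Q ∣ (Q + 1) * s := by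
      rw [← hs]
      exact dvd_add h2 dvd_rfl
    have hc1 : Nat.Coprime Q (Q + 1) := by rw [Nat.coprime_self_add_right]; exact Nat.coprime_one_right _
    exact hc1.dvd_of_dvd_mul_left h4
  have h4 : s = Q := le_antisymm hsQ (Nat.le_of_dvd (by omega) h3)
  have h5 : Nat.card (tvL p T) = Q ^ 2 := by
    rw [h4] at hs
    have : (Q + 1) * Q = Q ^ 2 + Q := by ring
    omega
  -- comparison with all functionals
  have h6 : ∀ μ ∈ tvL p T, μ ∈ (LinearMap.ker ev).toAddSubgroup := fun μ hμ => hμ.1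
  have h7 : tvL p T = (LinearMap.ker ev).toAddSubgroup := by
    refine AddSubgroup.eq_of_le_of_card_ge h6 ?_
    rw [h5]
    have h8 : Nat.card (LinearMap.ker ev).toAddSubgroup = Nat.card (LinearMap.ker ev) := rfl
    rw [h8, Module.natCard_eq_pow_finrank (K := F), hD, Nat.card_eq_fintype_card]
  have h8 : μ ∈ tvL p T := by
    rw [h7]
    exact hμ
  exact h8.2

end

end Cfsg.Agent.H449.U.Planar
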