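import Cfsg.Agent.H449.U.Cone
import Cfsg.Agent.H449.U.Planar

/-!
# The planar lemma in characteristic two (helper449, for S2196)

`S` is a set of points of a projective plane over `F`, `|F| = Q = 2^a > 4`; every line meets `S` in `0` or `b` points,
`1 < b < Q`. A group `T` of automorphisms of the plane preserving `S` cannot be transitive on the points of `S` and on
the flags `(w, L)`, `w ∉ S`, with given type of `L` (meets `S` or does not). The proof counts the transvections of `T`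
with given centre or given axis.
-/

set_option autoImplicit false
set_option linter.unusedSectionVars false

namespace Cfsg.Agent.H449.U.ME

open Module

/-! ### numbers -/

theorem pow_two_odd {n m Z : ℕ} (h : 2 ^ n = 2 * m * Z + 1) (h1 : 0 < m * Z) : False := by
  rcases Nat.eq_zero_or_pos n with rfl | hn
  · rw [pow_zero] at h
    have : 2 * m * Z = 2 * (m * Z) := by ring
    omega
  · have h2 : 2 ^ n = 2 * 2 ^ (n - 1) := by
      conv_lhs => rw [show n = (n - 1) + 1 by omega]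
      rw [pow_succ]; ring
    have : 2 * m * Z = 2 * (m * Z) := by ring
    omega

theorem num_key {m ε β Y : ℕ} (hε : 1 ≤ ε) (hY : Odd Y)
    (h : 2 ^ m = 1 + (1 + 2 ^ β * Y) * (2 ^ ε - 1)) : ε = β := by
  obtain ⟨u, hu⟩ : ∃ u, 2 ^ ε = u + 1 := ⟨2 ^ ε - 1, by have := Nat.one_le_two_pow (n := ε); omega⟩
  have hu1 : Odd u := by
    have h2 : 2 ^ ε = 2 * 2 ^ (ε - 1) := by
      conv_lhs => rw [show ε = (ε - 1) + 1 by omega]
      rw [pow_succ]; ring
    have := Nat.one_le_two_pow (n := ε - 1)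
    exact ⟨2 ^ (ε - 1) - 1, by omega⟩
  obtain ⟨z, hz⟩ := hY.mul hu1
  have h0 : 2 ^ m = 2 ^ ε + 2 ^ β * (2 * z + 1) := by
    rw [h, hu, Nat.add_sub_cancel, ← hz]; ring
  rcases lt_trichotomy ε β with h1 | h1 | h1
  · exfalso
    have h2 : 2 ^ β = 2 ^ ε * (2 * 2 ^ (β - ε - 1)) := by
      rw [← pow_succ', ← pow_add]; congr 1; omega
    have h3 : 2 ^ m = 2 ^ ε * (2 * 2 ^ (β - ε - 1) * (2 * z + 1) + 1) := by rw [h0, h2]; ring
    have h4 : ε ≤ m := by
      have : 2 ^ ε ∣ 2 ^ m := Dvd.intro _ h3.symm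
      exact (Nat.pow_dvd_pow_iff_le_right (by omega)).1 this
    have h5 : 2 ^ m = 2 ^ ε * 2 ^ (m - ε) := by rw [← pow_add]; congr 1; omega
    rw [h5] at h3
    have h6 := Nat.eq_of_mul_eq_mul_left (by positivity) h3
    exact pow_two_odd h6 (by positivity)
  · exact h1
  · exfalso
    have h2 : 2 ^ ε = 2 ^ β * (2 * 2 ^ (ε - β - 1)) := by
      rw [← pow_succ', ← pow_add]; congr 1; omega
    have h3 : 2 ^ m = 2 ^ β * (2 * (2 ^ (ε - β - 1) + z) * 1 + 1) := by rw [h0, h2]; ring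
    have h4 : β ≤ m := by
      have : 2 ^ β ∣ 2 ^ m := Dvd.intro _ h3.symm
      exact (Nat.pow_dvd_pow_iff_le_right (by omega)).1 this
    have h5 : 2 ^ m = 2 ^ β * 2 ^ (m - β) := by rw [← pow_add]; congr 1; omega
    rw [h5] at h3
    have h6 := Nat.eq_of_mul_eq_mul_left (by positivity) h3
    exact pow_two_odd h6 (by positivity)

theorem num_final {m β : ℕ} (hβ : 1 ≤ β) (h : 2 ^ m = 1 + (1 + 2 ^ β * (2 ^ β - 1)) * (2 ^ β - 1)) : β = 1 := by
  by_contra hcon
  obtain ⟨c, hc⟩ : ∃ c, β = c + 2 := ⟨β - 2, by omega⟩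
  set d := 2 ^ c with hd
  have hd1 : 1 ≤ d := Nat.one_le_two_pow
  have hb : 2 ^ β = 4 * d := by rw [hc, pow_add]; ring
  obtain ⟨k, hk⟩ : ∃ k, d = k + 1 := ⟨d - 1, by omega⟩
  have h1 : 2 ^ m = 2 ^ β * (2 * (2 * (4 * k ^ 2 + 6 * k + 2) * 1 + 1)) := by
    rw [h, hb, hk]
    have : 4 * (k + 1) - 1 = 4 * k + 3 := by omega
    rw [this]
    ring
  have h2 : β + 1 ≤ m := by
    have : 2 ^ (β + 1) ∣ 2 ^ m := Dvd.intro (2 * (4 * k ^ 2 + 6 * k + 2) * 1 + 1) (by rw [h1, pow_succ]; ring)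
    exact (Nat.pow_dvd_pow_iff_le_right (by omega)).1 this
  have h3 : 2 ^ m = 2 ^ β * (2 * 2 ^ (m - β - 1)) := by rw [← pow_succ', ← pow_add]; congr 1; omega
  rw [h3] at h1
  have h4 := Nat.eq_of_mul_eq_mul_left (by positivity) h1
  exact pow_two_odd (Nat.eq_of_mul_eq_mul_left (by omega) h4) (by positivity)

/-! ### counting -/

section

variable {F : Type*} [Field F] [Fintype F]

/-- counting vectors by their lines -/
theorem count_cone {U : Type*} [AddCommGroup U] [Module F U] [Finite U] (E D : Set U) (k : ℕ) (h0 : (0 : U) ∉ D)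
    (h1 : ∀ v ∈ D, {a : F | a ≠ 0 ∧ a • v ∈ E}.ncard = k) (h2 : ∀ u ∈ E, u ≠ 0 → ∀ c : F, c ≠ 0 → c • u ∈ D) :
    D.ncard * k = (Fintype.card F - 1) * (E \ {0}).ncard := by
  classical
  have : Fintype U := Fintype.ofFinite U
  let r : U → U → Prop := fun v u => ∃ a : F, a ≠ 0 ∧ u = a • v
  have h3 : ∀ v ∈ D.toFinset, ((E \ {0}).toFinset.bipartiteAbove r v).card = k := by
    intro v hv
    rw [Set.mem_toFinset] at hv
    have hv0 : v ≠ 0 := fun e => h0 (e ▸ hv)
    rw [← h1 v hv, Set.ncard_eq_toFinset_card' ]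
    symm
    refine Finset.card_bij (fun a _ => a • v) ?_ ?_ ?_
    · intro a ha
      rw [Set.mem_toFinset] at ha
      rw [Finset.mem_bipartiteAbove, Set.mem_toFinset]
      exact ⟨⟨ha.2, smul_ne_zero ha.1 hv0⟩, a, ha.1, rfl⟩
    · intro a _ a' _ e
      exact smul_left_injective F hv0 e
    · intro u hu
      rw [Finset.mem_bipartiteAbove, Set.mem_toFinset] at hu
      obtain ⟨⟨hu1, -⟩, a, ha, rfl⟩ := hu
      exact ⟨a, by rw [Set.mem_toFinset]; exact ⟨ha, hu1⟩, rfl⟩
  have h4 : ∀ u ∈ (E \ {0}).toFinset, (D.toFinset.bipartiteBelow r u).card = Fintype.card F - 1 := by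
    intro u hu
    rw [Set.mem_toFinset] at hu
    have hu0 : u ≠ 0 := hu.2
    rw [← Fintype.card_units, ← Finset.card_univ]
    symm
    refine Finset.card_bij (fun a _ => (a : F) • u) ?_ ?_ ?_
    · intro a _
      rw [Finset.mem_bipartiteBelow, Set.mem_toFinset]
      refine ⟨h2 u hu.1 hu0 _ a.ne_zero, (a : F)⁻¹, inv_ne_zero a.ne_zero, ?_⟩
      rw [smul_smul, inv_mul_cancel₀ a.ne_zero, one_smul]
    · intro a _ a' _ e
      exact Units.ext (smul_left_injective F hu0 e)
    · intro v hv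
      rw [Finset.mem_bipartiteBelow, Set.mem_toFinset] at hv
      obtain ⟨hv1, a, ha, rfl⟩ := hv
      refine ⟨(Units.mk0 a ha)⁻¹, Finset.mem_univ _, ?_⟩
      rw [Units.val_inv_eq_inv_val, Units.val_mk0, smul_smul, inv_mul_cancel₀ ha, one_smul]
  have h5 := Finset.card_mul_eq_card_mul r h3 h4
  rw [Set.ncard_eq_toFinset_card', Set.ncard_eq_toFinset_card', h5, mul_comm]

/-- orders of subgroups of elementary abelian groups -/
theorem card_two {A : Type*} [AddGroup A] [Finite A] {n : ℕ} (hA : Nat.card A = 2 ^ n) (E : AddSubgroup A) :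
    ∃ m, m ≤ n ∧ Nat.card E = 2 ^ m := by
  have h := E.card_addSubgroup_dvd_card
  rw [hA] at h
  exact (Nat.dvd_prime_pow Nat.prime_two).1 h

variable {M : Type*} [AddCommGroup M] [Module F M] [FiniteDimensional F M] {T : Subgroup (M ≃ₗ[F] M)}

/-- the transvections of `T` -/
def TV (T : Subgroup (M ≃ₗ[F] M)) (f : Dual F M) (w : M) : Prop := f w = 0 ∧ ∃ t ∈ T, ∀ v, t v = v + f v • w

theorem TV.add_right {f : Dual F M} {w w' : M} (h : TV T f w) (h' : TV T f w') : TV T f (w + w') := by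
  obtain ⟨h0, t, ht, h1⟩ := h
  obtain ⟨h0', t', ht', h1'⟩ := h'
  refine ⟨by rw [map_add, h0, h0', add_zero], t * t', mul_mem ht ht', fun v => ?_⟩
  rw [LinearEquiv.mul_apply, h1', h1, map_add, map_smul, h0', smul_zero, add_zero, smul_add]
  abel

theorem TV.add_left {f f' : Dual F M} {w : M} (h : TV T f w) (h' : TV T f' w) : TV T (f + f') w := by
  obtain ⟨h0, t, ht, h1⟩ := h
  obtain ⟨h0', t', ht', h1'⟩ := h'
  refine ⟨by rw [LinearMap.add_apply, h0, h0', add_zero], t * t', mul_mem ht ht', fun v => ?_⟩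
  rw [LinearEquiv.mul_apply, h1', h1, map_add, map_smul, h0, smul_zero, add_zero, LinearMap.add_apply, add_smul]
  abel

theorem TV.zero_right (f : Dual F M) : TV T f 0 :=
  ⟨map_zero f, 1, one_mem T, fun v => by rw [smul_zero, add_zero]; rfl⟩

theorem TV.zero_left (w : M) : TV T (0 : Dual F M) w :=
  ⟨LinearMap.zero_apply w, 1, one_mem T, fun v => by rw [LinearMap.zero_apply, zero_smul, add_zero]; rfl⟩

theorem inv_apply {t : M ≃ₗ[F] M} {x y : M} (h : t x = y) : t⁻¹ y = x := by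
  rw [← h, ← LinearEquiv.mul_apply, inv_mul_cancel]; rfl

theorem TV.neg_right {f : Dual F M} {w : M} (h : TV T f w) : TV T f (-w) := by
  obtain ⟨h0, t, ht, h1⟩ := h
  refine ⟨by rw [map_neg, h0, neg_zero], t⁻¹, inv_mem ht, fun v => inv_apply ?_⟩
  rw [h1, map_add, map_smul, map_neg, h0, neg_zero, smul_zero, add_zero, smul_neg]
  abel

theorem TV.neg_left {f : Dual F M} {w : M} (h : TV T f w) : TV T (-f) w := by
  obtain ⟨h0, t, ht, h1⟩ := h
  refine ⟨by rw [LinearMap.neg_apply, h0, neg_zero], t⁻¹, inv_mem ht, fun v => inv_apply ?_⟩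
  rw [h1, map_add, map_smul, h0, smul_zero, add_zero, LinearMap.neg_apply, neg_smul]
  abel

theorem TV.smul_iff {f : Dual F M} {w : M} {c : F} : TV T (c • f) w ↔ TV T f (c • w) := by
  unfold TV
  rw [map_smul, LinearMap.smul_apply]
  refine and_congr_right fun _ => exists_congr fun t => and_congr_right fun _ => forall_congr' fun v => ?_
  rw [LinearMap.smul_apply, smul_smul, smul_eq_mul, mul_comm]

/-- translations with given axis -/
def EM (T : Subgroup (M ≃ₗ[F] M)) (f : Dual F M) : AddSubgroup M where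
  carrier := {u | TV T f u}
  zero_mem' := TV.zero_right f
  add_mem' h h' := h.add_right h'
  neg_mem' h := h.neg_right

/-- translations with given centre -/
def ED (T : Subgroup (M ≃ₗ[F] M)) (w : M) : AddSubgroup (Dual F M) where
  carrier := {f | TV T f w}
  zero_mem' := TV.zero_left w
  add_mem' h h' := h.add_left h'
  neg_mem' h := h.neg_left

/-- translations with given centre and axis -/
def EA (T : Subgroup (M ≃ₗ[F] M)) (f : Dual F M) (w : M) : AddSubgroup F where
  carrier := {a | TV T f (a • w)}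
  zero_mem' := by
    change TV T f ((0 : F) • w)
    rw [zero_smul]; exact TV.zero_right f
  add_mem' := by
    intro a a' h h'
    change TV T f ((a + a') • w)
    rw [add_smul]; exact TV.add_right h h'
  neg_mem' := by
    intro a h
    change TV T f ((-a) • w)
    rw [neg_smul]; exact TV.neg_right h

theorem mem_EA {f : Dual F M} {w : M} {a : F} : a ∈ EA T f w ↔ TV T f (a • w) := Iff.rfl

theorem ea_le {t : M ≃ₗ[F] M} (ht : t ∈ T) {f f' : Dual F M} {w w' : M} {c : F} (hc : c ≠ 0) (hf : f ≠ 0) (hf' : f' ≠ 0)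
    (hw : t w = c • w') (hk : ∀ v, f v = 0 → f' (t v) = 0) (hw' : f' w' = 0) :
    Nat.card (EA T f w) ≤ Nat.card (EA T f' w') := by
  obtain ⟨d, hd⟩ := Planar.exists_smul_of_ker_le (ν := f' ∘ₗ (t : M →ₗ[F] M)) (ν' := f) hf hk
  have hd0 : d ≠ 0 := by
    rintro rfl
    apply hf'
    ext v
    have h1 := LinearMap.congr_fun hd (t⁻¹ v)
    rw [zero_smul, LinearMap.zero_apply, LinearMap.comp_apply] at h1
    have h2 : t (t⁻¹ v) = v := by rw [← LinearEquiv.mul_apply, mul_inv_cancel]; rfl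
    rw [LinearMap.zero_apply, ← h2]
    exact h1
  have hd' : ∀ v, f' (t v) = d * f v := fun v => LinearMap.congr_fun hd v
  let φ : EA T f w → EA T f' w' := fun a => ⟨a.1 * c / d, by
    obtain ⟨-, g, hg, h1⟩ := a.2
    refine ⟨by rw [map_smul, hw', smul_zero], t * g * t⁻¹, mul_mem (mul_mem ht hg) (inv_mem ht), fun v => ?_⟩
    have h2 : t (t⁻¹ v) = v := by rw [← LinearEquiv.mul_apply, mul_inv_cancel]; rfl
    have h3 : f' v = d * f (t⁻¹ v) := by rw [← hd', h2]
    rw [LinearEquiv.mul_apply, LinearEquiv.mul_apply, h1, map_add, map_smul, map_smul, h2, hw, smul_smul, smul_smul,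
      smul_smul, h3]
    congr 2
    field_simp⟩
  have hφ : Function.Injective φ := by
    intro a a' e
    have h1 : a.1 * c / d = a'.1 * c / d := congrArg Subtype.val e
    have h2 := mul_right_cancel₀ hc ((div_left_inj' hd0).1 h1)
    exact Subtype.ext h2
  exact Nat.card_le_card_of_injective φ hφ

theorem ncard_EA {f : Dual F M} {w : M} : {a : F | a ≠ 0 ∧ TV T f (a • w)}.ncard = Nat.card (EA T f w) - 1 := by
  have h1 : {a : F | a ≠ 0 ∧ TV T f (a • w)} = (EA T f w : Set F) \ {0} := by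
    ext a
    exact ⟨fun h => ⟨h.2, h.1⟩, fun h => ⟨h.2, h.1⟩⟩
  rw [h1, Set.ncard_sdiff_singleton_of_mem (show (0 : F) ∈ (EA T f w : Set F) from zero_mem _)]
  rfl

/-! ### the plane -/

/-- the hypotheses -/
structure Pl (T : Subgroup (M ≃ₗ[F] M)) (S : Set M) (b : ℕ) : Prop where
  hM : finrank F M = 3
  cone : Cone F S
  ne : S.Nonempty
  b1 : 1 < b
  bQ : b < Fintype.card F
  zl : ZL F S b
  inv : ∀ t ∈ T, ∀ v, t v ∈ S ↔ v ∈ S
  ts : ∀ s ∈ S, ∀ s' ∈ S, ∃ t ∈ T, ∃ c : F, t s = c • s'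
  tw : ∀ w w' : M, w ≠ 0 → w' ≠ 0 → w ∉ S → w' ∉ S → ∀ f f' : Dual F M, f ≠ 0 → f' ≠ 0 → f w = 0 → f' w' = 0 →
    ((∃ s ∈ S, f s = 0) ↔ ∃ s ∈ S, f' s = 0) → ∃ t ∈ T, (∃ c : F, t w = c • w') ∧ ∀ v, f v = 0 → f' (t v) = 0

variable {S : Set M} {b : ℕ}

theorem Pl.ea_eq (P : Pl T S b) {w w' : M} (hw : w ≠ 0) (hw' : w' ≠ 0) (hwS : w ∉ S) (hwS' : w' ∉ S) {f f' : Dual F M}
    (hf : f ≠ 0) (hf' : f' ≠ 0) (h : f w = 0) (h' : f' w' = 0) (he : (∃ s ∈ S, f s = 0) ↔ ∃ s ∈ S, f' s = 0) :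
    Nat.card (EA T f w) = Nat.card (EA T f' w') := by
  have key : ∀ {w w' : M} (hw : w ≠ 0) (hw' : w' ≠ 0) (hwS : w ∉ S) (hwS' : w' ∉ S) {f f' : Dual F M}
      (hf : f ≠ 0) (hf' : f' ≠ 0) (h : f w = 0) (h' : f' w' = 0) (he : (∃ s ∈ S, f s = 0) ↔ ∃ s ∈ S, f' s = 0),
      Nat.card (EA T f w) ≤ Nat.card (EA T f' w') := by
    intro w w' hw hw' hwS hwS' f f' hf hf' h h' he
    obtain ⟨t, ht, ⟨c, hc⟩, hk⟩ := P.tw w w' hw hw' hwS hwS' f f' hf hf' h h' he
    have hc0 : c ≠ 0 := by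
      rintro rfl
      rw [zero_smul] at hc
      exact hw ((LinearEquiv.map_eq_zero_iff t).1 hc)
    exact ea_le ht hc0 hf hf' hc hk h'
  exact le_antisymm (key hw hw' hwS hwS' hf hf' h h' he) (key hw' hw hwS' hwS hf' hf h' h he.symm)

theorem Pl.fin (_ : Pl T S b) : Finite M := Module.finite_of_finite F

theorem Pl.card_S (P : Pl T S b) : S.ncard = (Fintype.card F - 1) + (Fintype.card F ^ 2 - 1) * (b - 1) := by
  have := P.fin
  have h := count P.cone P.zl P.ne
  rw [P.hM] at h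
  exact h

/-- the functionals vanishing at `w` whose kernel meets `S` -/
def DW (S : Set M) (w : M) : Set (Dual F M) := {g | g ≠ 0 ∧ g w = 0 ∧ ∃ s ∈ S, g s = 0}

theorem finrank_ker {g : Dual F M} (hM : finrank F M = 3) (hg : g ≠ 0) : finrank F (LinearMap.ker g) = 2 := by
  have h1 := Dual.finrank_ker_add_one_of_ne_zero (K := F) hg
  omega

theorem Pl.card_ker (P : Pl T S b) {g : Dual F M} (hg : g ≠ 0) (h : ∃ s ∈ S, g s = 0) :
    ((LinearMap.ker g : Set M) ∩ S).ncard = b * (Fintype.card F - 1) := by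
  have := P.fin
  rcases P.zl _ (finrank_ker P.hM hg) with h1 | h1
  · exfalso
    rw [Set.ncard_eq_zero (Set.toFinite _)] at h1
    obtain ⟨s, hs, hgs⟩ := h
    have : s ∈ ((LinearMap.ker g : Set M) ∩ S) := ⟨hgs, hs⟩
    rw [h1] at this
    exact this
  · exact h1

theorem card_two_funct (hM : finrank F M = 3) {w s : M} (hw : w ≠ 0) (hs : ∀ c : F, c • w ≠ s) :
    {g : Dual F M | g ≠ 0 ∧ g w = 0 ∧ g s = 0}.ncard = Fintype.card F - 1 := by
  have : Finite (Dual F M) := Module.finite_of_finite F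
  have hfM : Finite M := Module.finite_of_finite F
  have hli : LinearIndependent F ![w, s] := (LinearIndependent.pair_iff' hw).2 hs
  have h1 : finrank F (Submodule.span F {w, s}) = 2 := by
    have h1 := finrank_span_eq_card hli
    rwa [Fintype.card_fin, Matrix.range_cons, Matrix.range_cons, Matrix.range_empty, Set.union_empty,
      Set.singleton_union] at h1
  have h2 := Subspace.finrank_add_finrank_dualAnnihilator_eq (Submodule.span F {w, s})
  rw [h1, hM] at h2
  have h3 : finrank F (Submodule.span F {w, s}).dualAnnihilator = 1 := by omega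
  have h4 : {g : Dual F M | g ≠ 0 ∧ g w = 0 ∧ g s = 0} = ((Submodule.span F {w, s}).dualAnnihilator : Set (Dual F M)) \ {0} := by
    ext g
    constructor
    · rintro ⟨h5, h6, h7⟩
      refine ⟨?_, h5⟩
      rw [SetLike.mem_coe, Submodule.mem_dualAnnihilator]
      intro v hv
      obtain ⟨a, c, rfl⟩ := Submodule.mem_span_pair.1 hv
      rw [map_add, map_smul, map_smul, h6, h7, smul_zero, smul_zero, add_zero]
    · rintro ⟨h5, h6⟩
      rw [SetLike.mem_coe, Submodule.mem_dualAnnihilator] at h5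
      exact ⟨h6, h5 _ (Submodule.subset_span (Or.inl rfl)), h5 _ (Submodule.subset_span (Or.inr rfl))⟩
  rw [h4, Set.ncard_sdiff_singleton_of_mem (zero_mem _), card_submodule, h3, pow_one]

theorem Pl.card_DW (P : Pl T S b) {w : M} (hw : w ≠ 0) (hwS : w ∉ S) : (DW (F := F) S w).ncard * b = S.ncard := by
  classical
  have := P.fin
  have hfD : Finite (Dual F M) := Module.finite_of_finite F
  have : Fintype (Dual F M) := Fintype.ofFinite _
  have : Fintype M := Fintype.ofFinite _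
  have hQ := q_pos (F := F)
  let r : Dual F M → M → Prop := fun g s => g s = 0
  have h1 : ∀ g ∈ (DW (F := F) S w).toFinset, (S.toFinset.bipartiteAbove r g).card = b * (Fintype.card F - 1) := by
    intro g hg
    rw [Set.mem_toFinset] at hg
    rw [← P.card_ker hg.1 hg.2.2, Set.ncard_eq_toFinset_card']
    congr 1
    ext s
    rw [Finset.mem_bipartiteAbove, Set.mem_toFinset, Set.mem_toFinset]
    exact ⟨fun h => ⟨h.2, h.1⟩, fun h => ⟨h.2, h.1⟩⟩
  have h2 : ∀ s ∈ S.toFinset, ((DW (F := F) S w).toFinset.bipartiteBelow r s).card = Fintype.card F - 1 := by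
    intro s hs
    rw [Set.mem_toFinset] at hs
    rw [← card_two_funct P.hM hw (s := s) (by
      rintro c rfl
      have hc : c ≠ 0 := by rintro rfl; rw [zero_smul] at hs; exact P.cone.zero hs
      exact hwS ((P.cone.smul_iff hc).1 hs)), Set.ncard_eq_toFinset_card']
    congr 1
    ext g
    rw [Finset.mem_bipartiteBelow, Set.mem_toFinset, Set.mem_toFinset]
    exact ⟨fun h => ⟨h.1.1, h.1.2.1, h.2⟩, fun h => ⟨⟨h.1, h.2.1, s, hs, h.2.2⟩, h.2.2⟩⟩
  have h3 := Finset.card_mul_eq_card_mul r h1 h2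
  rw [← Set.ncard_eq_toFinset_card', ← Set.ncard_eq_toFinset_card', ← mul_assoc] at h3
  exact Nat.eq_of_mul_eq_mul_right hQ h3

theorem cone_DW (w : M) : Cone F (DW (F := F) S w) where
  zero h := h.1 rfl
  smul c hc g := by
    rintro ⟨h1, h2, s, hs, h3⟩
    exact ⟨smul_ne_zero hc h1, by rw [LinearMap.smul_apply, h2, smul_zero], s, hs, by
      rw [LinearMap.smul_apply, h3, smul_zero]⟩

/-- `b` divides `Q` and the number of lines through a point off `S` -/
theorem Pl.exists_R (P : Pl T S b) {w : M} (hw : w ≠ 0) (hwS : w ∉ S) :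
    ∃ X, 1 ≤ X ∧ b * X = Fintype.card F ∧ (DW (F := F) S w).ncard = (Fintype.card F - 1) * (Fintype.card F + 1 - X) := by
  have hfD : Finite (Dual F M) := Module.finite_of_finite F
  obtain ⟨R, hR⟩ := (cone_DW (F := F) (S := S) w).dvd
  have h1 := P.card_DW hw hwS
  rw [hR, P.card_S] at h1
  obtain ⟨c, hc⟩ : ∃ c, b = c + 1 := ⟨b - 1, by have := P.b1; omega⟩
  obtain ⟨m, hm⟩ : ∃ m, Fintype.card F = m + 1 := ⟨Fintype.card F - 1, by have := q_pos (F := F); omega⟩
  have hm0 : 0 < m := by have := q_pos (F := F); omega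
  have hb1 := P.b1
  rw [hm, Nat.add_sub_cancel, hc, Nat.add_sub_cancel] at h1
  have h2 : (m + 1) ^ 2 - 1 = m * (m + 2) := by
    have : (m + 1) ^ 2 = m * (m + 2) + 1 := by ring
    omega
  rw [h2] at h1
  have h3 : m * (R * (c + 1)) = m * (1 + (m + 2) * c) := by rw [← mul_assoc, h1]; ring
  have h4 := Nat.eq_of_mul_eq_mul_left hm0 h3
  have h5 : R * b + Fintype.card F = (Fintype.card F + 1) * b := by
    rw [hm, hc, h4]; ring
  have h6 : b ∣ Fintype.card F := by
    have : b ∣ R * b + Fintype.card F := h5 ▸ Dvd.intro_left _ rfl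
    exact (Nat.dvd_add_right (Dvd.intro_left _ rfl)).1 this
  obtain ⟨X, hX⟩ := h6
  have hX1 : 1 ≤ X := by
    rcases Nat.eq_zero_or_pos X with h | h
    · rw [h, mul_zero] at hX; omega
    · exact h
  refine ⟨X, hX1, hX.symm, ?_⟩
  rw [hR]
  congr 1
  have h7 : (R + X) * b = (Fintype.card F + 1) * b := by
    rw [← h5, add_mul, mul_comm X b, ← hX]
  have := Nat.eq_of_mul_eq_mul_right (by omega) h7
  omega

/-! ### an involution -/

/-- the group with the scalars -/
@[instance_reducible]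
def actS : MulAction (T × Fˣ) M where
  smul p v := (p.2 : F) • p.1.1 v
  one_smul v := one_smul F v
  mul_smul p p' v := by
    change ((p.2 * p'.2 : Fˣ) : F) • (p.1.1 * p'.1.1) v = (p.2 : F) • p.1.1 ((p'.2 : F) • p'.1.1 v)
    rw [map_smul, smul_smul, Units.val_mul]
    rfl

theorem Pl.dvd_card (P : Pl T S b) : S.ncard ∣ Nat.card T * (Fintype.card F - 1) := by
  classical
  have := P.fin
  obtain ⟨s, hs⟩ := P.ne
  let _ : MulAction (T × Fˣ) M := actS
  have h1 : MulAction.orbit (T × Fˣ) s = S := by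
    ext v
    constructor
    · rintro ⟨⟨t, c⟩, rfl⟩
      exact P.cone.smul _ c.ne_zero _ ((P.inv t.1 t.2 s).2 hs)
    · intro hv
      obtain ⟨t, ht, c, hc⟩ := P.ts s hs v hv
      have hc0 : c ≠ 0 := by
        rintro rfl
        rw [zero_smul] at hc
        exact P.cone.ne hs ((LinearEquiv.map_eq_zero_iff t).1 hc)
      refine ⟨(⟨t, ht⟩, (Units.mk0 c hc0)⁻¹), ?_⟩
      change (((Units.mk0 c hc0)⁻¹ : Fˣ) : F) • t s = v
      rw [hc, smul_smul, Units.val_inv_eq_inv_val, Units.val_mk0, inv_mul_cancel₀ hc0, one_smul]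
  have h2 : S.ncard = Nat.card (MulAction.orbit (T × Fˣ) s) := by rw [h1]; rfl
  rw [h2, Nat.card_congr (MulAction.orbitEquivQuotientStabilizer (T × Fˣ) s)]
  have h3 := Subgroup.card_quotient_dvd_card (MulAction.stabilizer (T × Fˣ) s)
  rw [Nat.card_prod, Nat.card_eq_fintype_card (α := Fˣ), Fintype.card_units] at h3
  exact h3

/-- involutions are transvections -/
theorem exists_tv (h2 : (2 : F) = 0) (hM : finrank F M = 3) (hT : 2 ∣ Nat.card T) :
    ∃ (f : Dual F M) (w : M), f ≠ 0 ∧ w ≠ 0 ∧ TV T f w := by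
  have hfM : Finite M := Module.finite_of_finite F
  have : Finite (M ≃ₗ[F] M) := Finite.of_injective (fun t => (t : M → M)) DFunLike.coe_injective
  have : Fact (Nat.Prime 2) := ⟨Nat.prime_two⟩
  obtain ⟨t, ht⟩ := exists_prime_orderOf_dvd_card' 2 hT
  have ht2 : ∀ v, t.1 (t.1 v) = v := by
    intro v
    have h1 : t ^ 2 = 1 := by rw [← ht, pow_orderOf_eq_one]
    have h3 : (t.1 ^ 2 : M ≃ₗ[F] M) = 1 := congrArg Subtype.val h1
    have h4 := LinearEquiv.congr_fun h3 v
    rw [pow_two, LinearEquiv.mul_apply] at h4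
    exact h4
  have hdbl : ∀ v : M, v + v = 0 := fun v => by rw [← two_smul F v, h2, zero_smul]
  let N : M →ₗ[F] M := (t.1 : M →ₗ[F] M) + LinearMap.id
  have hN : ∀ v, N v = t.1 v + v := fun v => rfl
  have hNN : ∀ v, N (N v) = 0 := by
    intro v
    rw [hN, hN, map_add, ht2]
    have : v + t.1 v + (t.1 v + v) = (v + v) + (t.1 v + t.1 v) := by abel
    rw [this, hdbl, hdbl, add_zero]
  have hN0 : N ≠ 0 := by
    intro e
    have h1 : t = 1 := by
      refine Subtype.ext (LinearEquiv.ext fun v => ?_)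
      have h3 : t.1 v + v = v + v := by rw [hdbl, ← hN, e, LinearMap.zero_apply]
      exact add_right_cancel h3
    rw [h1, orderOf_one] at ht
    omega
  have h3 := LinearMap.finrank_range_add_finrank_ker N
  have h4 : LinearMap.range N ≤ LinearMap.ker N := by
    rintro _ ⟨v, rfl⟩
    exact hNN v
  have h5 := Submodule.finrank_mono h4
  have h6 : finrank F (LinearMap.range N) ≤ 1 := by omega
  obtain ⟨v₀, hv₀⟩ : ∃ v, N v ≠ 0 := by
    by_contra hcon
    push Not at hcon
    exact hN0 (LinearMap.ext hcon)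
  have h7 : ∀ v, ∃ c : F, c • N v₀ = N v := by
    intro v
    have h8 : Submodule.span F {N v₀} = LinearMap.range N := by
      refine Submodule.eq_of_le_of_finrank_le ?_ ?_
      · rw [Submodule.span_singleton_le_iff_mem]
        exact ⟨v₀, rfl⟩
      · rw [finrank_span_singleton hv₀]; exact h6
    have h9 : N v ∈ Submodule.span F {N v₀} := by rw [h8]; exact ⟨v, rfl⟩
    exact Submodule.mem_span_singleton.1 h9
  obtain ⟨g, hg⟩ := Projective.exists_dual_eq_one F hv₀
  have h8 : ∀ v, N v = g (N v) • N v₀ := by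
    intro v
    obtain ⟨c, hc⟩ := h7 v
    rw [← hc, map_smul, hg, smul_eq_mul, mul_one]
  refine ⟨g ∘ₗ N, N v₀, ?_, hv₀, ?_, t.1, t.2, fun v => ?_⟩
  · intro e
    have := LinearMap.congr_fun e v₀
    rw [LinearMap.comp_apply, hg, LinearMap.zero_apply] at this
    exact one_ne_zero this
  · rw [LinearMap.comp_apply, hNN, map_zero]
  · rw [LinearMap.comp_apply, ← h8, hN]
    have : v + (t.1 v + v) = t.1 v + (v + v) := by abel
    rw [this, hdbl, add_zero]

/-- involutions without fixed points -/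
theorem even_of_invol {α : Type*} {A : Set α} (hA : A.Finite) (g : α → α) (h1 : ∀ x ∈ A, g x ∈ A) (h2 : ∀ x ∈ A, g (g x) = x)
    (h3 : ∀ x ∈ A, g x ≠ x) : Even A.ncard := by
  classical
  rw [Set.ncard_eq_toFinset_card A hA]
  have h : ∑ x ∈ hA.toFinset, (1 : ZMod 2) = 0 := by
    refine Finset.sum_involution (fun x _ => g x) (fun _ _ => by decide) (fun x hx _ => h3 x (hA.mem_toFinset.1 hx))
      (fun x hx => hA.mem_toFinset.2 (h1 x (hA.mem_toFinset.1 hx))) (fun x hx => h2 x (hA.mem_toFinset.1 hx))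
  rw [Finset.sum_const, nsmul_eq_mul, mul_one] at h
  exact (ZMod.natCast_eq_zero_iff_even).1 h

/-- the centres are not in `S` -/
theorem Pl.centre (P : Pl T S b) (h2 : (2 : F) = 0) (hb : Even b) {f : Dual F M} {w : M} (hf : f ≠ 0)
    (h : TV T f w) : w ∉ S := by
  intro hw
  have := P.fin
  obtain ⟨h0, t, ht, h1⟩ := h
  have hdbl : ∀ v : M, v + v = 0 := fun v => by rw [← two_smul F v, h2, zero_smul]
  obtain ⟨x, hx⟩ : ∃ x, f x ≠ 0 := by
    by_contra hcon
    push Not at hcon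
    exact hf (LinearMap.ext hcon)
  set E := Submodule.span F {w} with hE
  have hfE : ∀ v ∈ E, f v = 0 := by
    intro v hv
    obtain ⟨c, rfl⟩ := Submodule.mem_span_singleton.1 hv
    rw [map_smul, h0, smul_zero]
  have hy : E.mkQ x ≠ 0 := by
    intro e
    exact hx (hfE x ((Submodule.Quotient.mk_eq_zero E).1 e))
  have h3 : (fib S E (E.mkQ x)).ncard + 1 = b := fib_of_mem P.cone P.zl hw hy
  have h4 : ∀ v, E.mkQ v = E.mkQ x → f v = f x := by
    intro v hv
    have h5 : v - x ∈ E := (Submodule.Quotient.eq E).1 hv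
    have := hfE _ h5
    rw [map_sub, sub_eq_zero] at this
    exact this
  have h5 : ∀ v, E.mkQ v = E.mkQ x → t v = v + f x • w := fun v hv => by rw [h1, h4 v hv]
  have h6 : ∀ v, E.mkQ v = E.mkQ x → E.mkQ (t v) = E.mkQ x := by
    intro v hv
    rw [h5 v hv, map_add, hv]
    have : E.mkQ (f x • w) = 0 :=
      (Submodule.Quotient.mk_eq_zero E).2 (E.smul_mem _ (Submodule.mem_span_singleton_self w))
    rw [this, add_zero]
  have h7 := even_of_invol (Set.toFinite (fib S E (E.mkQ x))) t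
    (fun v hv => ⟨(P.inv t ht v).2 hv.1, h6 v hv.2⟩)
    (fun v hv => by
      rw [h5 _ (h6 v hv.2), h5 v hv.2, add_assoc, hdbl, add_zero])
    (fun v hv e => by
      rw [h5 v hv.2] at e
      have h8 : f x • w = 0 := by
        have : v + f x • w = v + 0 := by rw [e, add_zero]
        exact add_left_cancel this
      rcases smul_eq_zero.1 h8 with h9 | h9
      · exact hx h9
      · exact P.cone.ne hw h9)
  obtain ⟨c, hc⟩ := hb
  obtain ⟨d, hd⟩ := h7
  omega

/-! ### the two cases -/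

theorem Pl.ea_two (_ : Pl T S b) {a : ℕ} (ha : Fintype.card F = 2 ^ a) (f : Dual F M) (w : M) :
    ∃ m, m ≤ a ∧ Nat.card (EA T f w) = 2 ^ m :=
  card_two (by rw [Nat.card_eq_fintype_card, ha]) _

theorem Pl.em_two (P : Pl T S b) {a : ℕ} (ha : Fintype.card F = 2 ^ a) (f : Dual F M) :
    ∃ m, Nat.card (EM T f) = 2 ^ m := by
  have := P.fin
  obtain ⟨m, -, hm⟩ := card_two (n := a * 3) (by
    rw [Module.natCard_eq_pow_finrank (K := F), P.hM, Nat.card_eq_fintype_card, ha, pow_mul]) (EM T f)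
  exact ⟨m, hm⟩

theorem Pl.ed_two (P : Pl T S b) {a : ℕ} (ha : Fintype.card F = 2 ^ a) (w : M) :
    ∃ m, Nat.card (ED T w) = 2 ^ m := by
  have : Finite (Dual F M) := Module.finite_of_finite F
  obtain ⟨m, -, hm⟩ := card_two (n := a * 3) (by
    rw [Module.natCard_eq_pow_finrank (K := F), Subspace.dual_finrank_eq, P.hM, Nat.card_eq_fintype_card, ha, pow_mul])
      (ED T w)
  exact ⟨m, hm⟩

/-- no axis misses `S` -/
theorem Pl.axis (P : Pl T S b) {a : ℕ} (ha : Fintype.card F = 2 ^ a) {f : Dual F M} {w : M} (hf : f ≠ 0) (hw : w ≠ 0)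
    (h : TV T f w) : ∃ s ∈ S, f s = 0 := by
  classical
  by_contra hcon
  have hext : ∀ s ∈ S, f s ≠ 0 := by
    intro s hs e
    exact hcon ⟨s, hs, e⟩
  have hfM := P.fin
  have hQ := q_pos (F := F)
  have hnS : ∀ v, f v = 0 → v ∉ S := fun v hv hvS => hext v hvS hv
  have h1 : ∀ v, v ≠ 0 → f v = 0 → Nat.card (EA T f v) = Nat.card (EA T f w) := by
    intro v hv0 hv
    exact P.ea_eq hv0 hw (hnS v hv) (hnS w h.1) hf hf hv h.1 Iff.rfl
  obtain ⟨ε, hεa, hε⟩ := P.ea_two ha f w
  obtain ⟨m, hm⟩ := P.em_two ha f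
  have hε1 : 1 ≤ ε := by
    rcases Nat.eq_zero_or_pos ε with h2 | h2
    · exfalso
      rw [h2, pow_zero] at hε
      have h3 := AddSubgroup.card_eq_one.1 hε
      have h4 : (1 : F) ∈ EA T f w := by
        rw [mem_EA, one_smul]; exact h
      rw [h3, AddSubgroup.mem_bot] at h4
      exact one_ne_zero h4
    · exact h2
  have h2 := count_cone (F := F) (EM T f : Set M) ((LinearMap.ker f : Set M) \ {0}) (Nat.card (EA T f w) - 1)
    (fun h => h.2 rfl)
    (fun v hv => by
      rw [← h1 v hv.2 hv.1, ← ncard_EA]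
      rfl)
    (fun u hu hu0 c hc => by
      refine ⟨?_, smul_ne_zero hc hu0⟩
      change f (c • u) = 0
      rw [map_smul, (show TV T f u from hu).1, smul_zero])
  rw [Set.ncard_sdiff_singleton_of_mem (show (0 : M) ∈ (LinearMap.ker f : Set M) from zero_mem _), card_submodule,
    finrank_ker P.hM hf, Set.ncard_sdiff_singleton_of_mem (show (0 : M) ∈ (EM T f : Set M) from zero_mem _)] at h2
  have h3 : (EM T f : Set M).ncard = Nat.card (EM T f) := rfl
  rw [h3, hm, hε] at h2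
  obtain ⟨μ, hμ⟩ : ∃ μ, Fintype.card F = μ + 1 := ⟨Fintype.card F - 1, by omega⟩
  have h4 : Fintype.card F ^ 2 - 1 = (Fintype.card F - 1) * (Fintype.card F + 1) := by
    rw [hμ]
    have : (μ + 1) ^ 2 = μ * (μ + 1 + 1) + 1 := by ring
    rw [Nat.add_sub_cancel]
    omega
  rw [h4, mul_assoc] at h2
  have h5 := Nat.eq_of_mul_eq_mul_left hQ h2
  have h6 : ε = a := by
    refine num_key (m := m) (Y := 1) hε1 odd_one ?_
    have := Nat.one_le_two_pow (n := m)
    rw [mul_one, ← ha, add_comm 1 (Fintype.card F), h5]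
    omega
  rw [h6, ← ha] at h5
  have h7 : 2 ^ m = Fintype.card F ^ 2 := by
    have h8 := Nat.one_le_two_pow (n := m)
    have h9 : Fintype.card F ^ 2 = (Fintype.card F + 1) * (Fintype.card F - 1) + 1 := by
      rw [hμ, Nat.add_sub_cancel]; ring
    omega
  -- all translations with axis `ker f`
  have h8 : ∀ u, f u = 0 → TV T f u := by
    have h9 : (EM T f : Set M) = (LinearMap.ker f : Set M) := by
      refine Set.eq_of_subset_of_ncard_le ?_ ?_ (Set.toFinite _)
      · intro u hu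
        exact (show TV T f u from hu).1
      · rw [card_submodule, finrank_ker P.hM hf, h3, hm, h7]
    intro u hu
    have h10 : u ∈ (LinearMap.ker f : Set M) := hu
    rw [← h9] at h10
    exact h10
  obtain ⟨s, hs⟩ := P.ne
  have hfs := hext s hs
  have h9 : ∀ c : F, s + c • w ∈ S := by
    intro c
    obtain ⟨-, t, ht, h10⟩ := h8 (((f s)⁻¹ * c) • w) (by rw [map_smul, h.1, smul_zero])
    have h11 := h10 s
    rw [smul_smul, mul_inv_cancel_left₀ hfs] at h11
    rw [← h11, P.inv t ht]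
    exact hs
  set E := Submodule.span F {w} with hE
  have hy : E.mkQ s ≠ 0 := by
    intro e
    have h10 : s ∈ E := (Submodule.Quotient.mk_eq_zero E).1 e
    obtain ⟨c, hc⟩ := Submodule.mem_span_singleton.1 h10
    apply hfs
    rw [← hc, map_smul, h.1, smul_zero]
  have h10 : (fib S E (E.mkQ s)).ncard = 0 ∨ (fib S E (E.mkQ s)).ncard = b :=
    fib_of_notMem P.cone P.zl hw (hnS w h.1) hy
  have h11 : Fintype.card F ≤ (fib S E (E.mkQ s)).ncard := by
    rw [← Nat.card_eq_fintype_card, ← Nat.card_coe_set_eq]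
    refine Nat.card_le_card_of_injective (fun c : F => (⟨s + c • w, h9 c, ?_⟩ : fib S E (E.mkQ s))) ?_
    · rw [map_add]
      have : E.mkQ (c • w) = 0 :=
        (Submodule.Quotient.mk_eq_zero E).2 (E.smul_mem _ (Submodule.mem_span_singleton_self w))
      rw [this, add_zero]
    · intro c c' e
      have h12 : s + c • w = s + c' • w := congrArg Subtype.val e
      exact smul_left_injective F hw (add_left_cancel h12)
  have := P.bQ
  omega

/-- **The planar lemma in characteristic two.** -/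
theorem Pl.false (P : Pl T S b) {a : ℕ} (ha : Fintype.card F = 2 ^ a) (h4 : 4 < Fintype.card F) : False := by
  classical
  have hfM := P.fin
  have hfD : Finite (Dual F M) := Module.finite_of_finite F
  have hQ := q_pos (F := F)
  have ha0 : a ≠ 0 := by rintro rfl; rw [pow_zero] at ha; omega
  have h2 : (2 : F) = 0 := by
    have h := FiniteField.cast_card_eq_zero F
    rw [ha, Nat.cast_pow, Nat.cast_ofNat] at h
    exact pow_eq_zero_iff ha0 |>.1 h
  -- a point off `S`
  obtain ⟨w₁, hw₁, hw₁S⟩ : ∃ w : M, w ≠ 0 ∧ w ∉ S := by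
    by_contra hcon
    push Not at hcon
    have h3 : S = Set.univ \ {0} := by
      ext v
      exact ⟨fun h => ⟨trivial, P.cone.ne h⟩, fun h => hcon v h.2⟩
    obtain ⟨s, hs⟩ := P.ne
    obtain ⟨f, hf⟩ := Projective.exists_dual_eq_one F (P.cone.ne hs)
    have hf0 : f ≠ 0 := by rintro rfl; rw [LinearMap.zero_apply] at hf; exact zero_ne_one hf
    have h5 := P.zl _ (finrank_ker P.hM hf0)
    have h6 : ((LinearMap.ker f : Set M) ∩ S) = (LinearMap.ker f : Set M) \ {0} := by
      rw [h3]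
      ext v
      exact ⟨fun h => ⟨h.1, h.2.2⟩, fun h => ⟨h.1, trivial, h.2⟩⟩
    rw [h6, Set.ncard_sdiff_singleton_of_mem (show (0 : M) ∈ (LinearMap.ker f : Set M) from zero_mem _),
      card_submodule, finrank_ker P.hM hf0] at h5
    obtain ⟨μ, hμ⟩ : ∃ μ, Fintype.card F = μ + 1 := ⟨Fintype.card F - 1, by omega⟩
    have h7 : Fintype.card F ^ 2 - 1 = (Fintype.card F + 1) * (Fintype.card F - 1) := by
      rw [hμ, Nat.add_sub_cancel]
      have : (μ + 1) ^ 2 = (μ + 1 + 1) * μ + 1 := by ring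
      omega
    rw [h7] at h5
    rcases h5 with h5 | h5
    · rcases Nat.mul_eq_zero.1 h5 with h | h <;> omega
    · have := Nat.eq_of_mul_eq_mul_right hQ h5
      have := P.bQ
      omega
  obtain ⟨X, hX1, hX, hDW⟩ := P.exists_R hw₁ hw₁S
  -- `b` and `X` are powers of two
  obtain ⟨β, hβa, hβ⟩ := (Nat.dvd_prime_pow Nat.prime_two).1 (ha ▸ Dvd.intro X hX : b ∣ 2 ^ a)
  obtain ⟨γ, hγa, hγ⟩ := (Nat.dvd_prime_pow Nat.prime_two).1 (ha ▸ Dvd.intro_left b hX : X ∣ 2 ^ a)
  have hβ1 : 1 ≤ β := by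
    rcases Nat.eq_zero_or_pos β with h | h
    · rw [h, pow_zero] at hβ
      have := P.b1
      omega
    · exact h
  have hγ1 : 1 ≤ γ := by
    rcases Nat.eq_zero_or_pos γ with h | h
    · rw [h, pow_zero] at hγ
      rw [hγ, mul_one] at hX
      have := P.bQ
      omega
    · exact h
  have hbe : Even b := by
    rw [hβ]
    exact (Nat.even_pow.2 ⟨even_two, by omega⟩)
  have hXe : Even X := by
    rw [hγ]
    exact (Nat.even_pow.2 ⟨even_two, by omega⟩)
  -- an involution
  have hTe : 2 ∣ Nat.card T := by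
    have h3 : 2 ∣ S.ncard := by
      rw [← P.card_DW hw₁ hw₁S]
      exact Dvd.dvd.mul_left hbe.two_dvd _
    rcases (Nat.prime_two.dvd_mul).1 (h3.trans P.dvd_card) with h | h
    · exact h
    · exfalso
      have h5 : 2 ∣ Fintype.card F := by
        rw [ha]; exact dvd_pow_self 2 ha0
      omega
  obtain ⟨f₀, w₀, hf₀, hw₀, hTV⟩ := exists_tv h2 P.hM hTe
  have hw₀S := P.centre h2 hbe hf₀ hTV
  have hf₀S := P.axis ha hf₀ hw₀ hTV
  have hax : ∀ {g : Dual F M} {v : M}, g ≠ 0 → v ≠ 0 → TV T g v → ∃ s ∈ S, g s = 0 := fun h h' h'' => P.axis ha h h' h''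
  obtain ⟨ε, hεa, hε⟩ := P.ea_two ha f₀ w₀
  have hε1 : 1 ≤ ε := by
    rcases Nat.eq_zero_or_pos ε with h2 | h2
    · exfalso
      rw [h2, pow_zero] at hε
      have h3 := AddSubgroup.card_eq_one.1 hε
      have h4 : (1 : F) ∈ EA T f₀ w₀ := by
        rw [mem_EA, one_smul]; exact hTV
      rw [h3, AddSubgroup.mem_bot] at h4
      exact one_ne_zero h4
    · exact h2
  have hea : ∀ {g : Dual F M} {v : M}, g ≠ 0 → v ≠ 0 → v ∉ S → g v = 0 → (∃ s ∈ S, g s = 0) →
      Nat.card (EA T g v) = Nat.card (EA T f₀ w₀) := by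
    intro g v hg hv hvS hgv hgS
    exact P.ea_eq hv hw₀ hvS hw₀S hg hf₀ hgv hTV.1 ⟨fun _ => hf₀S, fun _ => hgS⟩
  -- translations with axis `ker f₀`
  obtain ⟨m, hm⟩ := P.em_two ha f₀
  obtain ⟨n, hn⟩ := P.ed_two ha w₁
  have c1 := count_cone (F := F) (EM T f₀ : Set M) ((((LinearMap.ker f₀ : Set M) \ {0}) \ ((LinearMap.ker f₀ : Set M) ∩ S)))
    (Nat.card (EA T f₀ w₀) - 1) (fun h => h.1.2 rfl)
    (fun v hv => by
      rw [← hea hf₀ hv.1.2 (fun h => hv.2 ⟨hv.1.1, h⟩) hv.1.1 hf₀S, ← ncard_EA]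
      rfl)
    (fun u hu hu0 c hc => by
      have hu' : TV T f₀ u := hu
      refine ⟨⟨?_, smul_ne_zero hc hu0⟩, fun h => ?_⟩
      · change f₀ (c • u) = 0
        rw [map_smul, hu'.1, smul_zero]
      · exact P.centre h2 hbe hf₀ hu' ((P.cone.smul_iff hc).1 h.2))
  rw [Set.ncard_sdiff (by
      rintro v ⟨h5, h6⟩
      exact ⟨h5, P.cone.ne h6⟩) (Set.toFinite _), P.card_ker hf₀ hf₀S,
    Set.ncard_sdiff_singleton_of_mem (show (0 : M) ∈ (LinearMap.ker f₀ : Set M) from zero_mem _), card_submodule,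
    finrank_ker P.hM hf₀, Set.ncard_sdiff_singleton_of_mem (show (0 : M) ∈ (EM T f₀ : Set M) from zero_mem _)] at c1
  have e1 : (EM T f₀ : Set M).ncard = Nat.card (EM T f₀) := rfl
  rw [e1, hm, hε] at c1
  -- translations with centre `w₁`
  have c2 := count_cone (F := F) (ED T w₁ : Set (Dual F M)) (DW (F := F) S w₁) (Nat.card (EA T f₀ w₀) - 1)
    (fun h => h.1 rfl)
    (fun g hg => by
      rw [← hea hg.1 hw₁ hw₁S hg.2.1 hg.2.2, ← ncard_EA]
      congr 1
      ext c
      exact and_congr_right fun _ => TV.smul_iff)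
    (fun g hg hg0 c hc => by
      have hg' : TV T g w₁ := hg
      obtain ⟨s, hs, hgs⟩ := hax hg0 hw₁ hg'
      exact ⟨smul_ne_zero hc hg0, by rw [LinearMap.smul_apply, hg'.1, smul_zero], s, hs, by
        rw [LinearMap.smul_apply, hgs, smul_zero]⟩)
  rw [hDW, Set.ncard_sdiff_singleton_of_mem (show (0 : Dual F M) ∈ (ED T w₁ : Set (Dual F M)) from zero_mem _)] at c2
  have e2 : (ED T w₁ : Set (Dual F M)).ncard = Nat.card (ED T w₁) := rfl
  rw [e2, hn, hε, mul_assoc] at c2
  have d2 := Nat.eq_of_mul_eq_mul_left hQ c2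
  obtain ⟨μ, hμ⟩ : ∃ μ, Fintype.card F = μ + 1 := ⟨Fintype.card F - 1, by omega⟩
  have h7 : Fintype.card F ^ 2 - 1 - b * (Fintype.card F - 1) = (Fintype.card F - 1) * (Fintype.card F + 1 - b) := by
    have h8 : Fintype.card F ^ 2 - 1 = (Fintype.card F - 1) * (Fintype.card F + 1) := by
      rw [hμ, Nat.add_sub_cancel]
      have : (μ + 1) ^ 2 = μ * (μ + 1 + 1) + 1 := by ring
      omega
    rw [h8, mul_comm b, ← Nat.mul_sub]
  rw [h7, mul_assoc] at c1
  have d1 := Nat.eq_of_mul_eq_mul_left hQ c1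
  -- `ε = β`
  have hbQ := P.bQ
  have f1 : ε = β := by
    refine num_key (m := m) (Y := X - 1) hε1 ?_ ?_
    · obtain ⟨x, hx⟩ := hXe
      exact ⟨x - 1, by omega⟩
    · have h9 := Nat.one_le_two_pow (n := m)
      have h10 : 1 + 2 ^ β * (X - 1) = Fintype.card F + 1 - b := by
        rw [← hβ, Nat.mul_sub, hX, mul_one]
        omega
      rw [h10, d1]
      omega
  have f2 : ε = γ := by
    refine num_key (m := n) (Y := b - 1) hε1 ?_ ?_
    · obtain ⟨x, hx⟩ := hbe
      have := P.b1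
      exact ⟨x - 1, by omega⟩
    · have h9 := Nat.one_le_two_pow (n := n)
      have h10 : 1 + 2 ^ γ * (b - 1) = Fintype.card F + 1 - X := by
        rw [← hγ, Nat.mul_sub, mul_comm X b, hX, mul_one]
        have : X ≤ Fintype.card F := Nat.le_of_dvd (by omega) (Dvd.intro_left b hX)
        omega
      rw [h10, d2]
      omega
  have hbX : X = 2 ^ β := by rw [hγ, ← f2, f1]
  have f3 : β = 1 := by
    refine num_final (m := m) hβ1 ?_
    have h9 := Nat.one_le_two_pow (n := m)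
    rw [f1] at d1
    have h10 : 1 + 2 ^ β * (2 ^ β - 1) = Fintype.card F + 1 - b := by
      rw [Nat.mul_sub, mul_one, ← hX, hbX, hβ]
      have : 2 ^ β ≤ 2 ^ β * 2 ^ β := Nat.le_mul_of_pos_left _ (by positivity)
      omega
    rw [h10, d1]
    omega
  rw [f3, pow_one] at hβ hbX
  rw [hβ, hbX] at hX
  omega

end

end Cfsg.Agent.H449.U.ME
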