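import Cfsg.Agent.H449.U.Planar
import Cfsg.Agent.H449.U.CW
import Cfsg.Agent.H449.U.ZeroB
import Cfsg.Agent.H450.UF.Four

/-!
# The six-dimensional Hermitian space: hyperbolic frames (helper449, for S2196)
-/

set_option autoImplicit false
set_option linter.unusedSectionVars false

namespace Cfsg.Agent.H449.U

open Module Cfsg.Agent.H91.U
open Cfsg.Agent.H450.UF (self_fix)

variable {F V : Type*} [Field F] [Fintype F] [AddCommGroup V] [Module F V] [FiniteDimensional F V]
  {σ : F →+* F} {B : V →ₛₗ[σ] V →ₗ[F] F}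

/-- a frame of a plane through a line and a point -/
theorem exists_frame3 {M L : Submodule F V} (hM : finrank F M = 3) (hTI : TI B M) (hL : finrank F L = 2) (hLM : L ≤ M)
    {s : V} (hs : s ∈ L) (hs0 : s ≠ 0) :
    ∃ u : Fin 3 → V, Frame B u ∧ u 0 = s ∧ W F u 1 = Submodule.span F {s} ∧ W F u 2 = L ∧ W F u 3 = M := by
  obtain ⟨y, hy, hyx⟩ : ∃ y ∈ L, y ∉ Submodule.span F {s} := by
    by_contra hcon
    push Not at hcon
    have h1 : L ≤ Submodule.span F {s} := hcon
    have h2 := Submodule.finrank_mono h1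
    rw [hL, finrank_span_singleton hs0] at h2
    omega
  have hli : LinearIndependent F ![s, y] := by
    rw [LinearIndependent.pair_iff' hs0]
    intro a e
    exact hyx (Submodule.mem_span_singleton.2 ⟨a, e⟩)
  have hfr : finrank F (Submodule.span F {s, y}) = 2 := by
    have h1 := finrank_span_eq_card hli
    rwa [Fintype.card_fin, Matrix.range_cons, Matrix.range_cons, Matrix.range_empty, Set.union_empty,
      Set.singleton_union] at h1
  have hsp : Submodule.span F {s, y} = L := by
    refine Submodule.eq_of_le_of_finrank_eq (Submodule.span_le.2 ?_) (by rw [hfr, hL])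
    rintro z (rfl | rfl)
    · exact hs
    · exact hy
  obtain ⟨z, hz, hzL⟩ : ∃ z ∈ M, z ∉ L := by
    by_contra hcon
    push Not at hcon
    have := Submodule.finrank_mono (show M ≤ L from hcon)
    omega
  let u : Fin 3 → V := ![s, y, z]
  have hW2 : W F u 2 = L := by
    rw [← hsp]
    unfold W
    congr 1
    ext v
    constructor
    · rintro ⟨l, hl, rfl⟩
      have h1 : (l : ℕ) < 2 := hl
      have h2 : l = 0 ∨ l = 1 := by
        rcases l with ⟨l, hl⟩
        have : l = 0 ∨ l = 1 := by
          change l < 2 at h1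
          omega
        rcases this with rfl | rfl
        · exact Or.inl rfl
        · exact Or.inr rfl
      rcases h2 with rfl | rfl
      · exact Or.inl rfl
      · exact Or.inr rfl
    · rintro (rfl | rfl)
      · exact ⟨0, show (0 : ℕ) < 2 by omega, rfl⟩
      · exact ⟨1, show (1 : ℕ) < 2 by omega, rfl⟩
  have hW1 : W F u 1 = Submodule.span F {s} := by
    unfold W
    congr 1
    ext v
    constructor
    · rintro ⟨l, hl, rfl⟩
      have : l = 0 := Fin.ext (by have : (l : ℕ) < 1 := hl; change (l : ℕ) = 0; omega)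
      rw [this]; rfl
    · intro hv
      rw [Set.mem_singleton_iff.1 hv]
      exact ⟨0, Nat.zero_lt_one, rfl⟩
  have hle : Submodule.span F (Set.range u) ≤ M := by
    rw [Submodule.span_le]
    rintro _ ⟨l, rfl⟩
    fin_cases l
    · exact hLM hs
    · exact hLM hy
    · exact hz
  have hlt : L < Submodule.span F (Set.range u) := by
    refine lt_of_le_of_ne ?_ ?_
    · rw [← hW2, ← W_of_le u le_rfl]
      exact W_mono u (by omega)
    · intro e
      apply hzL
      rw [e]
      exact Submodule.subset_span ⟨2, rfl⟩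
  have h1 := Submodule.finrank_lt_finrank_of_lt hlt
  have h2 := Submodule.finrank_mono hle
  have hli3 : LinearIndependent F u := by
    rw [linearIndependent_iff_card_eq_finrank_span, Fintype.card_fin, Set.finrank]
    omega
  have hW3 : W F u 3 = M := by
    rw [W_of_le u le_rfl]
    exact Submodule.eq_of_le_of_finrank_eq hle (by omega)
  refine ⟨u, ⟨hli3, fun i l => ?_⟩, rfl, hW1, hW2, hW3⟩
  exact hTI _ (hle (Submodule.subset_span ⟨i, rfl⟩)) _ (hle (Submodule.subset_span ⟨l, rfl⟩))

/-- hyperbolic frames -/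
structure Hyp (B : V →ₛₗ[σ] V →ₗ[F] F) (e f : Fin 3 → V) : Prop where
  ee : ∀ i j, B (e i) (e j) = 0
  ff : ∀ i j, B (f i) (f j) = 0
  ef : ∀ i j, B (e i) (f j) = if i = j then 1 else 0

theorem Hyp.fe (hB : HForm B) {e f : Fin 3 → V} (h : Hyp B e f) (i j : Fin 3) :
    B (f i) (e j) = if i = j then 1 else 0 := by
  rw [hB.swap, h.ef]
  split_ifs with h1 h2 h2
  · exact map_one σ
  · exact absurd h1.symm h2
  · exact absurd h2.symm h1
  · exact map_zero σ

theorem Hyp.expand (hB : HForm B) (hV : finrank F V = 6) {e f : Fin 3 → V} (h : Hyp B e f) (v : V) :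
    v = ∑ i, B (f i) v • e i + ∑ i, B (e i) v • f i := by
  have he : ∀ (a b : Fin 3 → F) j, B (e j) (∑ i, a i • e i + ∑ i, b i • f i) = b j := by
    intro a b j
    rw [map_add, map_sum, map_sum]
    simp only [smul_right', h.ee, h.ef, mul_zero, Finset.sum_const_zero, zero_add, mul_ite, mul_one]
    rw [Finset.sum_ite_eq, if_pos (Finset.mem_univ _)]
  have hf : ∀ (a b : Fin 3 → F) j, B (f j) (∑ i, a i • e i + ∑ i, b i • f i) = a j := by
    intro a b j
    rw [map_add, map_sum, map_sum]
    simp only [smul_right', h.ff, h.fe hB, mul_zero, Finset.sum_const_zero, add_zero, mul_ite, mul_one]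
    rw [Finset.sum_ite_eq, if_pos (Finset.mem_univ _)]
  have hli : LinearIndependent F (Sum.elim e f) := by
    rw [Fintype.linearIndependent_iff]
    intro g hg
    rw [Fintype.sum_sum_type] at hg
    simp only [Sum.elim_inl, Sum.elim_inr] at hg
    rintro (i | i)
    · have := hf (fun i => g (Sum.inl i)) (fun i => g (Sum.inr i)) i
      rw [hg, map_zero] at this
      exact this.symm
    · have := he (fun i => g (Sum.inl i)) (fun i => g (Sum.inr i)) i
      rw [hg, map_zero] at this
      exact this.symm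
  have hspan : Submodule.span F (Set.range (Sum.elim e f)) = ⊤ := by
    apply hli.span_eq_top_of_card_eq_finrank'
    rw [Fintype.card_sum, Fintype.card_fin, hV]
  have hv : v ∈ Submodule.span F (Set.range (Sum.elim e f)) := by rw [hspan]; trivial
  obtain ⟨c, hc⟩ := (Submodule.mem_span_range_iff_exists_fun F).1 hv
  rw [Fintype.sum_sum_type] at hc
  simp only [Sum.elim_inl, Sum.elim_inr] at hc
  have h1 : ∀ i, B (f i) v = c (Sum.inl i) := fun i => by rw [← hc]; exact hf _ _ i
  have h2 : ∀ i, B (e i) v = c (Sum.inr i) := fun i => by rw [← hc]; exact he _ _ i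
  simp only [h1, h2]
  exact hc.symm

theorem Hyp.swap (hB : HForm B) {e f : Fin 3 → V} (h : Hyp B e f) : Hyp B ![e 0, e 1, f 2] ![f 0, f 1, e 2] := by
  refine ⟨fun i j => ?_, fun i j => ?_, fun i j => ?_⟩ <;> fin_cases i <;> fin_cases j <;>
    simp [h.ee, h.ff, h.ef, h.fe hB]

theorem Hyp.li (hB : HForm B) {e f : Fin 3 → V} (h : Hyp B e f) : LinearIndependent F e := by
  rw [Fintype.linearIndependent_iff]
  intro g hg i
  have h1 : B (f i) (∑ j, g j • e j) = g i := by
    rw [map_sum]
    simp only [smul_right', h.fe hB, mul_ite, mul_one, mul_zero]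
    rw [Finset.sum_ite_eq, if_pos (Finset.mem_univ _)]
  rw [← h1, hg, map_zero]

theorem Hyp.frame (hB : HForm B) {e f : Fin 3 → V} (h : Hyp B e f) : Frame B e := ⟨h.li hB, h.ee⟩

/-- the data for the six-dimensional case -/
structure SixD (B : V →ₛₗ[σ] V →ₗ[F] F) (O : Set V) (K : Subgroup (V ≃ₗ[F] V)) : Prop where
  hB : HForm B
  hV : finrank F V = 6
  cone : Cone F O
  iso : ∀ v ∈ O, B v v = 0
  one : ∀ x ∈ O, ∀ y ∈ O, B x y = 0 → y ∈ Submodule.span F {x}
  meet : ∀ M : Submodule F V, finrank F M = 3 → TI B M → ∃ x ∈ M, x ∈ O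
  isom : ∀ k ∈ K, ∀ x y, B (k x) (k y) = B x y
  inv : ∀ k ∈ K, ∀ v ∈ O, k v ∈ O
  tr : ∀ u u' : Fin 3 → V, Frame B u → Frame B u' → (∀ i, (∃ v ∈ W F u i, v ∈ O) ↔ (∃ v ∈ W F u' i, v ∈ O)) →
    W F u 3 = W F u' 3 → ∃ k ∈ K, ∀ i, (W F u i).map (k : V →ₗ[F] V) = W F u' i

/-- there is a hyperbolic frame with first vector in `O` -/
theorem SixD.exists_frame {q : ℕ} (hF : Fintype.card F = q ^ 2) {O : Set V} {K : Subgroup (V ≃ₗ[F] V)} (D : SixD B O K) :
    ∃ e f : Fin 3 → V, Hyp B e f ∧ e 0 ∈ O := by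
  have : Finite V := Module.finite_of_finite F
  obtain ⟨M, -, hTI, hM⟩ := Cfsg.Agent.H450.UF.exists_ti_le D.hB Cfsg.Agent.H450.UF.ti_bot (k := 3) (by
    rw [finrank_bot]; omega) (by rw [D.hV])
  obtain ⟨x, hx, hxO⟩ := D.meet M hM hTI
  have hx0 := D.cone.ne hxO
  obtain ⟨y, hy, hyx⟩ : ∃ y ∈ M, y ∉ Submodule.span F {x} := by
    by_contra hcon
    push Not at hcon
    have h1 : M ≤ Submodule.span F {x} := hcon
    have h2 := Submodule.finrank_mono h1
    rw [hM, finrank_span_singleton hx0] at h2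
    omega
  have hli : LinearIndependent F ![x, y] := by
    rw [LinearIndependent.pair_iff' hx0]
    intro a e
    exact hyx (Submodule.mem_span_singleton.2 ⟨a, e⟩)
  have hL : finrank F (Submodule.span F {x, y}) = 2 := by
    have h1 := finrank_span_eq_card hli
    rwa [Fintype.card_fin, Matrix.range_cons, Matrix.range_cons, Matrix.range_empty, Set.union_empty,
      Set.singleton_union] at h1
  obtain ⟨u, hu, hu0, -⟩ := exists_frame3 (B := B) hM hTI hL (Submodule.span_le.2 (by
    rintro z (rfl | rfl)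
    · exact hx
    · exact hy)) (Submodule.subset_span (Or.inl rfl)) hx0
  obtain ⟨f, h1, h2⟩ := Cfsg.Agent.H450.UF.exists_dual_frame hF D.hB hu
  exact ⟨u, f, ⟨hu.ti, h2, h1⟩, by rw [hu0]; exact hxO⟩

end Cfsg.Agent.H449.U
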